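import Cfsg.Agent.H51.ConstrainedCores
import Cfsg.Agent.H35.SigFunTwo

/-!
# Odd cores generate an odd subgroup, given solvability of groups of odd order

The completeness hypothesis of `exists_odd_core_subgroup_of_normal_rank_three` is the solvable
signalizer functor theorem for the prime two, once the values of the functor are solvable.
-/

set_option autoImplicit false

namespace Cfsg.Agent.H51

open Subgroup

universe u

variable {G : Type u} [Group G] [Finite G]

/-- The cores generate a subgroup of odd order, given that groups of odd order are solvable. -/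
theorem exists_odd_core_subgroup_of_odd_solvable
    (hFT : ∀ (H : Type u) [Group H] [Finite H], Odd (Nat.card H) → Group.IsSolvable H)
    (h2c : ∀ T : Subgroup G, IsPGroup 2 T → T ≠ ⊥ → IsPConstrained 2 ↥(normalizer (T : Set G)))
    (S : Sylow 2 G) (A : Subgroup ↥(S : Subgroup G)) (hAn : A.Normal) (hAab : IsMulCommutative ↥A)
    (hA3 : ¬ PRankLE 2 2 ↥A) (S' : Sylow 2 G) :
    ∃ W : Subgroup G, Odd (Nat.card ↥W) ∧
      ∀ B : Subgroup G, B ≤ (S' : Subgroup G) → ¬ PRankLE 2 1 ↥B →
        W = (⨆ b : {b : G // b ∈ B ∧ b ≠ 1}, centralizerPPrimeCore 2 (b : G)) ∧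
        normalizer (B : Set G) ≤ normalizer (W : Set G) := by
  refine exists_odd_core_subgroup_of_normal_rank_three ?_ h2c S A hAn hAab hA3 S'
  intro E θ hE hE8 hθ
  obtain ⟨hmem, hfix, -⟩ := H35.SigFun.solvable_signalizer_functor_two hE hE8
    ⟨hθ, fun a ha ha1 => hFT ↥(θ a)
      (Nat.not_even_iff_odd.mp fun h => hθ.2.1 a ha ha1 (even_iff_two_dvd.mp h))⟩
  exact ⟨Nat.not_even_iff_odd.mp fun h => hmem.2.1 (even_iff_two_dvd.mp h), hfix⟩

end Cfsg.Agent.H51
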