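import Cfsg.Agent.H21.FrobeniusTheorem
import Cfsg.Agent.H22.PResidual

/-!
# An isolated `p`-element centralizing every invariant `p'`-subgroup is central
-/

set_option autoImplicit false

namespace Cfsg.Agent.H51

open Subgroup
open scoped Pointwise

universe u

private theorem isolated_aux (p : ℕ) [hp : Fact p.Prime] (n : ℕ) :
    ∀ (G : Type u) [Group G] [Finite G], Nat.card G = n → ∀ x : G,
      (∃ k, orderOf x = p ^ k) →
      (∀ g : G, Commute x (g * x * g⁻¹) → g * x * g⁻¹ = x) →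
      (∀ H : Subgroup G, (Nat.card H).Coprime p → (∀ h ∈ H, x * h * x⁻¹ ∈ H) →
        ∀ h ∈ H, x * h = h * x) →
      x ∈ Subgroup.center G := by
  induction n using Nat.strong_induction_on with
  | _ n ih =>
  intro G _ _ hn x hxp hiso hb
  set M : Subgroup G := Subgroup.centralizer {x} with hM
  have hMmem : ∀ g : G, g ∈ M ↔ g * x = x * g := fun g => by
    rw [hM, Subgroup.mem_centralizer_singleton_iff]
  by_contra hnc
  have hxM : x ∈ M := (hMmem x).mpr rfl
  -- proper overgroups of `x` centralize it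
  have hprop : ∀ H : Subgroup G, x ∈ H → H ≠ ⊤ → H ≤ M := by
    intro H hxH hH h hh
    have h1 := ih (Nat.card ↥H) (by
      rw [← hn]
      have := H.one_lt_index_of_ne_top hH
      rw [← H.index_mul_card]
      calc Nat.card ↥H = 1 * Nat.card ↥H := (one_mul _).symm
        _ < H.index * Nat.card ↥H := Nat.mul_lt_mul_of_pos_right this Nat.card_pos) ↥H rfl
      ⟨x, hxH⟩ (by rw [Subgroup.orderOf_mk]; exact hxp)
      (fun g hg => Subtype.ext (hiso g (congrArg Subtype.val hg)))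
      (fun K hK hinv k hk => Subtype.ext (hb (K.map H.subtype)
        (by rwa [Subgroup.card_map_of_injective H.subtype_injective])
        (by rintro _ ⟨a, ha, rfl⟩; exact ⟨_, hinv a ha, rfl⟩) k ⟨k, hk, rfl⟩))
    have h2 := congrArg Subtype.val (Subgroup.mem_center_iff.mp h1 ⟨h, hh⟩)
    exact (hMmem h).mpr h2
  set Z := Subgroup.center G with hZ
  have hZM : Z ≤ M := fun z hz => (hMmem z).mpr ((Subgroup.mem_center_iff.mp hz x).symm)
  -- `M` is a trivial intersection subgroup modulo the centre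
  have hTI : ∀ g : G, g ∉ M → ∀ d ∈ M, g⁻¹ * d * g ∈ M → d ∈ Z := by
    intro g hg d hd hd'
    by_contra hdZ
    have hne : Subgroup.centralizer ({d} : Set G) ≠ ⊤ := by
      intro h
      refine hdZ (Subgroup.mem_center_iff.mpr fun a => ?_)
      exact Subgroup.mem_centralizer_singleton_iff.mp (h ▸ Subgroup.mem_top a)
    have hle := hprop _ (Subgroup.mem_centralizer_singleton_iff.mpr ((hMmem d).mp hd).symm) hne
    have h1 : g * x * g⁻¹ ∈ M := by
      refine hle (Subgroup.mem_centralizer_singleton_iff.mpr ?_)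
      have h2 := (hMmem _).mp hd'
      calc g * x * g⁻¹ * d = g * (x * (g⁻¹ * d * g)) * g⁻¹ := by group
        _ = g * ((g⁻¹ * d * g) * x) * g⁻¹ := by rw [h2]
        _ = d * (g * x * g⁻¹) := by group
    have h3 := hiso g ((hMmem _).mp h1).symm
    exact hg ((hMmem g).mpr (mul_inv_eq_iff_eq_mul.mp h3))
  -- Frobenius in `G / Z`
  set π := QuotientGroup.mk' Z with hπ
  have hker : ∀ a : G, π a = 1 ↔ a ∈ Z := fun a => QuotientGroup.eq_one_iff a
  set Mb := M.map π with hMb
  have hcomap : Mb.comap π = M := by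
    rw [hMb, Subgroup.comap_map_eq, hπ, QuotientGroup.ker_mk', sup_eq_left.mpr hZM]
  have hF : Cfsg.IsFrobeniusComplement Mb := by
    refine ⟨fun h => ?_, fun h => ?_, fun gb hgb => ?_⟩
    · have h1 : π x ∈ Mb := Subgroup.mem_map_of_mem π hxM
      rw [h, Subgroup.mem_bot, hker] at h1
      exact hnc h1
    · refine hnc (Subgroup.mem_center_iff.mpr fun a => ?_)
      have h1 : a ∈ Mb.comap π := by rw [h]; exact Subgroup.mem_top _
      rw [hcomap] at h1
      exact (hMmem a).mp h1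
    · obtain ⟨g, rfl⟩ := QuotientGroup.mk'_surjective Z gb
      rw [Subgroup.eq_bot_iff_forall]
      rintro db ⟨hdb, hdb'⟩
      obtain ⟨d, hd, rfl⟩ := hdb
      refine (hker d).mpr (hTI g (fun hg => hgb (Subgroup.mem_map_of_mem π hg)) d hd ?_)
      rw [← hcomap, Subgroup.mem_comap]
      have h1 := Subgroup.mem_pointwise_smul_iff_inv_smul_mem.mp hdb'
      rw [← map_inv, MulAut.smul_def, MulAut.conj_apply, inv_inv] at h1
      rwa [map_mul, map_mul, map_inv]
  obtain ⟨Nb, -, hNn, hNc⟩ := Cfsg.Agent.H21.exists_kernel hF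
  set K := Nb.comap π with hK
  haveI hKn : K.Normal := hNn.comap π
  have hpN : ¬ p ∣ Nat.card ↥Nb := by
    intro h
    have hcop : (Nat.card ↥Mb).Coprime Mb.index := Cfsg.Agent.H21.coprime_card_index hF
    rw [← Subgroup.IsComplement'.index_eq_card hNc] at h
    have hxM' : π x ∈ Mb := Subgroup.mem_map_of_mem π hxM
    obtain ⟨k, hk⟩ := hxp
    obtain ⟨j, -, hj⟩ := (Nat.dvd_prime_pow hp.out).mp (hk ▸ orderOf_map_dvd π x)
    rcases Nat.eq_zero_or_pos j with rfl | hj0
    · rw [pow_zero, orderOf_eq_one_iff, hker] at hj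
      exact hnc hj
    · exact hp.out.one_lt.ne' (Nat.eq_one_of_dvd_coprimes hcop
        ((dvd_pow_self p hj0.ne').trans (hj ▸ Subgroup.orderOf_dvd_natCard _ hxM')) h)
  have hpel : ∀ a ∈ K, (∃ k, orderOf a = p ^ k) → a ∈ Z := by
    rintro a ha ⟨k, hk⟩
    rw [← hker, ← orderOf_eq_one_iff]
    exact Nat.eq_one_of_dvd_coprimes ((hp.out.coprime_iff_not_dvd.mpr hpN).pow_left k)
      (hk ▸ orderOf_map_dvd π a) (Subgroup.orderOf_dvd_natCard _ ha)
  let P : Sylow p ↥K := default
  have hPZ : ∀ a ∈ (P : Subgroup ↥K), (a : G) ∈ Z := by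
    intro a ha
    obtain ⟨k, hk⟩ := IsPGroup.iff_orderOf.mp P.isPGroup' ⟨a, ha⟩
    rw [Subgroup.orderOf_mk] at hk
    exact hpel _ a.2 ⟨k, by rw [Subgroup.orderOf_coe, hk]⟩
  haveI hPn : (P : Subgroup ↥K).Normal := by
    refine ⟨fun a ha b => ?_⟩
    have : b * a * b⁻¹ = a := Subtype.ext (by
      simp only [Subgroup.coe_mul, InvMemClass.coe_inv]
      rw [Subgroup.mem_center_iff.mp (hPZ a ha) b, mul_inv_cancel_right])
    rwa [this]
  obtain ⟨C, hC⟩ := Subgroup.exists_right_complement'_of_coprime P.card_coprime_index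
  have hCcard : (Nat.card ↥C).Coprime p := by
    rw [← hC.symm.index_eq_card, Nat.coprime_comm]
    exact hp.out.coprime_iff_not_dvd.mpr P.not_dvd_index
  have hCeq : ∀ a : ↥K, (orderOf a).Coprime p → a ∈ C := by
    intro a ha
    obtain ⟨⟨⟨z, hz⟩, ⟨c, hc⟩⟩, hzc⟩ := hC.2 a
    have hzc' : z * c = a := hzc
    obtain ⟨k, hk⟩ := IsPGroup.iff_orderOf.mp P.isPGroup' ⟨z, hz⟩
    rw [Subgroup.orderOf_mk] at hk
    have hcomm : Commute c z := Subtype.ext (Subgroup.mem_center_iff.mp (hPZ z hz) c)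
    have hz1 : orderOf z = 1 := by
      have hz2 : z = a * c⁻¹ := eq_mul_inv_of_mul_eq hzc'
      have hca : Commute a c⁻¹ := by
        rw [← hzc']
        exact ((hcomm.symm.mul_left (Commute.refl c))).inv_right
      have hdvd : orderOf z ∣ orderOf a * orderOf c⁻¹ := by
        rw [hz2]
        exact hca.orderOf_mul_dvd_lcm.trans (Nat.lcm_dvd_mul _ _)
      refine Nat.eq_one_of_dvd_coprimes (Nat.Coprime.pow_left k ?_) (dvd_of_eq hk) hdvd
      rw [orderOf_inv]
      exact (Nat.Coprime.mul_right ha.symm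
        ((hCcard.coprime_dvd_left (Subgroup.orderOf_dvd_natCard _ hc)).symm))
    rw [← hzc', orderOf_eq_one_iff.mp hz1, one_mul]
    exact hc
  have hCx := hb (C.map K.subtype) (by rwa [Subgroup.card_map_of_injective K.subtype_injective]) (by
    rintro _ ⟨c, hc, rfl⟩
    refine ⟨⟨x * c * x⁻¹, hKn.conj_mem _ c.2 x⟩, hCeq _ ?_, rfl⟩
    rw [← Subgroup.orderOf_coe]
    change (orderOf (MulAut.conj x (c : G))).Coprime p
    rw [MulEquiv.orderOf_eq, Subgroup.orderOf_coe]
    exact hCcard.coprime_dvd_left (Subgroup.orderOf_dvd_natCard _ hc))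
  have hKM : K ≤ M := by
    intro k hk
    obtain ⟨⟨⟨z, hz⟩, ⟨c, hc⟩⟩, hzc⟩ := hC.2 ⟨k, hk⟩
    have hzc' : (z : G) * c = k := congrArg Subtype.val hzc
    rw [← hzc']
    exact mul_mem (hZM (hPZ z hz)) ((hMmem _).mpr (hCx _ ⟨c, hc, rfl⟩).symm)
  have hNle : Nb ≤ Mb := by
    rw [← Subgroup.map_comap_eq_self_of_surjective (QuotientGroup.mk'_surjective Z) Nb]
    exact Subgroup.map_mono hKM
  exact hF.2.1 (by rw [← hNc.sup_eq_top, sup_eq_right.mpr hNle])

/-- An element of a Sylow subgroup that is isolated in it and centralizes every invariant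
subgroup of order prime to `p` is central. -/
theorem isolated_mem_center {G : Type*} [Group G] [Finite G] {p : ℕ} [Fact p.Prime]
    (S : Sylow p G) (x : G) (hx : x ∈ S)
    (hU : ∀ g : G, g⁻¹ * x * g ∈ S → g⁻¹ * x * g = x)
    (hb : ∀ H : Subgroup G, (Nat.card H).Coprime p → (∀ h ∈ H, x * h * x⁻¹ ∈ H) →
      ∀ h ∈ H, x * h = h * x) :
    x ∈ Subgroup.center G := by
  obtain ⟨k, hk⟩ := IsPGroup.iff_orderOf.mp S.isPGroup' ⟨x, hx⟩
  rw [Subgroup.orderOf_mk] at hk
  refine isolated_aux p _ G rfl x ⟨k, hk⟩ (fun g hg => ?_) hb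
  set y := g * x * g⁻¹ with hy
  have hyo : orderOf y = p ^ k := by
    rw [hy, show g * x * g⁻¹ = MulAut.conj g x from rfl, MulEquiv.orderOf_eq, hk]
  have hpz : ∀ a : G, orderOf a = p ^ k → IsPGroup p ↥(Subgroup.zpowers a) := fun a ha =>
    IsPGroup.of_card ((Nat.card_zpowers a).trans ha)
  have hnorm : Subgroup.zpowers y ≤ Subgroup.normalizer (Subgroup.zpowers x : Set G) := by
    rw [Subgroup.zpowers_le]
    refine Subgroup.centralizer_le_normalizer _ ?_
    rintro _ ⟨m, rfl⟩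
    exact (hg.zpow_left m).eq
  have hsup : IsPGroup p ↥(Subgroup.zpowers x ⊔ Subgroup.zpowers y) :=
    (hpz x hk).to_sup_of_normal_left' (hpz y hyo) hnorm
  obtain ⟨Q, hQ⟩ := hsup.exists_le_sylow
  obtain ⟨a, ha⟩ := MulAction.exists_smul_eq G S Q
  have hback : ∀ z ∈ Subgroup.zpowers x ⊔ Subgroup.zpowers y, a⁻¹ * z * a ∈ S := by
    intro z hz
    have h1 : z ∈ (Q : Subgroup G) := hQ hz
    rw [← ha, Sylow.coe_subgroup_smul, Subgroup.mem_pointwise_smul_iff_inv_smul_mem] at h1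
    simp [MulAut.smul_def] at h1; exact h1
  have hax := hU a (hback x (Subgroup.mem_sup_left (Subgroup.mem_zpowers x)))
  have hay := hback y (Subgroup.mem_sup_right (Subgroup.mem_zpowers y))
  have h2 := hU (g⁻¹ * a) (by
    rwa [show (g⁻¹ * a)⁻¹ * x * (g⁻¹ * a) = a⁻¹ * y * a by rw [hy]; group])
  have h3 : a⁻¹ * y * a = a⁻¹ * x * a := by
    rw [hax, show a⁻¹ * y * a = (g⁻¹ * a)⁻¹ * x * (g⁻¹ * a) by rw [hy]; group, h2]
  exact mul_left_cancel (mul_right_cancel h3)

end Cfsg.Agent.H51
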