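import Cfsg.Agent.H83.ThompsonPQ
import Cfsg.Agent.H34.Quotient
import Cfsg.Agent.H84.PSolvable
import Cfsg.Agent.H59.PSolvable
import Cfsg.Agent.H51.Basic
import Cfsg.Agent.H51.PLayer

/-!
# Invariant `p'`-subgroups for a rank two `Ω₁` of a centralizer Sylow subgroup
-/

set_option autoImplicit false
set_option linter.style.haveILetI false

namespace Cfsg.Agent.H51

open Subgroup

/-- For odd `p` a `p'`-group normalized by the `p`-group `P` centralizes the `p`-group `G` as soon
as it centralizes the elements of order dividing `p` of `G` that commute with `P`. -/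
theorem thompson_pq_omega {X : Type*} [Group X] [Finite X] {p : ℕ} [hp : Fact p.Prime] (hp2 : p ≠ 2)
    (P Q : Subgroup X) (hP : IsPGroup p P) (hQ : (Nat.card Q).Coprime p)
    (hPQ : P ≤ Subgroup.normalizer (Q : Set X)) (G : Subgroup X) (hG : IsPGroup p G)
    (hPG : P ≤ Subgroup.normalizer (G : Set X)) (hQG : Q ≤ Subgroup.normalizer (G : Set X))
    (hC : ∀ x ∈ G, x ^ p = 1 → x ∈ Subgroup.centralizer (P : Set X) →
      x ∈ Subgroup.centralizer (Q : Set X)) :
    Q ≤ Subgroup.centralizer (G : Set X) := by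
  classical
  induction hn : Nat.card G using Nat.strong_induction_on generalizing G with
  | _ n ih =>
    by_cases hnt : ⁅G, Q⁆ = ⊥
    · exact H20.le_centralizer_of_commutator_eq_bot hnt
    have hmin : ∀ U : Subgroup X, U < G → P ⊔ Q ≤ Subgroup.normalizer (U : Set X) → ⁅U, Q⁆ = ⊥ := by
      intro U hU hB
      have hlt : Nat.card U < n := hn ▸ lt_of_not_ge fun h =>
        hU.ne (Subgroup.eq_of_le_of_card_ge hU.le h)
      have h := ih _ hlt U (hG.to_le hU.le) (le_sup_left.trans hB) (le_sup_right.trans hB)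
        (fun x hx => hC x (hU.le hx)) rfl
      exact Subgroup.commutator_eq_bot_iff_le_centralizer.2 (Subgroup.le_centralizer_iff.1 h)
    obtain ⟨-, -, -, -, -, -, -, -, -, -, hexp⟩ := H83.minimal_action (P ⊔ Q) Q G hG
      (sup_le hPG hQG) le_sup_right (sup_le hPQ Subgroup.le_normalizer) hQ hnt hmin
    exact H83.thompson_pq hp2 P Q hP hQ hPQ G hG hPG hQG
      (fun x hx => hC x hx.1 (hexp hp2 x hx.1) hx.2)

/-- Invariant `p'`-subgroups for a rank two `Ω₁` of a centralizer Sylow subgroup lie in `O_{p'}`. -/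
theorem invariant_le_pPrimeCore {G : Type*} [Group G] [Finite G] {p : ℕ} [hpf : Fact p.Prime]
    (hp : p ≠ 2) (hG : Cfsg.IsPSolvable p G) (B : Subgroup G) (hB : Cfsg.IsElementaryAbelian p B)
    (b₀ : G) (hb₀ : b₀ ∈ B) (C : Subgroup G) (hC : C = Subgroup.centralizer ({b₀} : Set G))
    (P : Sylow p ↥C)
    (hBP : B = Subgroup.closure {x : G | x ∈ ((P : Subgroup ↥C).map C.subtype : Subgroup G) ∧
      orderOf x = p})
    (Q : Subgroup G) (hQ : ¬ p ∣ Nat.card Q) (hinv : ∀ b ∈ B, ∀ x ∈ Q, b * x * b⁻¹ ∈ Q) :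
    Q ≤ Cfsg.pPrimeCore p G := by
  set Pg := (P : Subgroup ↥C).map C.subtype with hPg
  have hPgp : IsPGroup p ↥Pg := P.isPGroup'.map _
  have hBPg : B ≤ Pg := by
    rw [hBP]; exact (Subgroup.closure_le _).mpr fun x hx => hx.1
  have hBp : IsPGroup p ↥B := hPgp.to_le hBPg
  have hBn : B ≤ Subgroup.normalizer (Q : Set G) := le_normalizer_iff.mpr hinv
  -- elements of order `p` commuting with `B` lie in `B`
  have hkey : ∀ r : G, r ∈ Subgroup.centralizer (B : Set G) → r ^ p = 1 → r ∈ B := by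
    intro r hr hrp
    by_cases hr1 : r = 1
    · rw [hr1]; exact one_mem B
    have hro : orderOf r = p := orderOf_eq_prime hrp hr1
    have hrC : r ∈ C := by
      rw [hC, Subgroup.mem_centralizer_singleton_iff]
      exact (hr b₀ hb₀).symm
    have hBC : B ≤ C := hBPg.trans (Subgroup.map_subtype_le _)
    set U := Subgroup.zpowers r ⊔ B with hU
    have hUp : IsPGroup p ↥U := by
      have hrpg : IsPGroup p ↥(Subgroup.zpowers r) :=
        IsPGroup.of_card (n := 1) ((Nat.card_zpowers r).trans (hro.trans (pow_one p).symm))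
      refine hrpg.to_sup_of_normal_left' hBp ?_
      refine le_normalizer_iff.mpr fun b hb x hx => ?_
      obtain ⟨m, rfl⟩ := hx
      have hbr : Commute b r := hr b hb
      rw [(hbr.zpow_right m).eq, mul_inv_cancel_right]
      exact ⟨m, rfl⟩
    have hUC : U ≤ C := sup_le (Subgroup.zpowers_le.mpr hrC) hBC
    obtain ⟨T, hT⟩ := (hUp.comap_of_injective C.subtype C.subtype_injective).exists_le_sylow
    obtain ⟨c, hc⟩ := MulAction.exists_smul_eq ↥C P T
    -- conjugation by `c` carries `B` onto the elements of order `p` of `T`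
    have hcB : ∀ x : G, x ∈ U → orderOf x = p → x ∈ B.map (MulAut.conj (c : G)).toMonoidHom := by
      intro x hxU hxo
      have hxT : (⟨x, hUC hxU⟩ : ↥C) ∈ (T : Subgroup ↥C) := hT hxU
      rw [← hc, Sylow.coe_subgroup_smul] at hxT
      obtain ⟨y, hy, hyx⟩ := hxT
      refine ⟨(y : G), ?_, congrArg Subtype.val hyx⟩
      rw [hBP]
      refine Subgroup.subset_closure ⟨⟨y, hy, rfl⟩, ?_⟩
      rw [← hxo, show x = MulAut.conj (c : G) (y : G) from (congrArg Subtype.val hyx).symm]
      exact (MulEquiv.orderOf_eq (MulAut.conj (c : G)) (y : G)).symm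
    have hBle : B ≤ B.map (MulAut.conj (c : G)).toMonoidHom := by
      nth_rw 1 [hBP]
      refine (Subgroup.closure_le _).mpr fun x hx => hcB x ?_ hx.2
      exact Subgroup.mem_sup_right (hBP ▸ Subgroup.subset_closure hx)
    have hBeq : B = B.map (MulAut.conj (c : G)).toMonoidHom :=
      Subgroup.eq_of_le_of_card_ge hBle
        (Subgroup.card_map_of_injective (MulAut.conj (c : G)).injective).le
    rw [hBeq]
    exact hcB r (Subgroup.mem_sup_left (Subgroup.mem_zpowers r)) hro
  -- pass to `G / O_{p'}(G)`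
  set N := Cfsg.pPrimeCore p G with hN
  haveI : N.Normal := pPrimeCore_normal p G
  have hNc : (Nat.card ↥N).Coprime p := pPrimeCore_coprime p G
  set π := QuotientGroup.mk' N with hπ
  have hGb : Cfsg.IsPSolvable p (G ⧸ N) :=
    Cfsg.Agent.H84.isPSolvable_of_surjective π (QuotientGroup.mk'_surjective N) hG
  have hred : Cfsg.pPrimeCore p (G ⧸ N) = ⊥ := pPrimeCore_quotient_self p
  have hcon := Cfsg.Agent.H59.centralizer_pCore_le_of_isPSolvable hGb hred
  set R := Cfsg.pCore p (G ⧸ N) with hR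
  haveI : R.Normal := pCore_normal p _
  have hQc : (Nat.card ↥(Q.map π)).Coprime p :=
    (Nat.Coprime.coprime_dvd_left (Q.card_map_dvd π)
      ((Nat.Prime.coprime_iff_not_dvd hpf.out).mpr hQ).symm)
  have hnorm : B.map π ≤ Subgroup.normalizer (Q.map π : Set (G ⧸ N)) :=
    (Subgroup.map_mono hBn).trans (Subgroup.le_normalizer_map π)
  have hQcent : Q.map π ≤ Subgroup.centralizer (R : Set (G ⧸ N)) := by
    refine thompson_pq_omega hp (B.map π) (Q.map π) (hBp.map π) hQc hnorm R (pCore_isPGroup p _)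
      ?_ ?_ ?_
    · rw [Subgroup.normalizer_eq_top_iff.mpr inferInstance]; exact le_top
    · rw [Subgroup.normalizer_eq_top_iff.mpr inferInstance]; exact le_top
    intro xb hx hxp hxc
    obtain ⟨x, rfl⟩ := QuotientGroup.mk'_surjective N xb
    obtain ⟨n, hn, hnx⟩ := Cfsg.Agent.H34.exists_mem_centralizer_of_mk hBp hNc hxc
    have hxy : π (n * x) = π x := by
      rw [map_mul, show π n = 1 from (QuotientGroup.eq_one_iff n).mpr hn, one_mul]
    set y := n * x with hy
    -- `y ^ p ∈ N` has order prime to `p`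
    have hypN : y ^ p ∈ N := by
      rw [← QuotientGroup.eq_one_iff]
      change π (y ^ p) = 1
      rw [map_pow, hxy, hxp]
    set m := orderOf (y ^ p) with hm
    have hmcop : m.Coprime p := hNc.coprime_dvd_left (Subgroup.orderOf_dvd_natCard N hypN)
    have hz : (y ^ m) ^ p = 1 := by
      rw [← pow_mul, mul_comm, pow_mul, hm, pow_orderOf_eq_one]
    have hzB : y ^ m ∈ B := hkey _ (pow_mem hnx m) hz
    have hxB : π x ∈ B.map π := by
      obtain ⟨k, hk⟩ := exists_pow_eq_self_of_coprime (x := π x) (n := m)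
        (hmcop.coprime_dvd_right (orderOf_dvd_of_pow_eq_one hxp))
      rw [← hk, ← hxy, ← map_pow]
      exact pow_mem (Subgroup.mem_map_of_mem π hzB) k
    rintro q hq
    have h1 : π x * q * (π x)⁻¹ * q⁻¹ ∈ Q.map π :=
      mul_mem ((Subgroup.mem_normalizer_iff.mp (hnorm hxB) q).mp hq) (inv_mem hq)
    have h2 : π x * q * (π x)⁻¹ * q⁻¹ ∈ R := by
      rw [mul_assoc (π x) q, mul_assoc (π x)]
      exact mul_mem hx ((inferInstance : R.Normal).conj_mem _ (inv_mem hx) q)
    obtain ⟨k, hk⟩ := pCore_isPGroup p (G ⧸ N) ⟨_, h2⟩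
    have h3 : π x * q * (π x)⁻¹ * q⁻¹ = 1 := by
      rw [← orderOf_eq_one_iff]
      exact Nat.eq_one_of_dvd_coprimes (hQc.pow_right k) (Subgroup.orderOf_dvd_natCard _ h1)
        (orderOf_dvd_of_pow_eq_one (congrArg Subtype.val hk))
    exact (mul_inv_eq_iff_eq_mul.mp (mul_inv_eq_one.mp h3)).symm
  intro q hq
  rw [← QuotientGroup.eq_one_iff]
  have h1 : π q ∈ R := hcon (hQcent (Subgroup.mem_map_of_mem π hq))
  obtain ⟨k, hk⟩ := pCore_isPGroup p (G ⧸ N) ⟨_, h1⟩
  exact orderOf_eq_one_iff.mp (Nat.eq_one_of_dvd_coprimes (hQc.pow_right k)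
    (Subgroup.orderOf_dvd_natCard _ (Subgroup.mem_map_of_mem π hq))
    (orderOf_dvd_of_pow_eq_one (congrArg Subtype.val hk)))

end Cfsg.Agent.H51
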