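import Cfsg.Agent.H51.FStar
import Cfsg.Agent.H51.Balanced
import Cfsg.Agent.H19.Cores
import Cfsg.Agent.H50.BenderLemma
import Cfsg.Prelude.Def_SubgroupEmbedding
import Cfsg.Prelude.Def_Amalgam

/-!
# Minimal counterexamples to the Sidki pair theorem

A group `G` with a Sidki pair subgroup `V` avoiding `O_2(G)`, minimal as such, has simple `F*(G)` and
equals `V F*(G)`.
-/

set_option autoImplicit false
set_option linter.style.haveILetI false

namespace Cfsg.Agent.H51.Sidki

open Subgroup
open scoped commutatorElement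

universe u

variable {G : Type u} [Group G]

/-- An element of odd order inverted in a quotient lifts to one inverted in the group. -/
theorem exists_odd_lift [Finite G] {H : Type*} [Group H] (q : G →* H) (hq : Function.Surjective q)
    {v : G} (hv : v * v = 1) {x : H} (hx : Odd (orderOf x)) (hvx : q v * x * (q v)⁻¹ = x⁻¹) :
    ∃ h : G, Odd (orderOf h) ∧ v * h * v⁻¹ = h⁻¹ ∧ q h = x := by
  obtain ⟨h0, rfl⟩ := hq x
  have hvi : v⁻¹ = v := inv_eq_of_mul_eq_one_right hv
  set r := h0⁻¹ * (v * h0 * v⁻¹) with hr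
  have hvr : v * r * v⁻¹ = r⁻¹ := by
    rw [hr]
    calc v * (h0⁻¹ * (v * h0 * v⁻¹)) * v⁻¹ = v * h0⁻¹ * (v * h0) * (v⁻¹ * v⁻¹) := by group
      _ = v * h0⁻¹ * (v * h0) := by rw [hvi, hv, mul_one]
      _ = v * h0⁻¹ * v⁻¹ * h0 := by rw [hvi]; group
      _ = (h0⁻¹ * (v * h0 * v⁻¹))⁻¹ := by group
  have hqr : q r = ((q h0) ^ 2)⁻¹ := by
    rw [hr, map_mul, map_inv, map_mul, map_mul, map_inv, hvx, pow_two, mul_inv_rev]
  obtain ⟨a, b, hb, hab⟩ := Nat.exists_eq_pow_mul_and_not_dvd (orderOf_pos r).ne' 2 (by norm_num)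
  set s := r ^ (2 ^ a) with hs
  have hsb : orderOf s = b := by
    rw [hs, orderOf_pow_of_dvd (by positivity) (hab ▸ Dvd.intro _ rfl), hab,
      Nat.mul_div_cancel_left _ (by positivity)]
  have hsodd : Odd (orderOf s) := by
    rw [hsb, ← Nat.not_even_iff_odd, even_iff_two_dvd]; exact hb
  obtain ⟨j, hj⟩ := exists_pow_eq_self_of_coprime (x := q h0) (n := 2 * 2 ^ a)
    (by rw [← pow_succ']; exact (Nat.coprime_two_left.mpr hx).pow_left _)
  refine ⟨(s⁻¹) ^ j, ?_, ?_, ?_⟩
  · exact hsodd.of_dvd_nat (by rw [← orderOf_inv s]; exact orderOf_pow_dvd j)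
  · have h1 : ∀ k : ℕ, v * r ^ k * v⁻¹ = (r ^ k)⁻¹ := fun k => by
      rw [← conj_pow, hvr, inv_pow]
    have h2 : v * s⁻¹ * v⁻¹ = s := by
      rw [← conj_inv, hs, h1, inv_inv]
    rw [← conj_pow, h2, inv_pow, inv_inv]
  · rw [hs]
    simp only [map_pow, map_inv, hqr, inv_pow, inv_inv]
    rw [← pow_mul (q h0)]
    exact hj

/-- The Sidki condition passes to any subgroup containing `V`. -/
theorem isSidkiPair_subgroupOf {V K : Subgroup G} (hS : IsSidkiPair V) (hVK : V ≤ K) :
    IsSidkiPair (V.subgroupOf K) := by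
  intro h v hv hh hvh
  obtain ⟨w, hw, hw1, hc⟩ := hS (h : G) (v : G) hv (by rw [orderOf_coe]; exact hh)
    (congrArg Subtype.val hvh)
  exact ⟨⟨w, hVK hw⟩, hw, fun h' => hw1 (congrArg Subtype.val h'), Subtype.ext hc⟩

/-- The 2-core of a subgroup centralizes a normal subgroup with trivial 2-core in it. -/
theorem pCoreOf_le_centralizer [Finite G] (hO : pCore 2 G = ⊥) {N K : Subgroup G} [N.Normal]
    (hNK : N ≤ K) : pCoreOf 2 K ≤ centralizer (N : Set G) := by
  haveI : Fact (Nat.Prime 2) := ⟨Nat.prime_two⟩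
  rw [← commutator_eq_bot_iff_le_centralizer, ← le_bot_iff]
  have hn : K ≤ normalizer ((pCoreOf 2 K : Subgroup G) : Set G) := by
    have h := le_normalizer_map (H := pCore 2 K) K.subtype
    haveI := pCore_normal 2 ↥K
    rwa [normalizer_eq_top (H := pCore 2 K), ← MonoidHom.range_eq_map, range_subtype] at h
  set X := pCoreOf 2 K ⊓ N with hX
  haveI : (X.subgroupOf N).Normal := normal_subgroupOf_of_le_normalizer
    ((le_inf (hNK.trans hn) le_normalizer).trans (le_normalizer_iff.mpr fun g hg x hx =>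
      ⟨le_normalizer_iff.mp (inf_le_left (b := normalizer (N : Set G))) g hg x hx.1,
        Normal.conj_mem inferInstance x hx.2 g⟩))
  have hXp : IsPGroup 2 ↥(X.subgroupOf N) := by
    refine IsPGroup.comap_subtype ?_
    exact ((pCore_isPGroup 2 ↥K).map K.subtype).to_le inf_le_left
  haveI := pCore_characteristic 2 ↥N
  have hle : (pCore 2 ↥N).map N.subtype ≤ pCore 2 G :=
    le_pCore ConjAct.normal_of_characteristic_of_normal ((pCore_isPGroup 2 ↥N).map _)
  have hcomm : ⁅pCoreOf 2 K, N⁆ ≤ X := by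
    refine le_inf ?_ (Subgroup.commutator_le_right _ _)
    exact commutator_le_of_le_normalizer (hNK.trans hn)
  refine hcomm.trans (le_trans ?_ hO.le)
  have h1 := map_mono (f := N.subtype) (le_pCore (p := 2) (N := X.subgroupOf N) inferInstance hXp)
  rw [map_subgroupOf_eq_of_le inf_le_right] at h1
  exact h1.trans hle

variable [Finite G] (V : Subgroup G)

/-- Structure of a minimal counterexample. -/
theorem minimal_counterexample (hV : IsElementaryAbelian 2 V) (hV1 : V ≠ ⊥) (hS : IsSidkiPair V)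
    (hVO : V ⊓ pCore 2 G = ⊥)
    (hminG : ∀ (H : Type u) [Group H] [Finite H] (W : Subgroup H), Nat.card H < Nat.card G →
      IsElementaryAbelian 2 W → W ≠ ⊥ → IsSidkiPair W → W ⊓ pCore 2 H ≠ ⊥)
    (hminV : ∀ W : Subgroup G, Nat.card W < Nat.card V → IsElementaryAbelian 2 W → W ≠ ⊥ →
      IsSidkiPair W → W ⊓ pCore 2 G ≠ ⊥) :
    IsSimpleGroup ↥(generalizedFittingSubgroup G) ∧
      ¬ IsMulCommutative ↥(generalizedFittingSubgroup G) ∧ V ⊔ generalizedFittingSubgroup G = ⊤ := by
  classical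
  haveI : Fact (Nat.Prime 2) := ⟨Nat.prime_two⟩
  haveI := pCore_normal 2 G
  have hcomm : ∀ a ∈ V, ∀ b ∈ V, a * b = b * a := fun a ha b hb =>
    congrArg Subtype.val (hV.1.1.1 (⟨a, ha⟩ : ↥V) ⟨b, hb⟩)
  have hsq : ∀ a ∈ V, a * a = 1 := fun a ha => by rw [← pow_two]; exact hV.2 a ha
  have hinv : ∀ a ∈ V, a⁻¹ = a := fun a ha => inv_eq_of_mul_eq_one_right (hsq a ha)
  have hel : ∀ W : Subgroup G, W ≤ V → IsElementaryAbelian 2 W := fun W hW =>
    ⟨⟨⟨fun a b => Subtype.ext (hcomm a (hW a.2) b (hW b.2))⟩⟩, fun a ha => hV.2 a (hW ha)⟩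
  have hpg : ∀ W : Subgroup G, W ≤ V → IsPGroup 2 ↥W := fun W hW a =>
    ⟨1, Subtype.ext (by simpa using hV.2 _ (hW a.2))⟩
  -- smaller subgroups
  have hminK : ∀ K W : Subgroup G, K ≠ ⊤ → W ≤ K → W ≤ V → W ≠ ⊥ → IsSidkiPair (W.subgroupOf K) →
      ∃ w ∈ W, w ≠ 1 ∧ w ∈ pCoreOf 2 K := by
    intro K W hK hWK hWV hW1 hWS
    have hlt : Nat.card K < Nat.card G :=
      lt_of_le_of_ne (card_le_card_group K) (fun h => hK (card_eq_iff_eq_top K |>.mp h))
    have hWe : IsElementaryAbelian 2 (W.subgroupOf K) :=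
      ⟨⟨⟨fun a b => Subtype.ext (Subtype.ext (hcomm _ (hWV a.2) _ (hWV b.2)))⟩⟩,
        fun a ha => Subtype.ext (by simpa using hV.2 _ (hWV ha))⟩
    have hW1' : W.subgroupOf K ≠ ⊥ := fun h => hW1 (by
      rw [← map_subgroupOf_eq_of_le hWK, h, Subgroup.map_bot])
    obtain ⟨w, hw, hw1⟩ := (bot_or_exists_ne_one _).resolve_left
      (hminG ↥K (W.subgroupOf K) hlt hWe hW1' hWS)
    exact ⟨w, hw.1, fun h => hw1 (Subtype.ext h), w, hw.2, rfl⟩
  -- `O_2(G) = 1`
  have hO : pCore 2 G = ⊥ := by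
    by_contra hne
    set q := QuotientGroup.mk' (pCore 2 G) with hq
    have hlt : Nat.card (G ⧸ pCore 2 G) < Nat.card G := by
      rw [← index_eq_card]
      have h1 := card_mul_index (pCore 2 G)
      have h2 : 1 < Nat.card (pCore 2 G) := (one_lt_card_iff_ne_bot _).mpr hne
      have h3 : 0 < (pCore 2 G).index := Nat.pos_of_ne_zero index_ne_zero_of_finite
      nlinarith
    have hker : ∀ w ∈ V, q w = 1 → w = 1 := fun w hw h =>
      mem_bot.mp (hVO ▸ (⟨hw, (QuotientGroup.eq_one_iff w).mp h⟩ : w ∈ V ⊓ pCore 2 G))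
    have hVS : IsSidkiPair (V.map q) := by
      rintro x _ ⟨v, hv, rfl⟩ hx hvx
      obtain ⟨h, hh, hvh, rfl⟩ := exists_odd_lift q (QuotientGroup.mk'_surjective _) (hsq v hv) hx hvx
      obtain ⟨w, hw, hw1, hc⟩ := hS h v hv hh hvh
      exact ⟨q w, ⟨w, hw, rfl⟩, fun h' => hw1 (hker w hw h'), by rw [← map_mul, hc, map_mul]⟩
    refine hminG (G ⧸ pCore 2 G) (V.map q) hlt ⟨⟨⟨?_⟩⟩, ?_⟩ ?_ hVS ?_
    · rintro ⟨_, a, ha, rfl⟩ ⟨_, b, hb, rfl⟩
      exact Subtype.ext (by show q a * q b = q b * q a; rw [← map_mul, hcomm a ha b hb, map_mul])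
    · rintro _ ⟨a, ha, rfl⟩
      rw [← map_pow, hV.2 a ha, map_one]
    · intro h
      exact hV1 ((eq_bot_iff_forall V).mpr fun w hw =>
        hker w hw (mem_bot.mp (h ▸ mem_map_of_mem q hw)))
    · rw [H19.pCore_quotient_pCore, inf_bot_eq]
  -- a minimal normal subgroup
  haveI : Nontrivial G := by
    obtain ⟨w, -, hw1⟩ := (bot_or_exists_ne_one V).resolve_left hV1
    exact ⟨w, 1, hw1⟩
  obtain ⟨N, ⟨hNn, hN1⟩, hNmin⟩ := (Set.toFinite {N : Subgroup G | N.Normal ∧ N ≠ ⊥}).exists_minimal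
    ⟨⊤, inferInstance, top_ne_bot⟩
  haveI := hNn
  have hmin : ∀ M : Subgroup G, M.Normal → M ≤ N → M = ⊥ ∨ M = N := fun M hM hle =>
    or_iff_not_imp_left.mpr fun h => le_antisymm hle (hNmin ⟨hM, h⟩ hle)
  -- no element of order two centralizes `N` inside `N`
  have htwo : ∀ z ∈ N, z ∈ centralizer (N : Set G) → z * z = 1 → z = 1 := by
    intro z hz hzC hz2
    let T : Subgroup G :=
      { carrier := {z | z ∈ N ∧ z ∈ centralizer (N : Set G) ∧ z * z = 1}
        one_mem' := ⟨one_mem _, one_mem _, one_mul 1⟩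
        mul_mem' := fun {a b} ha hb => ⟨mul_mem ha.1 hb.1, mul_mem ha.2.1 hb.2.1, by
          have hc : a * b = b * a := hb.2.1 a ha.1
          calc a * b * (a * b) = a * (b * a) * b := by group
            _ = a * (a * b) * b := by rw [hc]
            _ = (a * a) * (b * b) := by group
            _ = 1 := by rw [ha.2.2, hb.2.2, one_mul]⟩
        inv_mem' := fun {a} ha => ⟨inv_mem ha.1, inv_mem ha.2.1, by rw [← mul_inv_rev, ha.2.2, inv_one]⟩ }
    have hTn : T.Normal := ⟨fun a ha g => ⟨hNn.conj_mem a ha.1 g,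
      (inferInstance : (centralizer (N : Set G)).Normal).conj_mem a ha.2.1 g, by
      calc g * a * g⁻¹ * (g * a * g⁻¹) = g * (a * a) * g⁻¹ := by group
        _ = 1 := by rw [ha.2.2, mul_one, mul_inv_cancel]⟩⟩
    have hT2 : IsPGroup 2 ↥T := fun a => ⟨1, Subtype.ext (by
      show ((a ^ (2 ^ 1) : ↥T) : G) = 1
      rw [pow_one, SubmonoidClass.coe_pow, pow_two]
      exact a.2.2.2)⟩
    exact mem_bot.mp (hO ▸ le_pCore hTn hT2 (show z ∈ T from ⟨hz, hzC, hz2⟩))
  -- involutions of `V` in the preimage of `O_2(G/N)` centralizing `N` are trivial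
  have hnil : ∀ w ∈ V, w ∈ (pCore 2 (G ⧸ N)).comap (QuotientGroup.mk' N) →
      w ∈ centralizer (N : Set G) → w = 1 := by
    intro w hw hwM hwC
    set q := QuotientGroup.mk' N with hq
    haveI := pCore_normal 2 (G ⧸ N)
    set X := (pCore 2 (G ⧸ N)).comap q ⊓ centralizer (N : Set G) with hX
    haveI : X.Normal := inferInstance
    have hXnil : Group.IsNilpotent ↥X := by
      let f : ↥X →* ↥(pCore 2 (G ⧸ N)) := (q.comp X.subtype).codRestrict _ fun x => x.2.1
      haveI := (pCore_isPGroup 2 (G ⧸ N)).isNilpotent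
      refine Subgroup.isNilpotent_of_ker_le_center f (fun x hx => mem_center_iff.mpr fun y => Subtype.ext ?_)
      have hxN : (x : G) ∈ N := (QuotientGroup.eq_one_iff _).mp (congrArg Subtype.val hx)
      exact (y.2.2 _ hxN).symm
    have hwF : w ∈ fittingSubgroup G := le_fittingSubgroup (N := X) inferInstance hXnil ⟨hwM, hwC⟩
    by_contra hw1
    exact hw1 (mem_bot.mp (hO ▸ H50.mem_pCore_of_mem_fitting (q := 2) hwF (k := 1)
      (by rw [pow_one]; exact orderOf_eq_prime (hV.2 w hw) hw1)))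
  by_cases hNV : N ⊔ V = ⊤
  swap
  · -- `NV` is proper
    exfalso
    set U := V ⊓ centralizer (N : Set G) with hU
    have hU1 : U ≠ ⊥ := by
      obtain ⟨w, hw, hw1, hwc⟩ := hminK (N ⊔ V) V hNV le_sup_right le_rfl hV1
        (isSidkiPair_subgroupOf hS le_sup_right)
      intro h
      exact hw1 (mem_bot.mp (h ▸ (⟨hw, pCoreOf_le_centralizer hO le_sup_left hwc⟩ : w ∈ U)))
    by_cases hUV : U = V
    · -- `V` centralizes `N`
      set q := QuotientGroup.mk' N with hq
      have hVC : V ≤ centralizer (N : Set G) := hUV ▸ inf_le_right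
      have hker : ∀ w ∈ V, q w = 1 → w = 1 := fun w hw h =>
        htwo w ((QuotientGroup.eq_one_iff w).mp h) (hVC hw) (hsq w hw)
      have hlt : Nat.card (G ⧸ N) < Nat.card G := by
        rw [← index_eq_card]
        have h1 := card_mul_index N
        have h2 : 1 < Nat.card N := (one_lt_card_iff_ne_bot _).mpr hN1
        have h3 : 0 < N.index := Nat.pos_of_ne_zero index_ne_zero_of_finite
        nlinarith
      have hVS : IsSidkiPair (V.map q) := by
        rintro x _ ⟨v, hv, rfl⟩ hx hvx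
        obtain ⟨h, hh, hvh, rfl⟩ := exists_odd_lift q (QuotientGroup.mk'_surjective _) (hsq v hv) hx hvx
        obtain ⟨w, hw, hw1, hc⟩ := hS h v hv hh hvh
        exact ⟨q w, ⟨w, hw, rfl⟩, fun h' => hw1 (hker w hw h'), by rw [← map_mul, hc, map_mul]⟩
      have hmeet := hminG (G ⧸ N) (V.map q) hlt ⟨⟨⟨?_⟩⟩, ?_⟩ ?_ hVS
      · obtain ⟨x, ⟨⟨w, hw, rfl⟩, hxO⟩, hx1⟩ := (bot_or_exists_ne_one _).resolve_left hmeet
        exact hx1 (by rw [hnil w hw hxO (hVC hw), map_one])
      · rintro ⟨_, a, ha, rfl⟩ ⟨_, b, hb, rfl⟩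
        exact Subtype.ext (by show q a * q b = q b * q a; rw [← map_mul, hcomm a ha b hb, map_mul])
      · rintro _ ⟨a, ha, rfl⟩
        rw [← map_pow, hV.2 a ha, map_one]
      · intro h
        exact hV1 ((eq_bot_iff_forall V).mpr fun w hw =>
          hker w hw (mem_bot.mp (h ▸ mem_map_of_mem q hw)))
    · -- the two-step argument
      have hUlt : Nat.card U < Nat.card V :=
        lt_of_le_of_ne (card_le_of_le inf_le_left) fun h =>
          hUV (eq_of_le_of_card_ge inf_le_left h.ge)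
      have hnS : ¬ IsSidkiPair U := fun h =>
        hminV U hUlt (hel U inf_le_left) hU1 h (by rw [hO, inf_bot_eq])
      obtain ⟨h, u, hu, hh, huh, hfree⟩ : ∃ h u, u ∈ U ∧ Odd (orderOf h) ∧ u * h * u⁻¹ = h⁻¹ ∧
          ∀ w ∈ U, w * h = h * w → w = 1 := by
        unfold IsSidkiPair at hnS
        push Not at hnS
        obtain ⟨h, v, hv, h1, h2, h3⟩ := hnS
        exact ⟨h, v, hv, h1, h2, fun w hw hc => by_contra fun hw1 => h3 w hw hw1 hc⟩
      -- `h` centralizes `N`
      have huN : ∀ n ∈ N, u * n = n * u := fun n hn => (hu.2 n hn).symm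
      have hhC : h ∈ centralizer (N : Set G) := by
        have h2 : h ^ 2 ∈ centralizer (N : Set G) := by
          intro n hn
          have h1 : h * n * h⁻¹ = h⁻¹ * n * h := by
            have hn' : h * n * h⁻¹ ∈ N := hNn.conj_mem n hn h
            calc h * n * h⁻¹ = u * (h * n * h⁻¹) * u⁻¹ := by
                  rw [huN _ hn', mul_inv_cancel_right]
              _ = (u * h * u⁻¹) * (u * n * u⁻¹) * (u * h * u⁻¹)⁻¹ := by group
              _ = h⁻¹ * n * h := by rw [huh, huN n hn, mul_inv_cancel_right, inv_inv]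
          calc n * h ^ 2 = h * (h⁻¹ * n * h) * h := by rw [pow_two]; group
            _ = h * (h * n * h⁻¹) * h := by rw [h1]
            _ = h ^ 2 * n := by rw [pow_two]; group
        obtain ⟨j, hj⟩ := exists_pow_eq_self_of_coprime (x := h) (n := 2) (Nat.coprime_two_left.mpr hh)
        rw [← hj]
        exact pow_mem h2 j
      set Y := V ⊓ centralizer ({h} : Set G) with hY
      have hYU : ∀ y ∈ Y, y ∈ U → y = 1 := fun y hy hyU =>
        hfree y hyU (mem_centralizer_singleton_iff.mp hy.2)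
      have hY1 : Y ≠ ⊥ := by
        obtain ⟨w, hw, hw1, hc⟩ := hS h u hu.1 hh huh
        exact fun h' => hw1 (mem_bot.mp (h' ▸ (⟨hw, mem_centralizer_singleton_iff.mpr hc⟩ : w ∈ Y)))
      have hK : N ⊔ Y ≠ ⊤ := fun h' => hNV (top_unique (h'.ge.trans (sup_le_sup_left inf_le_left N)))
      have hnSY : ¬ IsSidkiPair (Y.subgroupOf (N ⊔ Y)) := fun hS' => by
        obtain ⟨w, hw, hw1, hwc⟩ := hminK _ Y hK le_sup_right inf_le_left hY1 hS'
        exact hw1 (hYU w hw ⟨hw.1, pCoreOf_le_centralizer hO le_sup_left hwc⟩)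
      obtain ⟨n, y, hy, hn, hyn, hfree'⟩ : ∃ n y, y ∈ Y ∧ n ∈ N ∧
          (Odd (orderOf n) ∧ y * n * y⁻¹ = n⁻¹) ∧ ∀ w ∈ Y, w * n = n * w → w = 1 := by
        unfold IsSidkiPair at hnSY
        push Not at hnSY
        obtain ⟨n, y, hy, h1, h2, h3⟩ := hnSY
        refine ⟨n, y, hy, ?_, ⟨by rw [orderOf_coe]; exact h1, congrArg Subtype.val h2⟩,
          fun w hw hc => by_contra fun hw1 => h3 ⟨w, mem_sup_right hw⟩ hw
            (fun e => hw1 (congrArg Subtype.val e)) (Subtype.ext hc)⟩
        -- odd elements of `NY` lie in `N`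
        set q := QuotientGroup.mk' N with hq
        have hmem : q (n : G) ∈ Y.map q := by
          have hle : N ⊔ Y ≤ (Y.map q).comap q :=
            sup_le (fun a ha => by
              rw [mem_comap, show q a = 1 from (QuotientGroup.eq_one_iff a).mpr ha]; exact one_mem _)
              (le_comap_map _ _)
          exact hle n.2
        obtain ⟨a, ha, hae⟩ := hmem
        refine (QuotientGroup.eq_one_iff (n : G)).mp ?_
        have h1' : orderOf (q (n : G)) ∣ 2 := by
          rw [← hae]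
          exact (orderOf_map_dvd q a).trans (orderOf_dvd_of_pow_eq_one (hV.2 a ha.1))
        rcases (Nat.dvd_prime Nat.prime_two).mp h1' with h' | h'
        · exact orderOf_eq_one_iff.mp h'
        · exfalso
          have h'' : 2 ∣ orderOf (n : G) := h' ▸ orderOf_map_dvd q (n : G)
          rw [orderOf_coe] at h''
          exact (Nat.not_even_iff_odd.mpr h1) (even_iff_two_dvd.mpr h'')
      have hcn : Commute h n := (hhC n hn).symm
      have hyh : y * h = h * y := mem_centralizer_singleton_iff.mp hy.2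
      have hodd : Odd (orderOf (h * n)) :=
        (hh.mul hyn.1).of_dvd_nat hcn.orderOf_mul_dvd_mul_orderOf
      have huyinv : (u * y) * (h * n) * (u * y)⁻¹ = (h * n)⁻¹ := by
        calc (u * y) * (h * n) * (u * y)⁻¹ = u * ((y * h) * n * y⁻¹) * u⁻¹ := by group
          _ = u * (h * (y * n * y⁻¹)) * u⁻¹ := by rw [hyh]; group
          _ = (u * h * u⁻¹) * (u * n⁻¹ * u⁻¹) := by rw [hyn.2]; group
          _ = h⁻¹ * n⁻¹ := by rw [huh, huN _ (inv_mem hn), mul_inv_cancel_right]
          _ = (h * n)⁻¹ := by rw [mul_inv_rev]; exact hcn.inv_inv.eq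
      obtain ⟨w, hw, hw1, hc⟩ := hS (h * n) (u * y) (mul_mem hu.1 hy.1) hodd huyinv
      -- `w` centralizes `h`
      set z := h⁻¹ * (w * h * w⁻¹) with hz
      have hwz : z = n * (w * n * w⁻¹)⁻¹ := by
        rw [hz, inv_mul_eq_iff_eq_mul, ← mul_assoc, eq_mul_inv_iff_mul_eq]
        calc w * h * w⁻¹ * (w * n * w⁻¹) = w * (h * n) * w⁻¹ := by group
          _ = h * n := by rw [hc, mul_inv_cancel_right]
      have hzN : z ∈ N := hwz ▸ mul_mem hn (inv_mem (hNn.conj_mem n hn w))
      have hzC : z ∈ centralizer (N : Set G) :=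
        mul_mem (inv_mem hhC) ((inferInstance : (centralizer (N : Set G)).Normal).conj_mem h hhC w)
      have hz2 : z * z = 1 := by
        have e1 : u * (w * h * w⁻¹) * u⁻¹ = (w * h * w⁻¹)⁻¹ := by
          calc u * (w * h * w⁻¹) * u⁻¹ = (u * w) * h * (u * w)⁻¹ := by group
            _ = (w * u) * h * (w * u)⁻¹ := by rw [hcomm u hu.1 w hw]
            _ = w * (u * h * u⁻¹) * w⁻¹ := by group
            _ = (w * h * w⁻¹)⁻¹ := by rw [huh]; group
        have e2 : w * h * w⁻¹ = h * z := by rw [hz, mul_inv_cancel_left]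
        rw [e2] at e1
        have e3 : u * (h * z) * u⁻¹ = h⁻¹ * z := by
          calc u * (h * z) * u⁻¹ = (u * h * u⁻¹) * (u * z * u⁻¹) := by group
            _ = h⁻¹ * z := by rw [huh, huN z hzN, mul_inv_cancel_right]
        have hzh : z⁻¹ * h⁻¹ = h⁻¹ * z⁻¹ := by
          rw [← mul_inv_rev, ← mul_inv_rev, hhC z hzN]
        rw [e3, mul_inv_rev, hzh] at e1
        exact mul_eq_one_iff_eq_inv.mpr (mul_left_cancel e1)
      have hz1 := htwo z hzN hzC hz2
      have hwh : w * h = h * w := by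
        rw [hz, inv_mul_eq_one] at hz1
        conv_rhs => rw [hz1]
        rw [inv_mul_cancel_right]
      have hwn : w * n = n * w := by
        rw [hwz, mul_inv_eq_one] at hz1
        conv_rhs => rw [hz1]
        rw [inv_mul_cancel_right]
      exact hw1 (hfree' w ⟨hw, mem_centralizer_singleton_iff.mpr hwh⟩ hwn)
  -- `G = NV`
  by_cases hab : N ≤ centralizer (N : Set G)
  · -- abelian: impossible
    exfalso
    have hUbot : ∀ w ∈ V, w ∈ centralizer (N : Set G) → w = 1 := by
      intro w hw hwC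
      have hcen : w ∈ center G := mem_center_iff.mpr fun g => by
        have : (⊤ : Subgroup G) ≤ centralizer ({w} : Set G) := hNV ▸ sup_le
          (fun n hn => mem_centralizer_singleton_iff.mpr (hwC n hn))
          (fun a ha => mem_centralizer_singleton_iff.mpr (hcomm a ha w hw))
        exact mem_centralizer_singleton_iff.mp (this (mem_top g))
      have hn : (zpowers w).Normal :=
        ⟨fun a ha g => by
          have : a ∈ center G := zpowers_le.mpr hcen ha
          rwa [mem_center_iff.mp this g, mul_inv_cancel_right]⟩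
      exact mem_bot.mp (hO ▸ le_pCore hn ((hpg _ (zpowers_le.mpr hw))) (mem_zpowers w))
    have hJ : ∀ v ∈ V, v ≠ 1 → ∀ n ∈ N, v * n * v⁻¹ = n⁻¹ := by
      intro v hv hv1
      let J : Subgroup G :=
        { carrier := {n | n ∈ N ∧ v * n * v⁻¹ = n⁻¹}
          one_mem' := ⟨one_mem _, by simp⟩
          mul_mem' := fun {a b} ha hb => ⟨mul_mem ha.1 hb.1, by
            calc v * (a * b) * v⁻¹ = (v * a * v⁻¹) * (v * b * v⁻¹) := by group
              _ = a⁻¹ * b⁻¹ := by rw [ha.2, hb.2]
              _ = (a * b)⁻¹ := by rw [← mul_inv_rev, hab ha.1 b hb.1]⟩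
          inv_mem' := fun {a} ha => ⟨inv_mem ha.1, by rw [← conj_inv, ha.2]⟩ }
      have hJn : J.Normal := by
        rw [← normalizer_eq_top_iff, eq_top_iff, ← hNV, sup_le_iff]
        constructor
        · refine le_normalizer_iff.mpr fun g hg a ha => ?_
          rwa [show g * a * g⁻¹ = a by rw [hab ha.1 g hg, mul_inv_cancel_right]]
        · refine le_normalizer_iff.mpr fun g hg a ha => ⟨hNn.conj_mem a ha.1 g, ?_⟩
          calc v * (g * a * g⁻¹) * v⁻¹ = (v * g) * a * (v * g)⁻¹ := by group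
            _ = (g * v) * a * (g * v)⁻¹ := by rw [hcomm v hv g hg]
            _ = g * (v * a * v⁻¹) * g⁻¹ := by group
            _ = (g * a * g⁻¹)⁻¹ := by rw [ha.2]; group
      rcases hmin J hJn (fun _ hx => hx.1) with hJ0 | hJN
      · refine absurd (hUbot v hv (fun n hn => ?_)) hv1
        have hn' := hNn.conj_mem n hn v
        have hmem : n⁻¹ * (v * n * v⁻¹) ∈ J := by
          refine ⟨mul_mem (inv_mem hn) hn', ?_⟩
          calc v * (n⁻¹ * (v * n * v⁻¹)) * v⁻¹ = (v * n * v⁻¹)⁻¹ * ((v * v) * n * (v * v)⁻¹) := by group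
            _ = (v * n * v⁻¹)⁻¹ * n := by rw [hsq v hv, one_mul, inv_one, mul_one]
            _ = (n⁻¹ * (v * n * v⁻¹))⁻¹ := by rw [mul_inv_rev n⁻¹, inv_inv]
        rw [hJ0, mem_bot, inv_mul_eq_one] at hmem
        conv_lhs => rw [hmem]
        rw [inv_mul_cancel_right]
      · intro n hn
        exact (hJN.ge hn).2
    obtain ⟨v, hv, hv1⟩ := (bot_or_exists_ne_one V).resolve_left hV1
    have honly : ∀ w ∈ V, w ≠ 1 → w = v := by
      intro w hw hw1
      by_contra hne
      have hvw : v * w ∈ centralizer (N : Set G) := fun n hn => by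
        have h1 : v * (w * n * w⁻¹) * v⁻¹ = n := by
          rw [hJ w hw hw1 n hn, hJ v hv hv1 _ (inv_mem hn), inv_inv]
        calc n * (v * w) = v * (w * n * w⁻¹) * v⁻¹ * (v * w) := by rw [h1]
          _ = v * w * n := by group
      have := hUbot _ (mul_mem hv hw) hvw
      exact hne ((mul_eq_one_iff_eq_inv'.mp this).trans (hinv v hv))
    obtain ⟨n, hn, hn1⟩ := (bot_or_exists_ne_one N).resolve_left hN1
    have hodd : Odd (orderOf n) := by
      rw [← Nat.not_even_iff_odd, even_iff_two_dvd]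
      intro hd
      have ho : orderOf (n ^ (orderOf n / 2)) = 2 := orderOf_pow_orderOf_div (orderOf_pos n).ne' hd
      have : n ^ (orderOf n / 2) = 1 := htwo _ (pow_mem hn _) (hab (pow_mem hn _))
        (by have h2 := pow_orderOf_eq_one (n ^ (orderOf n / 2)); rwa [ho, pow_two] at h2)
      rw [this, orderOf_one] at ho
      omega
    obtain ⟨w, hw, hw1, hc⟩ := hS n v hv hodd (hJ v hv hv1 n hn)
    rw [honly w hw hw1] at hc
    have h1 := hJ v hv hv1 n hn
    rw [hc, mul_inv_cancel_right] at h1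
    exact hn1 (htwo n hn (hab hn) (mul_eq_one_iff_eq_inv.mpr h1))
  -- non-abelian
  have hCbot : centralizer (N : Set G) = ⊥ := by
    have hZ : N ⊓ centralizer (N : Set G) = ⊥ :=
      (hmin _ inferInstance inf_le_left).resolve_right fun h => hab (h.ge.trans inf_le_right)
    refine hO ▸ le_antisymm (le_pCore inferInstance ?_) ?_ |>.trans rfl
    · let f : ↥(centralizer (N : Set G)) →* G ⧸ N :=
        (QuotientGroup.mk' N).comp (centralizer (N : Set G)).subtype
      refine IsPGroup.of_injective (G := ↥(V.map (QuotientGroup.mk' N))) ?_ (f.codRestrict _ fun x => ?_) ?_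
      · exact (hpg V le_rfl).map _
      · have h : (x : G) ∈ N ⊔ V := hNV ▸ mem_top _
        rw [← SetLike.mem_coe, normal_mul] at h
        obtain ⟨a, ha, b, hb, hab'⟩ := h
        refine ⟨b, hb, ?_⟩
        show QuotientGroup.mk' N b = QuotientGroup.mk' N (x : G)
        rw [← hab', map_mul, show QuotientGroup.mk' N a = 1 from (QuotientGroup.eq_one_iff a).mpr ha,
          one_mul]
      · refine (injective_iff_map_eq_one _).mpr fun x hx => Subtype.ext ?_
        exact mem_bot.mp (hZ ▸ (⟨(QuotientGroup.eq_one_iff _).mp (congrArg Subtype.val hx), x.2⟩ :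
          (x : G) ∈ N ⊓ centralizer (N : Set G)))
    · rw [hO]; exact bot_le
  have hFN : ∀ M : Subgroup G, M.Normal → M ≠ ⊥ → N ≤ M := fun M hM hM1 => by
    haveI := hM
    refine (hmin (N ⊓ M) inferInstance inf_le_left).elim (fun h => absurd ?_ hM1) (fun h => h ▸ inf_le_right)
    refine le_bot_iff.mp (hCbot ▸ fun m hm n hn => ?_)
    have hc : ⁅n, m⁆ ∈ N ⊓ M := ⟨Subgroup.commutator_le_left N M (commutator_mem_commutator hn hm),
      Subgroup.commutator_le_right N M (commutator_mem_commutator hn hm)⟩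
    rw [h, mem_bot, commutatorElement_eq_one_iff_commute] at hc
    exact hc.eq
  have hF : fittingSubgroup G = ⊥ := by
    by_contra hne
    haveI := fittingSubgroup_normal G
    haveI := fittingSubgroup_isNilpotent G
    have hle := hFN _ inferInstance hne
    haveI : Group.IsNilpotent ↥N :=
      Subgroup.isNilpotent_of_ker_le_center (Subgroup.inclusion hle)
        (by rw [(MonoidHom.ker_eq_bot_iff _).mpr (inclusion_injective hle)]; exact bot_le)
    haveI : Nontrivial ↥N := (nontrivial_iff_ne_bot N).mpr hN1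
    have hZn : ((center ↥N).map N.subtype).Normal := ConjAct.normal_of_characteristic_of_normal
    have hZ1 : (center ↥N).map N.subtype ≠ ⊥ := fun h =>
      (Group.IsNilpotent.center_ne_bot (G := ↥N)) ((map_eq_bot_iff_of_injective _ N.subtype_injective).mp h)
    refine hab ((hFN _ hZn hZ1).trans ?_)
    rintro _ ⟨z, hz, rfl⟩ m hm
    exact congrArg Subtype.val (mem_center_iff.mp hz ⟨m, hm⟩)
  haveI := layer_normal G
  have hEne : layer G ≠ ⊥ := fun h => by
    have h1 := centralizer_fitting_le_iff_layer_eq_bot G |>.mpr h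
    rw [hF] at h1
    exact hN1 (le_bot_iff.mp (le_trans (fun x _ => h1 (fun y hy => by
      rw [mem_bot.mp hy, one_mul, mul_one])) le_rfl))
  have hEN : layer G = N := by
    refine le_antisymm ?_ (hFN _ inferInstance hEne)
    set q := QuotientGroup.mk' N with hq
    have hmap : (layer G).map q = ⊥ := by
      have hcomm' : (layer G).map q ≤ V.map q := by
        rintro _ ⟨x, -, rfl⟩
        have h : x ∈ N ⊔ V := hNV ▸ mem_top x
        rw [← SetLike.mem_coe, normal_mul] at h
        obtain ⟨a, ha, b, hb, rfl⟩ := h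
        exact ⟨b, hb, by rw [map_mul, show q a = 1 from (QuotientGroup.eq_one_iff a).mpr ha, one_mul]⟩
      rw [← le_bot_iff, ← layer_commutator_self G, map_commutator]
      refine (commutator_mono hcomm' hcomm').trans (le_of_eq ?_)
      rw [← map_commutator, commutator_eq_bot_iff_le_centralizer.mpr (fun a ha b hb => hcomm b hb a ha),
        Subgroup.map_bot]
    rwa [Subgroup.map_eq_bot_iff, QuotientGroup.ker_mk'] at hmap
  have hFE : generalizedFittingSubgroup G = N := by
    rw [generalizedFittingSubgroup, hF, sup_bot_eq, hEN]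
  rw [hFE]
  refine ⟨?_, fun h => hab fun a ha b hb =>
    congrArg Subtype.val (h.1.1 (⟨b, hb⟩ : ↥N) ⟨a, ha⟩), by rw [sup_comm]; exact hNV⟩
  -- a component
  obtain ⟨L, hL⟩ : ∃ L : Subgroup G, IsComponent L := by
    by_contra h
    push Not at h
    exact hEne (le_bot_iff.mp (sSup_le fun L hL => absurd hL (h L)))
  have hLN : L ≤ N := (component_le_layer hL).trans hEN.le
  have hZL : center ↥L = ⊥ := by
    refine eq_bot_iff.mpr fun z hz => mem_bot.mpr (Subtype.ext ?_)
    have h1 : (z : G) ∈ (center (layer G)).map (layer G).subtype := by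
      rw [center_layer_eq]
      exact le_iSup (fun L : {K : Subgroup G // IsComponent K} =>
        (center (L : Subgroup G)).map (L : Subgroup G).subtype) ⟨L, hL⟩ ⟨z, hz, rfl⟩
    obtain ⟨z', hz', hze⟩ := h1
    refine mem_bot.mp (hCbot ▸ fun m hm => ?_)
    rw [← hze]
    exact congrArg Subtype.val (mem_center_iff.mp hz' ⟨m, hEN.ge hm⟩)
  by_cases hLn : L.Normal
  · have : L = N := le_antisymm hLN (hFN L hLn (component_ne_bot hL))
    subst this
    haveI := quasisimple_nontrivial hL.2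
    refine IsSimpleGroup.mk fun M hM => ?_
    rcases quasisimple_eq_top_or_le_center_of_normal hL.2 M with h' | h'
    · exact Or.inr h'
    · exact Or.inl (le_bot_iff.mp (h'.trans hZL.le))
  exfalso
  have hLV : ¬ V ≤ normalizer (L : Set G) := fun h => hLn (normalizer_eq_top_iff.mp (top_unique
    (hNV.ge.trans (sup_le (hEN.ge.trans (layer_le_normalizer_component hL)) h))))
  obtain ⟨t, ht, htL⟩ := SetLike.not_le_iff_exists.mp hLV
  -- `L` commutes with its other conjugates
  have hdist : ∀ v ∈ V, v ∉ normalizer (L : Set G) → ∀ x ∈ L, v * x * v⁻¹ ∈ centralizer (L : Set G) := by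
    intro v hv hvL x hx
    have hne : L.map (MulAut.conj v).toMonoidHom ≠ L := fun h => hvL (mem_normalizer_iff_map_conj_eq.mpr h)
    exact commutator_eq_bot_iff_le_centralizer.mp
      ((component_eq_or_commute (component_map_conj hL v) hL).resolve_left hne) ⟨x, hx, rfl⟩
  have hLcent : ∀ x ∈ L, x ∈ centralizer (L : Set G) → x = 1 := fun x hx hxC => by
    have hmem : (⟨x, hx⟩ : ↥L) ∈ center ↥L :=
      mem_center_iff.mpr fun y => Subtype.ext (hxC y y.2)
    rw [hZL, mem_bot] at hmem
    exact congrArg Subtype.val hmem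
  set V₀ := V ⊓ normalizer (L : Set G) with hV0
  by_cases hV01 : V₀ = ⊥
  · -- `V` moves `L` regularly
    obtain ⟨l, hl, hl1, hlodd⟩ : ∃ l ∈ L, l ≠ 1 ∧ Odd (orderOf l) := by
      by_contra hno
      push Not at hno
      refine quasisimple_not_isSolvable hL.2 ?_
      have hp : IsPGroup 2 ↥L := by
        intro x
        obtain ⟨a, b, hb, hab'⟩ := Nat.exists_eq_pow_mul_and_not_dvd (orderOf_pos x).ne' 2 (by norm_num)
        refine ⟨a, ?_⟩
        by_contra hx
        refine Nat.not_even_iff_odd.mpr ?_ (Nat.not_odd_iff_even.mp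
          (hno (x ^ 2 ^ a : ↥L) (x ^ 2 ^ a).2 (fun e => hx (Subtype.ext e))))
        rw [orderOf_coe, orderOf_pow_of_dvd (by positivity) (hab' ▸ Dvd.intro _ rfl), hab',
          Nat.mul_div_cancel_left _ (by positivity), ← Nat.not_even_iff_odd, even_iff_two_dvd]
        exact hb
      haveI := hp.isNilpotent
      infer_instance
    set l' := t * l * t⁻¹ with hl'
    have hl'C : l' ∈ centralizer (L : Set G) := hdist t ht htL l hl
    have hcl : Commute l l'⁻¹ := Commute.inv_right (hl'C l hl)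
    have htt : t * l' * t⁻¹ = l := by
      calc t * (t * l * t⁻¹) * t⁻¹ = (t * t) * l * (t * t)⁻¹ := by group
        _ = l := by rw [hsq t ht]; simp
    have htn : t * (l * l'⁻¹) * t⁻¹ = (l * l'⁻¹)⁻¹ := by
      calc t * (l * l'⁻¹) * t⁻¹ = (t * l * t⁻¹) * (t * l' * t⁻¹)⁻¹ := by group
        _ = l' * l⁻¹ := by rw [htt]
        _ = (l * l'⁻¹)⁻¹ := by rw [mul_inv_rev, inv_inv]
    have hodd : Odd (orderOf (l * l'⁻¹)) := by
      refine (hlodd.mul ?_).of_dvd_nat hcl.orderOf_mul_dvd_mul_orderOf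
      rw [orderOf_inv, hl', ← MulAut.conj_apply, MulEquiv.orderOf_eq]
      exact hlodd
    obtain ⟨w, hw, hw1, hc⟩ := hS _ t ht hodd htn
    -- `l l'⁻¹` does not centralize `L`
    have hnc : l * l'⁻¹ ∉ centralizer (L : Set G) := fun h => hl1 (hLcent l hl (by
      have := mul_mem h hl'C
      rwa [inv_mul_cancel_right] at this))
    have hwn : w * (l * l'⁻¹) * w⁻¹ = l * l'⁻¹ := by rw [hc, mul_inv_cancel_right]
    have hwt : w = t := by
      by_contra hne
      have h1 : w ∉ normalizer (L : Set G) := fun h => hw1 (mem_bot.mp (hV01 ▸ ⟨hw, h⟩))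
      have h2 : w * t ∉ normalizer (L : Set G) := fun h => hne
        ((mul_eq_one_iff_eq_inv.mp (mem_bot.mp (hV01 ▸ (⟨mul_mem hw ht, h⟩ : w * t ∈ V₀)))).trans
          (hinv t ht))
      refine hnc (hwn ▸ ?_)
      have e : w * (l * l'⁻¹) * w⁻¹ = (w * l * w⁻¹) * ((w * t) * l * (w * t)⁻¹)⁻¹ := by
        rw [hl']; group
      rw [e]
      exact mul_mem (hdist w hw h1 l hl) (inv_mem (hdist _ (mul_mem hw ht) h2 l hl))
    rw [hwt, htn] at hwn
    have hsqn : (l * l'⁻¹) ^ 2 = 1 := by
      rw [pow_two]; exact mul_eq_one_iff_eq_inv.mpr hwn.symm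
    refine hnc ?_
    have h1 : orderOf (l * l'⁻¹) = 1 := by
      rcases (Nat.dvd_prime Nat.prime_two).mp (orderOf_dvd_of_pow_eq_one hsqn) with h | h
      · exact h
      · rw [h] at hodd; exact absurd hodd (by decide)
    rw [orderOf_eq_one_iff.mp h1]
    exact one_mem _
  · have hK : L ⊔ V₀ ≠ ⊤ := fun h => hLn (normalizer_eq_top_iff.mp
      (top_unique (h.ge.trans (sup_le le_normalizer inf_le_right))))
    -- elements of `V` centralizing `L` are trivial
    have hfaith : ∀ w ∈ V, w ∈ centralizer (L : Set G) → w = 1 := by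
      intro w hw hwC
      refine mem_bot.mp (hCbot ▸ ?_)
      let S : Set (Subgroup G) := {M | ∃ g : G, M = L.map (MulAut.conj g).toMonoidHom}
      have hSN : sSup S = N := by
        refine le_antisymm (sSup_le ?_) (hFN _ ?_ ?_)
        · rintro _ ⟨g, rfl⟩ _ ⟨x, hx, rfl⟩
          exact hNn.conj_mem x (hLN hx) g
        · refine normalizer_eq_top_iff.mp (top_unique fun g _ => ?_)
          refine mem_normalizer_sSup_of_forall fun M hM => ?_
          obtain ⟨x, rfl⟩ := hM
          exact ⟨g * x, map_conj_map_conj L g x⟩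
        · exact fun h => component_ne_bot hL (le_bot_iff.mp
            (h ▸ le_sSup (show L ∈ S from ⟨1, (map_conj_one L).symm⟩)))
      rw [← hSN]
      refine le_centralizer_iff.mp (sSup_le ?_) (mem_zpowers w)
      rintro _ ⟨g, rfl⟩ _ ⟨x, hx, rfl⟩
      rw [centralizer_zpowers_eq, mem_centralizer_singleton_iff]
      have hg : g ∈ N ⊔ V := hNV ▸ mem_top g
      rw [sup_comm, ← SetLike.mem_coe, mul_normal] at hg
      obtain ⟨b, hb, a, ha, rfl⟩ := hg
      have hax : a * x * a⁻¹ ∈ L :=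
        le_normalizer_iff.mp (hEN.ge.trans (layer_le_normalizer_component hL)) a ha x hx
      show (MulAut.conj (b * a)) x * w = w * (MulAut.conj (b * a)) x
      have hbi : b⁻¹ * w = w * b⁻¹ := by
        rw [hinv b hb]; exact hcomm b hb w hw
      calc (MulAut.conj (b * a)) x * w = b * (a * x * a⁻¹) * (b⁻¹ * w) := by
            simp [MulAut.conj_apply, mul_assoc]
        _ = b * ((a * x * a⁻¹) * w) * b⁻¹ := by rw [hbi]; group
        _ = (b * w) * (a * x * a⁻¹) * b⁻¹ := by rw [hwC _ hax]; group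
        _ = w * (MulAut.conj (b * a)) x := by rw [hcomm b hb w hw]; simp [MulAut.conj_apply, mul_assoc]
    -- the core of `L V₀` centralizes `L`
    have hcore : ∀ w ∈ V, w ∈ pCoreOf 2 (L ⊔ V₀) → w ∈ centralizer (L : Set G) := by
      intro w hw hwc
      set K := L ⊔ V₀ with hKdef
      have hnK : K ≤ normalizer ((pCoreOf 2 K : Subgroup G) : Set G) := by
        have h := le_normalizer_map (H := pCore 2 K) K.subtype
        haveI := pCore_normal 2 ↥K
        rwa [normalizer_eq_top (H := pCore 2 K), ← MonoidHom.range_eq_map, range_subtype] at h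
      rcases component_le_or_commute_of_le_normalizer hL (le_sup_left.trans hnK) with h | h
      · exfalso
        refine quasisimple_not_isSolvable hL.2 ?_
        haveI := (((pCore_isPGroup 2 ↥K).map K.subtype).to_le h).isNilpotent
        infer_instance
      · exact commutator_eq_bot_iff_le_centralizer.mp (by rwa [commutator_comm] at h) hwc
    have hnS : ¬ IsSidkiPair (V₀.subgroupOf (L ⊔ V₀)) := fun hS' => by
      obtain ⟨w, hw, hw1, hwc⟩ := hminK _ V₀ hK le_sup_right inf_le_left hV01 hS'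
      exact hw1 (hfaith w hw.1 (hcore w hw.1 hwc))
    unfold IsSidkiPair at hnS
    push Not at hnS
    obtain ⟨l, v, hv, hlodd, hvl, hfree⟩ := hnS
    have hlL : (l : G) ∈ L := by
      have hl2 : (l : G) ∈ ((V₀ ⊔ L : Subgroup G) : Set G) := by rw [sup_comm]; exact l.2
      rw [coe_mul_of_left_le_normalizer_right V₀ L inf_le_right] at hl2
      obtain ⟨a, ha, b, hb, hab'⟩ := hl2
      haveI : (L.subgroupOf (L ⊔ V₀)).Normal :=
        normal_subgroupOf_of_le_normalizer (sup_le le_normalizer inf_le_right)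
      set π := QuotientGroup.mk' (L.subgroupOf (L ⊔ V₀)) with hπ
      have hπl : π l = π ⟨a, mem_sup_right ha⟩ := by
        have e : l = (⟨a, mem_sup_right ha⟩ : ↥(L ⊔ V₀)) * ⟨b, mem_sup_left hb⟩ :=
          Subtype.ext hab'.symm
        rw [e, map_mul, show π ⟨b, mem_sup_left hb⟩ = 1 from
          (QuotientGroup.eq_one_iff _).mpr hb, mul_one]
      have h1 : orderOf (π l) ∣ 2 := by
        rw [hπl]
        refine orderOf_dvd_of_pow_eq_one ?_
        rw [← map_pow, show (⟨a, mem_sup_right ha⟩ : ↥(L ⊔ V₀)) ^ 2 = 1 from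
          Subtype.ext (by simpa using hV.2 a ha.1), map_one]
      rcases (Nat.dvd_prime Nat.prime_two).mp h1 with h' | h'
      · exact (QuotientGroup.eq_one_iff l).mp (orderOf_eq_one_iff.mp h')
      · exfalso
        have h'' : 2 ∣ orderOf l := h' ▸ orderOf_map_dvd π l
        exact Nat.not_even_iff_odd.mpr hlodd (even_iff_two_dvd.mpr h'')
    obtain ⟨w, hw, hw1, hc⟩ := hS (l : G) (v : G) hv.1 (by rw [orderOf_coe]; exact hlodd)
      (congrArg Subtype.val hvl)
    by_cases hwL : w ∈ normalizer (L : Set G)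
    · exact hfree ⟨w, mem_sup_right ⟨hw, hwL⟩⟩ ⟨hw, hwL⟩ (fun e => hw1 (congrArg Subtype.val e))
        (Subtype.ext hc)
    · have h1 := hdist w hw hwL l hlL
      rw [hc, mul_inv_cancel_right] at h1
      have hl1 : l = 1 := Subtype.ext (hLcent l hlL h1)
      exact hfree v hv (fun e => by
        have hvc := hfree ⟨v, v.2⟩
        obtain ⟨x, hx, hx1⟩ := (bot_or_exists_ne_one V₀).resolve_left hV01
        exact hfree ⟨x, mem_sup_right hx⟩ hx (fun e => hx1 (congrArg Subtype.val e))
          (by rw [hl1, one_mul, mul_one])) (by rw [hl1, one_mul, mul_one])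

end Cfsg.Agent.H51.Sidki
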