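import Cfsg.Agent.H51.SubnormalBlockTools
import Cfsg.Agent.H51.Balanced

/-!
Subnormal blocks commuting modulo `O_p(G)` are equal or commute.
-/

set_option autoImplicit false
set_option linter.style.haveILetI false
set_option linter.unusedSectionVars false

namespace Cfsg.Agent.H51

open Subgroup Cfsg
open scoped commutatorElement

variable {G : Type*} [Group G] [Finite G] {p : ℕ} [hp : Fact p.Prime]

/-- A commutator of operators on a block which are trivial on `E/Q` fixes `Q`. -/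
theorem derived_fixes_core {T E X : Subgroup G} (hE : IsBaumannBlock p T E)
    (hX : X ≤ normalizer (E : Set G)) (hEX : ⁅E, X⁆ ≤ pCoreOf p E)
    {y : G} (hy : y ∈ ⁅X, X⁆) (hyc : (orderOf y).Coprime p) :
    ∀ q ∈ pCoreOf p E, y * q * y⁻¹ = q := by
  set Q := pCoreOf p E with hQdef
  set W := omegaOneCenter p Q with hW
  set Z := W ⊓ centralizer (E : Set G) with hZ
  have hWel : IsElementaryAbelian p W := omegaOneCenter_isElementaryAbelian Q
  haveI : IsMulCommutative W := hWel.1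
  obtain ⟨-, hirr⟩ := block_irreducible hE
  have hEN := le_normalizer (H := E)
  have hcomm : ⁅W, W⁆ ≤ Z :=
    le_trans (le_of_eq (commutator_eq_bot_iff_le_centralizer.mpr
      (le_centralizer_iff_isMulCommutative.mpr ‹_›))) bot_le
  have hyX : y ∈ X := commutator_le_self X hy
  have hWy : ∀ w ∈ W, y * w * y⁻¹ * w⁻¹ ∈ Z := fun w hw =>
    section_commutator_trivial inf_le_left hcomm (hEN.trans (normalizer_le_normalizer_omegaCore E))
      (hEN.trans (normalizer_le_normalizer_omegaCore_fixed E))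
      (hX.trans (normalizer_le_normalizer_omegaCore E))
      (hX.trans (normalizer_le_normalizer_omegaCore_fixed E))
      (fun U h1 h2 h3 => hirr U h2 h1 h3)
      (fun e he x hx a ha => by
        rw [← mem_centralizer_iff.mp (core_le_centralizer_omega E
          (hEX (commutator_mem_commutator he hx))) a ha, mul_inv_cancel_right, mul_inv_cancel]
        exact one_mem _) hy hw
  have hQy : ∀ q ∈ Q, y * q * y⁻¹ * q⁻¹ ∈ W := fun q hq =>
    section_commutator_trivial (omega_le_core E) ((block_core_comm_le hE).trans inf_le_left)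
      (hEN.trans (normalizer_le_normalizer_core E))
      (hEN.trans (normalizer_le_normalizer_omegaCore E))
      (hX.trans (normalizer_le_normalizer_core E))
      (hX.trans (normalizer_le_normalizer_omegaCore E))
      (fun U h1 h2 h3 => block_top_irreducible hE U h1 h2 h3)
      (fun e he x hx a ha => (block_core_comm_le hE
        (commutator_mem_commutator (hEX (commutator_mem_commutator he hx)) ha)).1) hy hq
  refine fixes_core hE hyc ?_ hQy
  have hle : ⁅W, E⁆ ≤ centralizer (zpowers y : Set G) := by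
    rw [commutator_le]
    intro w hw e he
    rw [centralizer_zpowers_eq, mem_centralizer_singleton_iff]
    have hq : y * e * y⁻¹ * e⁻¹ ∈ Q := by
      rw [← commutatorElement_def, ← commutatorElement_inv]
      exact inv_mem (hEX (commutator_mem_commutator he hyX))
    obtain ⟨z, hz, hwz⟩ : ∃ z ∈ Z, y * w * y⁻¹ = z * w := ⟨_, hWy w hw, by group⟩
    obtain ⟨r, hr, her⟩ : ∃ r ∈ Q, y * e * y⁻¹ = r * e := ⟨_, hq, by group⟩
    have hew : e * w⁻¹ * e⁻¹ ∈ W :=
      (mem_normalizer_iff.mp (normalizer_le_normalizer_omegaCore E (hEN he)) _).mp (inv_mem hw)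
    have e1 : e * z⁻¹ = z⁻¹ * e := mem_centralizer_iff.mp (inv_mem hz.2) e he
    have hm : e * w⁻¹ * e⁻¹ * z⁻¹ ∈ W := mul_mem hew (inv_mem hz.1)
    have e2 : r * (e * w⁻¹ * e⁻¹ * z⁻¹) = e * w⁻¹ * e⁻¹ * z⁻¹ * r :=
      (mem_centralizer_iff.mp (core_le_centralizer_omega E hr) _ hm).symm
    have e3 : z * (w * (e * w⁻¹ * e⁻¹)) = w * (e * w⁻¹ * e⁻¹) * z :=
      congrArg Subtype.val (mul_comm' (⟨z, hz.1⟩ : ↥W) ⟨_, mul_mem hw hew⟩)
    have key : y * ⁅w, e⁆ * y⁻¹ = ⁅w, e⁆ := by
      rw [show y * ⁅w, e⁆ * y⁻¹ = ⁅y * w * y⁻¹, y * e * y⁻¹⁆ from by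
        simp only [commutatorElement_def]; group, hwz, her]
      simp only [commutatorElement_def, mul_inv_rev]
      calc z * w * (r * e) * (w⁻¹ * z⁻¹) * (e⁻¹ * r⁻¹)
          = z * w * (r * (e * w⁻¹ * (z⁻¹ * e⁻¹))) * r⁻¹ := by group
        _ = z * w * (r * (e * w⁻¹ * (e⁻¹ * z⁻¹))) * r⁻¹ := by
            rw [show z⁻¹ * e⁻¹ = e⁻¹ * z⁻¹ from by
              calc z⁻¹ * e⁻¹ = e⁻¹ * (e * z⁻¹) * e⁻¹ := by group
                _ = e⁻¹ * (z⁻¹ * e) * e⁻¹ := by rw [e1]
                _ = e⁻¹ * z⁻¹ := by group]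
        _ = z * w * (r * (e * w⁻¹ * e⁻¹ * z⁻¹)) * r⁻¹ := by group
        _ = z * w * (e * w⁻¹ * e⁻¹ * z⁻¹ * r) * r⁻¹ := by rw [e2]
        _ = z * (w * (e * w⁻¹ * e⁻¹)) * z⁻¹ := by group
        _ = w * (e * w⁻¹ * e⁻¹) * z * z⁻¹ := by rw [e3]
        _ = w * e * w⁻¹ * e⁻¹ := by group
    exact (mul_inv_eq_iff_eq_mul.mp key).symm
  intro v hv
  have := hle hv
  rw [centralizer_zpowers_eq, mem_centralizer_singleton_iff] at this
  rw [← this, mul_inv_cancel_right]

/-- The module of a block with quotient of order three has no proper invariant subgroup. -/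
theorem two_module_minimal {E U : Subgroup G} [Fact (Nat.Prime 2)] (h2 : IsTwoBlock E)
    (hnp : ¬ IsPGroup 2 E)
    (hU : U ≤ ⁅omegaOneCenter 2 (pCoreOf 2 E), E⁆) (hEU : E ≤ normalizer (U : Set G)) :
    U = ⊥ ∨ U = ⁅omegaOneCenter 2 (pCoreOf 2 E), E⁆ := by
  rcases bot_or_exists_ne_one U with h | ⟨v, hv, hv1⟩
  · exact Or.inl h
  obtain ⟨e, he, heQ⟩ : ∃ e ∈ E, e ∉ pCoreOf 2 E := by
    by_contra hno
    push Not at hno
    exact hnp ((H74.pCoreOf_isPGroup E).to_le hno)
  have hev : e * v * e⁻¹ ∈ U := (mem_normalizer_iff.mp (hEU he) v).mp hv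
  refine Or.inr (eq_of_le_of_card_ge hU (le_of_eq_of_le h2.card_module ?_))
  have hc3 : 3 ≤ Nat.card U := by
    have hne : e * v * e⁻¹ ≠ v := fun h => hv1 (h2.fixed e he heQ v (hU hv) h)
    have h : ({1, v, e * v * e⁻¹} : Set G).ncard = 3 := by
      rw [Set.ncard_eq_three]
      exact ⟨1, v, e * v * e⁻¹, fun h => hv1 h.symm, fun h => hv1 (conj_eq_one_iff.mp h.symm),
        hne.symm, rfl⟩
    rw [← h, ← SetLike.coe_sort_coe, Nat.card_coe_set_eq]
    refine Set.ncard_le_ncard ?_ (Set.toFinite _)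
    rintro x (rfl | rfl | rfl)
    exacts [one_mem U, hv, hev]
  have hd : Nat.card U ∣ 4 := h2.card_module ▸ card_dvd_of_le hU
  have := Nat.le_of_dvd (by norm_num) hd
  interval_cases hn : Nat.card U <;> omega

/-- An element commuting with the action of a block with quotient of order three acts as a power. -/
theorem two_align {E : Subgroup G} [Fact (Nat.Prime 2)] (h2 : IsTwoBlock E) {d x : G} (hd : d ∈ E)
    (hdQ : d ∉ pCoreOf 2 E)
    (hxV : x ∈ normalizer ((⁅omegaOneCenter 2 (pCoreOf 2 E), E⁆ : Subgroup G) : Set G))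
    (hxd : ∀ v ∈ ⁅omegaOneCenter 2 (pCoreOf 2 E), E⁆,
      x * (d * v * d⁻¹) * x⁻¹ = d * (x * v * x⁻¹) * d⁻¹) :
    ∃ i : ℕ, ∀ v ∈ ⁅omegaOneCenter 2 (pCoreOf 2 E), E⁆, x * v * x⁻¹ = d ^ i * v * (d ^ i)⁻¹ := by
  set V := ⁅omegaOneCenter 2 (pCoreOf 2 E), E⁆ with hV
  obtain ⟨v, hv, hv1⟩ : ∃ v ∈ V, v ≠ (1 : G) := (bot_or_exists_ne_one V).resolve_left fun h => by
    have := h2.card_module
    rw [← hV, h, card_bot] at this
    norm_num at this
  have hdN : d ∈ normalizer (V : Set G) :=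
    normalizer_le_normalizer_module E (le_normalizer hd)
  have hd2 : d ^ 2 ∉ pCoreOf 2 E := fun h => hdQ (by
    have := mul_mem (inv_mem h) (h2.cube d hd)
    rwa [show (d ^ 2)⁻¹ * d ^ 3 = d from by rw [pow_succ d 2, inv_mul_cancel_left]] at this)
  set a := d * v * d⁻¹ with ha
  set b := d ^ 2 * v * (d ^ 2)⁻¹ with hb
  have haV : a ∈ V := (mem_normalizer_iff.mp hdN v).mp hv
  have hbV : b ∈ V := (mem_normalizer_iff.mp (pow_mem hdN 2) v).mp hv
  have hav : a ≠ v := fun h => hv1 (h2.fixed d hd hdQ v hv h)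
  have hbv : b ≠ v := fun h => hv1 (h2.fixed _ (pow_mem hd 2) hd2 v hv h)
  have hab : a ≠ b := by
    intro h
    refine hav ?_
    have e : d * a * d⁻¹ = b := by rw [ha, hb, pow_two]; group
    have h' : d * a * d⁻¹ = d * v * d⁻¹ := e.trans (h.symm.trans ha)
    exact mul_left_cancel (mul_right_cancel h')
  have hall : ∀ w ∈ V, w = 1 ∨ w = v ∨ w = a ∨ w = b := by
    have hset : ({1, v, a, b} : Set G) = (V : Set G) := by
      refine Set.eq_of_subset_of_ncard_le ?_ ?_ (Set.toFinite _)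
      · rintro x (rfl | rfl | rfl | rfl)
        exacts [one_mem V, hv, haV, hbV]
      · rw [← Nat.card_coe_set_eq, SetLike.coe_sort_coe, h2.card_module,
          Set.ncard_insert_of_notMem ?_ (Set.toFinite _), Set.ncard_insert_of_notMem ?_ (Set.toFinite _),
          Set.ncard_pair hab]
        · rintro (h | h)
          exacts [hav h.symm, hbv h.symm]
        · rintro (h | h | h)
          exacts [hv1 h.symm, hv1 (conj_eq_one_iff.mp h.symm), hv1 (conj_eq_one_iff.mp h.symm)]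
    intro w hw
    have : w ∈ ({1, v, a, b} : Set G) := by rw [hset]; exact hw
    simpa using this
  obtain ⟨i, hi⟩ : ∃ i : ℕ, x * v * x⁻¹ = d ^ i * v * (d ^ i)⁻¹ := by
    rcases hall _ ((mem_normalizer_iff.mp hxV v).mp hv) with h | h | h | h
    · exact absurd (conj_eq_one_iff.mp h) hv1
    · exact ⟨0, by simpa using h⟩
    · exact ⟨1, by simpa [ha] using h⟩
    · exact ⟨2, h⟩
  refine ⟨i, ?_⟩
  have h1 : x * a * x⁻¹ = d ^ i * a * (d ^ i)⁻¹ := by
    rw [ha, hxd v hv, hi]; group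
  have h2' : x * b * x⁻¹ = d ^ i * b * (d ^ i)⁻¹ := by
    have e : b = d * a * d⁻¹ := by rw [hb, ha, pow_two]; group
    rw [e, hxd a haV, h1]; group
  intro w hw
  rcases hall w hw with rfl | rfl | rfl | rfl
  · simp
  · exact hi
  · exact h1
  · exact h2'

/-- An element whose `p'`-part fixes `Q` and which is trivial on `O_p(G)/Q` lies in `O_p(G)`, if it
has a power of exponent prime to `p` there. -/
theorem mem_core_of_fixes {Q : Subgroup G} (hG : centralizer (pCore p G : Set G) ≤ pCore p G)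
    (hQp : IsPGroup p Q) {x : G} {r : ℕ} (hr : r.Coprime p)
    (hxr : ∃ k, x ^ r ^ k ∈ pCore p G) (hRQ : ∀ t ∈ pCore p G, x * t * x⁻¹ * t⁻¹ ∈ Q)
    (hxQ : ∀ q ∈ Q, ∀ y ∈ zpowers x, (orderOf y).Coprime p → y * q * y⁻¹ = q) :
    x ∈ pCore p G := by
  haveI := pCore_normal p G
  obtain ⟨a, ha⟩ := exists_coprime_pow (p := p) x
  set y := x ^ p ^ a with hy
  have hyfix : ∀ q ∈ Q, y * q * y⁻¹ = q := fun q hq =>
    hxQ q hq y (pow_mem (mem_zpowers x) _) ha
  have hstep : ∀ t ∈ pCore p G, y * t * y⁻¹ * t⁻¹ ∈ Q := by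
    intro t ht
    rw [hy]
    generalize p ^ a = n
    induction n with
    | zero => simp
    | succ n ih =>
      have h1 := hRQ _ (Normal.conj_mem ‹_› t ht (x ^ n))
      have h2 := mul_mem h1 ih
      convert h2 using 1
      rw [pow_succ']
      group
  have hy1 : y = 1 := by
    have hyC : y ∈ centralizer (pCore p G : Set G) := mem_centralizer_iff.mpr fun t ht =>
      (mul_inv_eq_iff_eq_mul.mp (fixed_of_two_step ha hQp (hstep t ht) hyfix)).symm
    obtain ⟨k, hk⟩ := pCore_isPGroup p G ⟨y, hG hyC⟩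
    have h1 : orderOf y ∣ p ^ k := orderOf_dvd_of_pow_eq_one (by simpa using congrArg Subtype.val hk)
    exact orderOf_eq_one_iff.mp (Nat.eq_one_of_dvd_coprimes (ha.pow_right k) dvd_rfl h1)
  obtain ⟨k, hk⟩ := hxr
  exact mem_of_pow_mem_of_coprime (hr.pow k a) hk (by rw [← hy, hy1]; exact one_mem _)

end Cfsg.Agent.H51
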