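import Cfsg.Agent.H51.SubnormalBlockCommute

/-!
Subnormal blocks normalizing each other are equal or commute.
-/

set_option autoImplicit false
set_option linter.style.haveILetI false
set_option linter.unusedSectionVars false

namespace Cfsg.Agent.H51

open Subgroup Cfsg
open scoped commutatorElement

variable {G : Type*} [Group G] [Finite G]

/-- The data of the distinguished involution of a block with quaternion quotient. -/
structure IsBlockInvolution (E : Subgroup G) (z : G) : Prop where
  mem : z ∈ E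
  notMem : z ∉ pCore 3 G
  inverts : ∀ v ∈ ⁅omegaOneCenter 3 (pCoreOf 3 E), E⁆, z * v * z⁻¹ = v⁻¹
  inverts_top : ∀ q ∈ pCoreOf 3 E, z * q * z⁻¹ * q ∈ omegaOneCenter 3 (pCoreOf 3 E)
  covers : ∀ e ∈ E, e ∈ pCoreOf 3 E ∨ z⁻¹ * e ∈ pCoreOf 3 E ∨ z⁻¹ * e ^ 2 ∈ pCoreOf 3 E

section Three

variable [Fact (Nat.Prime 3)]

theorem exists_blockInvolution {T E : Subgroup G} (h3 : IsThreeBlock T E)
    (hE : IsSubnormalBlock 3 E) :
    ∃ z, IsBlockInvolution E z ∧ z ∈ ⁅E, E⁆ ∧ (orderOf z).Coprime 3 ∧
      ∀ q ∈ pCoreOf 3 E, z * q * z⁻¹ = q → q ∈ centralizer (E : Set G) := by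
  obtain ⟨z, hz, hc, hnQ, h1, h2, h3, h4⟩ := h3.invol
  exact ⟨z, ⟨commutator_le_self E hz, fun h => hnQ (hE.inf_core ▸ ⟨commutator_le_self E hz, h⟩),
    h1, h2, h4⟩, hz, hc, h3⟩

/-- The coset of the involution consists of involutions of the block. -/
theorem IsBlockInvolution.coset {T E : Subgroup G} {z z' : G} (hT : IsBaumannBlock 3 T E)
    (hE : IsSubnormalBlock 3 E) (hz : IsBlockInvolution E z) (hz' : z' ∈ E)
    (h : z⁻¹ * z' ∈ pCoreOf 3 E) : IsBlockInvolution E z' := by
  set Q := pCoreOf 3 E with hQ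
  set W := omegaOneCenter 3 Q with hW
  have hzW : z ∈ normalizer (W : Set G) :=
    normalizer_le_normalizer_omegaCore E (le_normalizer hz.mem)
  have hzQ : z ∈ normalizer (Q : Set G) := normalizer_le_normalizer_core E (le_normalizer hz.mem)
  have hEV : E ≤ normalizer (W : Set G) :=
    le_normalizer.trans (normalizer_le_normalizer_omegaCore E)
  set r := z⁻¹ * z' with hr
  have hz'r : z' = z * r := by rw [hr, mul_inv_cancel_left]
  refine ⟨hz', fun hR => hz.notMem ?_, fun v hv => ?_, fun q hq => ?_, fun e he => ?_⟩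
  · have := mul_mem hR (inv_mem (hE.core_le h))
    rwa [hz'r, mul_inv_cancel_right] at this
  · have hvW : v ∈ W := commutator_le_of_le_normalizer hEV hv
    have h1 : v * r = r * v := mem_centralizer_iff.mp (core_le_centralizer_omega E h) v hvW
    rw [hz'r, mul_inv_rev]
    calc z * r * v * (r⁻¹ * z⁻¹) = z * (r * v) * r⁻¹ * z⁻¹ := by group
      _ = z * (v * r) * r⁻¹ * z⁻¹ := by rw [h1]
      _ = z * v * z⁻¹ := by group
      _ = v⁻¹ := hz.inverts v hv
  · have h1 : ⁅r, q⁆ ∈ W := (block_core_comm_le hT (commutator_mem_commutator h hq)).1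
    have h2 := mul_mem ((mem_normalizer_iff.mp hzW _).mp h1) (hz.inverts_top q hq)
    convert h2 using 1
    rw [hz'r, commutatorElement_def]
    group
  · have hinv : z'⁻¹ * z ∈ Q := by
      have := inv_mem h
      rwa [mul_inv_rev, inv_inv] at this
    rcases hz.covers e he with h' | h' | h'
    · exact Or.inl h'
    · refine Or.inr (Or.inl ?_)
      have := mul_mem hinv h'
      rwa [mul_assoc, mul_inv_cancel_left] at this
    · refine Or.inr (Or.inr ?_)
      have := mul_mem hinv h'
      rwa [mul_assoc, mul_inv_cancel_left] at this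

/-- The fourth power of every element of such a block lies in `O_3(G)`. -/
theorem IsBlockInvolution.pow_four {E : Subgroup G} {z : G} (hE : IsSubnormalBlock 3 E)
    (hz : IsBlockInvolution E z) (hc : (orderOf z).Coprime 3) {e : G} (he : e ∈ E) :
    e ^ 4 ∈ pCore 3 G := by
  haveI := pCore_normal 3 G
  set π := QuotientGroup.mk' (pCore 3 G) with hπ
  have h0 : ∀ x ∈ pCoreOf 3 E, π x = 1 := fun x hx =>
    (QuotientGroup.eq_one_iff x).mpr (hE.core_le hx)
  have hz2 : π z ^ 2 = 1 := by
    rcases hz.covers _ (pow_mem hz.mem 2) with h | h | h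
    · rw [← map_pow]; exact h0 _ h
    · have := h0 _ h
      rw [pow_two, inv_mul_cancel_left] at this
      rw [pow_two, this, one_mul]
    · have h3 : π z ^ 3 = 1 := by
        have := h0 _ h
        rw [← pow_mul, show 2 * 2 = 3 + 1 from rfl, pow_succ', inv_mul_cancel_left] at this
        rw [← map_pow]; exact this
      have h4 : π z ^ orderOf z = 1 := by rw [← map_pow, pow_orderOf_eq_one, map_one]
      have h5 := pow_gcd_eq_one.2 ⟨h4, h3⟩
      rw [hc.gcd_eq_one, pow_one] at h5
      rw [h5, one_pow]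
  have : π e ^ 4 = 1 := by
    rcases hz.covers e he with h | h | h
    · rw [h0 e h, one_pow]
    · have h' : π z = π e := by
        have := h0 _ h
        rwa [map_mul, map_inv, inv_mul_eq_one] at this
      rw [← h', show 4 = 2 * 2 from rfl, pow_mul, hz2, one_pow]
    · have h' : π z = π e ^ 2 := by
        have := h0 _ h
        rwa [map_mul, map_inv, inv_mul_eq_one, map_pow] at this
      rw [show 4 = 2 * 2 from rfl, pow_mul, ← h', hz2]
  rw [← map_pow] at this
  exact (QuotientGroup.eq_one_iff _).mp this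

theorem le_coreRadical_two {T E : Subgroup G} (h3 : IsThreeBlock T E) (hE : IsSubnormalBlock 3 E) :
    E ≤ coreRadical 3 2 G := by
  obtain ⟨z, hz, -, hc, -⟩ := exists_blockInvolution h3 hE
  exact le_coreRadical hE.subnormal fun e he => ⟨2, hz.pow_four hE hc he⟩

end Three

/-- A block with quotient of order three is a `3`-group modulo `O_2(G)`. -/
theorem le_coreRadical_three [Fact (Nat.Prime 2)] {E : Subgroup G} (h2 : IsTwoBlock E)
    (hE : IsSubnormalBlock 2 E) : E ≤ coreRadical 2 3 G :=
  le_coreRadical hE.subnormal fun e he => ⟨1, by rw [pow_one]; exact hE.core_le (h2.cube e he)⟩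

section Two

variable [Fact (Nat.Prime 2)]

/-- Two such blocks with the same module, one aligned with the other. -/
theorem two_le_sup (hG : centralizer (pCore 2 G : Set G) ≤ pCore 2 G) {E F : Subgroup G}
    (hE : IsSubnormalBlock 2 E) (hF : IsSubnormalBlock 2 F) (hE2 : IsTwoBlock E)
    (hF2 : IsTwoBlock F) (hnp : ¬ IsPGroup 2 E)
    (hV : ⁅omegaOneCenter 2 (pCoreOf 2 E), E⁆ = ⁅omegaOneCenter 2 (pCoreOf 2 F), F⁆)
    (h : ⁅E, F⁆ ≤ pCore 2 G) : F ≤ E ⊔ pCore 2 G := by
  set V := ⁅omegaOneCenter 2 (pCoreOf 2 E), E⁆ with hVdef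
  haveI := pCore_normal 2 G
  obtain ⟨d, hd, hdQ⟩ : ∃ d ∈ E, d ∉ pCoreOf 2 E := by
    by_contra hno
    push Not at hno
    exact hnp ((H74.pCoreOf_isPGroup E).to_le hno)
  have hVQ : V = pCoreOf 2 E := hE2.core_eq.symm
  have hVQ' : V = pCoreOf 2 F := hV.trans hF2.core_eq.symm
  intro f hf
  have hfN : f ∈ normalizer (E : Set G) := hE.le_normalizer_of_comm h hf
  obtain ⟨i, hi⟩ := two_align hE2 hd hdQ (normalizer_le_normalizer_module E hfN) (fun v hv => by
    have hq : ⁅d, f⁆ ∈ pCoreOf 2 E := by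
      rw [← hE.inf_core]
      refine ⟨?_, h (commutator_mem_commutator hd hf)⟩
      rw [commutatorElement_def, mul_assoc d f, mul_assoc d]
      exact mul_mem hd ((mem_normalizer_iff.mp hfN d⁻¹).mp (inv_mem hd))
    have hw : f * (d * v * d⁻¹) * f⁻¹ ∈ omegaOneCenter 2 (pCoreOf 2 E) :=
      commutator_le_of_le_normalizer (le_normalizer.trans (normalizer_le_normalizer_omegaCore E))
        ((mem_normalizer_iff.mp (normalizer_le_normalizer_module E hfN) _).mp
          ((mem_normalizer_iff.mp (normalizer_le_normalizer_module E (le_normalizer hd)) v).mp hv))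
    have hc := mem_centralizer_iff.mp (core_le_centralizer_omega E hq) _ hw
    calc f * (d * v * d⁻¹) * f⁻¹ = f * (d * v * d⁻¹) * f⁻¹ * ⁅d, f⁆ * ⁅d, f⁆⁻¹ := by
          rw [mul_inv_cancel_right]
      _ = ⁅d, f⁆ * (f * (d * v * d⁻¹) * f⁻¹) * ⁅d, f⁆⁻¹ := by rw [hc]
      _ = d * (f * v * f⁻¹) * d⁻¹ := by simp only [commutatorElement_def]; group)
  set e := d ^ i with he
  have heE : e ∈ E := pow_mem hd i
  have hxfix : ∀ v ∈ V, (e⁻¹ * f) * v * (e⁻¹ * f)⁻¹ = v := fun v hv => by
    calc (e⁻¹ * f) * v * (e⁻¹ * f)⁻¹ = e⁻¹ * (f * v * f⁻¹) * e := by group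
      _ = e⁻¹ * (e * v * e⁻¹) * e := by rw [hi v hv]
      _ = v := by group
  haveI := coreRadical_normal (G := G) (p := 2) 3
  haveI : Fact (Nat.Prime 3) := ⟨Nat.prime_three⟩
  have hx : e⁻¹ * f ∈ pCore 2 G := by
    refine mem_core_of_fixes hG (Q := V) (hVQ ▸ H74.pCoreOf_isPGroup E) (r := 3) (by norm_num)
      (coreRadical_pow (mul_mem (inv_mem (le_coreRadical_three hE2 hE heE))
        (le_coreRadical_three hF2 hF hf))) (fun t ht => ?_) (fun q hq y hy _ => ?_)
    · have h1 : ⁅e⁻¹, f * t * f⁻¹⁆ ∈ V := hVQ.ge (hE.comm_core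
        (commutator_mem_commutator (inv_mem heE) (Normal.conj_mem ‹(pCore 2 G).Normal› t ht f)))
      have h2 : ⁅f, t⁆ ∈ V := hVQ'.ge (hF.comm_core (commutator_mem_commutator hf ht))
      convert mul_mem h1 h2 using 1
      simp only [commutatorElement_def]
      group
    · have hle : zpowers (e⁻¹ * f) ≤ centralizer (V : Set G) :=
        zpowers_le.mpr (mem_centralizer_iff.mpr fun v hv =>
          (mul_inv_eq_iff_eq_mul.mp (hxfix v hv)).symm)
      rw [← mem_centralizer_iff.mp (hle hy) q hq, mul_inv_cancel_right]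
  have := mul_mem (mem_sup_left (T := pCore 2 G) heE) (mem_sup_right (S := E) hx)
  rwa [mul_inv_cancel_left] at this

end Two

variable {p : ℕ} [hp : Fact p.Prime]

/-- If `F` centralizes the core of `E`, blocks commuting modulo `O_p(G)` commute. -/
theorem commute_of_centralizes_core {E F : Subgroup G} (hE : IsSubnormalBlock p E)
    (hF : IsSubnormalBlock p F) (h : ⁅E, F⁆ ≤ pCore p G)
    (hC : F ≤ centralizer (pCoreOf p E : Set G)) : ⁅E, F⁆ = ⊥ := by
  rw [commutator_comm]
  refine commute_of_centralizes hF.residual (H74.pCoreOf_isPGroup E) hC ?_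
  rw [commutator_comm, ← hE.inf_core]
  exact le_inf (commutator_le_of_le_normalizer (hE.le_normalizer_of_comm h)) h

/-- The perfect case. -/
theorem commute_of_perfect {E F : Subgroup G} (hE : IsSubnormalBlock p E)
    (hF : IsSubnormalBlock p F) (h : ⁅E, F⁆ ≤ pCore p G) (hperf : ⁅F, F⁆ = F) : ⁅E, F⁆ = ⊥ := by
  refine commute_of_centralizes_core hE hF h ?_
  obtain ⟨T, hT⟩ := hE.block
  have hEF : ⁅E, F⁆ ≤ pCoreOf p E := by
    rw [← hE.inf_core]
    exact le_inf (commutator_le_of_le_normalizer (hE.le_normalizer_of_comm h)) h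
  refine (eq_closure_of_residual hF.residual).le.trans ((closure_le _).mpr ?_)
  rintro y ⟨hy, hyc⟩
  refine mem_centralizer_iff.mpr fun q hq => (mul_inv_eq_iff_eq_mul.mp ?_).symm
  exact derived_fixes_core hT (hE.le_normalizer_of_comm h) hEF (hperf.symm ▸ hy) hyc q hq

/-- Subnormal blocks commuting modulo `O_p(G)` are equal or commute. -/
theorem eq_or_commute_of_comm_mod (hG : centralizer (pCore p G : Set G) ≤ pCore p G)
    {E F : Subgroup G} (hE : IsSubnormalBlock p E)
    (hF : IsSubnormalBlock p F) (h : ⁅E, F⁆ ≤ pCore p G) : E = F ∨ ⁅E, F⁆ = ⊥ := by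
  have h' : ⁅F, E⁆ ≤ pCore p G := commutator_comm E F ▸ h
  obtain ⟨T, hT⟩ := hE.block
  obtain ⟨T', hT'⟩ := hF.block
  rcases block_trichotomy hT' with ⟨hp', -⟩ | ⟨rfl, hF2⟩ | ⟨rfl, hF3⟩
  · exact Or.inr (commute_of_perfect hE hF h hp')
  · rcases block_trichotomy hT with ⟨hp', -⟩ | ⟨-, hE2⟩ | ⟨h23, -⟩
    · exact Or.inr (by rw [commutator_comm]; exact commute_of_perfect hF hE h' hp')
    · set V := ⁅omegaOneCenter 2 (pCoreOf 2 E), E⁆ with hVdef
      set V' := ⁅omegaOneCenter 2 (pCoreOf 2 F), F⁆ with hV'def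
      have hEF := hF.le_normalizer_of_comm h'
      have hinv : E ≤ normalizer ((V ⊓ V' : Subgroup G) : Set G) :=
        (le_inf (le_normalizer.trans (normalizer_le_normalizer_module E))
          (hEF.trans (normalizer_le_normalizer_module F))).trans inf_normalizer_le_normalizer_inf
      rcases two_module_minimal hE2 (block_not_isPGroup hT) inf_le_left hinv with hbot | htop
      · refine Or.inr (commute_of_centralizes_core hE hF h ?_)
        rw [hE2.core_eq, ← hVdef]
        intro f hf
        refine mem_centralizer_iff.mpr fun v hv => commutatorElement_eq_one_iff_mul_comm.mp ?_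
        refine mem_bot.mp (hbot ▸ ⟨?_, hF.omega_comm hG (hE.module_le hG hv) hf⟩ :
          ⁅v, f⁆ ∈ (⊥ : Subgroup G))
        rw [commutatorElement_def, mul_assoc v f, mul_assoc v]
        exact mul_mem hv ((mem_normalizer_iff.mp (normalizer_le_normalizer_module E
          (hE.le_normalizer_of_comm h hf)) _).mp (inv_mem hv))
      · have hVV : V = V' := eq_of_le_of_card_ge (inf_eq_left.mp htop)
          (le_of_eq (hF2.card_module.trans hE2.card_module.symm))
        exact Or.inl (hE.eq_of_le_sup hF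
          (two_le_sup hG hF hE hF2 hE2 (block_not_isPGroup hT') hVV.symm h')
          (two_le_sup hG hE hF hE2 hF2 (block_not_isPGroup hT) hVV h))
    · omega
  · rcases block_trichotomy hT with ⟨hp', -⟩ | ⟨h23, -⟩ | ⟨-, hE3⟩
    · exact Or.inr (by rw [commutator_comm]; exact commute_of_perfect hF hE h' hp')
    · omega
    · refine Or.inr (commute_of_centralizes_core hE hF h ?_)
      obtain ⟨z, hz, hzc, hzcop, hzfix⟩ := exists_blockInvolution hF3 hF
      have hFN := hE.le_normalizer_of_comm h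
      have hFQ : F ≤ normalizer (pCoreOf 3 E : Set G) := hFN.trans (normalizer_le_normalizer_core E)
      have hEF : ⁅E, F⁆ ≤ pCoreOf 3 E := by
        rw [← hE.inf_core]
        exact le_inf (commutator_le_of_le_normalizer hFN) h
      have hfix := derived_fixes_core hT hFN hEF hzc hzcop
      refine centralizes_of_residual hF.residual (H74.pCoreOf_isPGroup E) hFQ ?_
      rw [commutator_eq_bot_iff_le_centralizer, commutator_le]
      intro q hq f hf
      have h1 : ⁅q, f⁆ ∈ pCoreOf 3 E :=
        commutator_le_of_le_normalizer hFQ (commutator_mem_commutator hq hf)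
      refine hzfix _ ?_ (hfix _ h1)
      refine hF.comm_core ?_
      rw [commutator_comm]
      exact commutator_mem_commutator (hE.core_le hq) hf

end Cfsg.Agent.H51
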