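import Cfsg.Agent.H51.SubnormalBlockThree

/-!
Two subnormal blocks are equal or commute.
-/

set_option autoImplicit false
set_option linter.style.haveILetI false
set_option linter.unusedSectionVars false

namespace Cfsg.Agent.H51

open Subgroup Cfsg
open scoped commutatorElement

variable {G : Type*} [Group G] [Finite G] {p : ℕ} [hp : Fact p.Prime]

theorem IsSubnormalBlock.conj {E : Subgroup G} (hE : IsSubnormalBlock p E) (g : G) :
    IsSubnormalBlock p (E.map (MulAut.conj g).toMonoidHom) :=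
  ⟨let ⟨_, h⟩ := hE.block; isBaumannBlock_conj g h, hE.subnormal.map (MulAut.conj g).surjective⟩

/-- A perfect block gives a component of `G/O_p(G)`. -/
theorem isComponent_map {E : Subgroup G} (hE : IsSubnormalBlock p E)
    (hq : IsQuasisimple (↥E ⧸ pCore p ↥E)) :
    haveI := pCore_normal p G
    IsComponent (E.map (QuotientGroup.mk' (pCore p G))) := by
  haveI := pCore_normal p G
  haveI := pCore_normal p ↥E
  let g := (QuotientGroup.mk' (pCore p G)).comp E.subtype
  have hker : g.ker = pCore p ↥E := by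
    ext x
    rw [MonoidHom.mem_ker, ← mem_pCoreOf_iff', ← hE.inf_core]
    show (QuotientGroup.mk' (pCore p G)) (x : G) = 1 ↔ _
    rw [QuotientGroup.mk'_apply, QuotientGroup.eq_one_iff]
    exact ⟨fun h => ⟨x.2, h⟩, fun h => h.2⟩
  have hrange : g.range = E.map (QuotientGroup.mk' (pCore p G)) := by
    rw [MonoidHom.range_comp, range_subtype]
  refine ⟨hE.subnormal.map (QuotientGroup.mk'_surjective _), ?_⟩
  exact quasisimple_of_equiv hq ((QuotientGroup.quotientMulEquivOfEq hker.symm).trans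
    ((QuotientGroup.quotientKerEquivRange g).trans (MulEquiv.subgroupCongr hrange)))

/-- A block without perfect quotient is solvable modulo `O_p(G)`. -/
theorem isSolvable_map {E : Subgroup G} (T : Sylow p G) (hE : IsSubnormalBlock p E)
    (h : (p = 2 ∧ IsTwoBlock E) ∨ (p = 3 ∧ IsThreeBlock (T : Subgroup G) E)) :
    haveI := pCore_normal p G
    Group.IsSolvable ↥(E.map (QuotientGroup.mk' (pCore p G))) := by
  haveI := pCore_normal p G
  rcases h with ⟨rfl, h2⟩ | ⟨rfl, h3⟩
  · refine Group.isSolvable_of_comm ?_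
    rintro ⟨_, a, ha, rfl⟩ ⟨_, b, hb, rfl⟩
    refine Subtype.ext ?_
    show QuotientGroup.mk' (pCore 2 G) a * QuotientGroup.mk' (pCore 2 G) b =
      QuotientGroup.mk' (pCore 2 G) b * QuotientGroup.mk' (pCore 2 G) a
    rw [← commutatorElement_eq_one_iff_mul_comm, ← map_commutatorElement]
    exact (QuotientGroup.eq_one_iff _).mpr (hE.core_le (h2.comm (commutator_mem_commutator ha hb)))
  · obtain ⟨z, hz, -, hc, -⟩ := exists_blockInvolution h3 hE
    have hp2 : IsPGroup 2 ↥(E.map (QuotientGroup.mk' (pCore 3 G))) := by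
      rintro ⟨_, e, he, rfl⟩
      refine ⟨2, Subtype.ext ?_⟩
      show (QuotientGroup.mk' (pCore 3 G) e) ^ 2 ^ 2 = 1
      rw [← map_pow]
      exact (QuotientGroup.eq_one_iff _).mpr (hz.pow_four hE hc he)
    haveI : Fact (Nat.Prime 2) := ⟨Nat.prime_two⟩
    haveI := hp2.isNilpotent
    infer_instance

theorem comm_le_core_of_map {E F : Subgroup G}
    (h : haveI := pCore_normal p G
      ⁅E.map (QuotientGroup.mk' (pCore p G)), F.map (QuotientGroup.mk' (pCore p G))⁆ = ⊥) :
    ⁅E, F⁆ ≤ pCore p G := by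
  haveI := pCore_normal p G
  rwa [← Subgroup.map_commutator, Subgroup.map_eq_bot_iff, QuotientGroup.ker_mk'] at h

/-- Some block with perfect quotient is involved. -/
theorem eq_or_commute_of_perfect_quotient (hG : centralizer (pCore p G : Set G) ≤ pCore p G)
    {E F : Subgroup G} (hE : IsSubnormalBlock p E) (hF : IsSubnormalBlock p F)
    (hq : IsQuasisimple (↥E ⧸ pCore p ↥E)) : E = F ∨ ⁅E, F⁆ = ⊥ := by
  haveI := pCore_normal p G
  have hcE := isComponent_map hE hq
  obtain ⟨T', hT'⟩ := hF.block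
  rcases block_trichotomy hT' with ⟨-, hq'⟩ | h
  · rcases component_eq_or_commute hcE (isComponent_map hF hq') with he | hc
    · refine Or.inl (hE.eq_of_le_sup hF ?_ ?_)
      · have := congrArg (Subgroup.comap (QuotientGroup.mk' (pCore p G))) he
        rw [comap_map_eq, comap_map_eq, QuotientGroup.ker_mk'] at this
        exact le_sup_left.trans this.le
      · have := congrArg (Subgroup.comap (QuotientGroup.mk' (pCore p G))) he
        rw [comap_map_eq, comap_map_eq, QuotientGroup.ker_mk'] at this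
        exact le_sup_left.trans this.ge
    · exact eq_or_commute_of_comm_mod hG hE hF (comm_le_core_of_map hc)
  · refine eq_or_commute_of_comm_mod hG hE hF (comm_le_core_of_map ?_)
    refine (component_le_or_commute_of_subnormal hcE
      (hF.subnormal.map (QuotientGroup.mk'_surjective _))).resolve_left fun hle => ?_
    haveI := isSolvable_map T' hF h
    exact quasisimple_not_isSolvable hcE.2
      (Group.isSolvable_of_isSolvable_injective (inclusion_injective hle))

/-- A subnormal block not normalized by a block all whose conjugates commute: impossible. -/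
theorem le_normalizer_of_conjugates (hG : centralizer (pCore p G : Set G) ≤ pCore p G)
    {E F : Subgroup G} (T T' : Sylow p G) (hE : IsSubnormalBlock p E) (hF : IsSubnormalBlock p F)
    (hEs : (p = 2 ∧ IsTwoBlock E) ∨ (p = 3 ∧ IsThreeBlock (T : Subgroup G) E))
    (hFs : (p = 2 ∧ IsTwoBlock F) ∨ (p = 3 ∧ IsThreeBlock (T' : Subgroup G) F))
    (hconj : ∀ f ∈ F, ∀ g ∈ F,
      E.map (MulAut.conj f).toMonoidHom = E.map (MulAut.conj g).toMonoidHom ∨
        ⁅E.map (MulAut.conj f).toMonoidHom, E.map (MulAut.conj g).toMonoidHom⁆ = ⊥) :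
    F ≤ normalizer (E : Set G) := by
  set V := ⁅omegaOneCenter p (pCoreOf p E), E⁆ with hVdef
  set V' := ⁅omegaOneCenter p (pCoreOf p F), F⁆ with hV'def
  obtain ⟨hVC, hVV', hVne⟩ : V ⊓ centralizer (E : Set G) = ⊥ ∧ Nat.card V = Nat.card V' ∧
      4 ≤ Nat.card V := by
    rcases hEs with ⟨rfl, h⟩ | ⟨rfl, h⟩ <;> rcases hFs with ⟨h', hh⟩ | ⟨h', hh⟩
    · exact ⟨h.inf_centralizer, by rw [hVdef, hV'def, h.card_module, hh.card_module],
        by rw [hVdef, h.card_module]⟩
    · omega
    · omega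
    · exact ⟨h.inf_centralizer, by rw [hVdef, hV'def, h.card_module, hh.card_module],
        by rw [hVdef, h.card_module]; norm_num⟩
  have hVE : V ≤ E := (commutator_le_of_le_normalizer
    (le_normalizer.trans (normalizer_le_normalizer_omegaCore E))).trans
      ((omega_le_core E).trans (H74.pCoreOf_le E))
  intro f hf
  by_contra hfE
  let c : G → Subgroup G := fun g => E.map (MulAut.conj g).toMonoidHom
  have hfix : ∀ g, c g = E ↔ g ∈ normalizer (E : Set G) := fun g =>
    mem_normalizer_iff_map_conj_eq.symm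
  have hc1 : c 1 = E := (hfix 1).mpr (one_mem _)
  have hcmem : ∀ g, ∀ v ∈ V, g * v * g⁻¹ ∈ c g := fun g v hv => ⟨v, hVE hv, rfl⟩
  have hcomp : ∀ g h, c (g * h) = (c h).map (MulAut.conj g).toMonoidHom := fun g h => by
    simp only [c, Subgroup.map_map]
    congr 1
    ext x
    simp [mul_assoc]
  have hcent : ∀ A B : Subgroup G, ⁅A, B⁆ = ⊥ → ∀ a ∈ A, ∀ b ∈ B, a * b = b * a :=
    fun A B h a ha b hb => commutatorElement_eq_one_iff_mul_comm.mp
      (mem_bot.mp (h ▸ commutator_mem_commutator ha hb))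
  have hE1 : ∀ g ∈ F, c g = E ∨ ⁅c g, E⁆ = ⊥ := fun g hg => by
    have := hconj g hg 1 (one_mem F)
    change c g = c 1 ∨ ⁅c g, c 1⁆ = ⊥ at this
    rwa [hc1] at this
  -- the map to the module of `F`
  have hxmem : ∀ g ∈ F, ∀ w ∈ V, ⁅w, g⁆ ∈ V' := fun g hg w hw =>
    hF.omega_comm hG (hE.module_le hG hw) hg
  have hdisj : ∀ g ∈ F, g ∉ normalizer (E : Set G) → ∀ a ∈ V, g * a * g⁻¹ ∈ V → a = 1 := by
    intro g hg hgE a ha haV
    have h1 : ⁅E, c g⁆ = ⊥ := by
      rw [commutator_comm]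
      exact (hE1 g hg).resolve_left fun h => hgE ((hfix g).mp h)
    have : g * a * g⁻¹ ∈ (⊥ : Subgroup G) :=
      hVC ▸ ⟨haV, mem_centralizer_iff.mpr fun e he => hcent _ _ h1 e he _ (hcmem g a ha)⟩
    exact conj_eq_one_iff.mp (mem_bot.mp this)
  have hsurj : ∀ x ∈ V', ∃ w ∈ V, x = ⁅w, f⁆ := by
    let φ : ↥V → ↥V' := fun w => ⟨⁅(w : G), f⁆, hxmem f hf w w.2⟩
    have hφ : Function.Injective φ := by
      intro a b hab
      have h : (a : G) * f * (a : G)⁻¹ * f⁻¹ = (b : G) * f * (b : G)⁻¹ * f⁻¹ := congrArg Subtype.val hab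
      have hm : f * ((a : G)⁻¹ * b) * f⁻¹ ∈ V := by
        have h1 : f * (a : G)⁻¹ * f⁻¹ = (a : G)⁻¹ * b * (f * (b : G)⁻¹ * f⁻¹) := by
          calc f * (a : G)⁻¹ * f⁻¹ = (a : G)⁻¹ * ((a : G) * f * (a : G)⁻¹ * f⁻¹) := by group
            _ = (a : G)⁻¹ * ((b : G) * f * (b : G)⁻¹ * f⁻¹) := by rw [h]
            _ = _ := by group
        rw [show f * ((a : G)⁻¹ * b) * f⁻¹ = (f * (a : G)⁻¹ * f⁻¹) * (f * (b : G) * f⁻¹) by group, h1,
          show (a : G)⁻¹ * b * (f * (b : G)⁻¹ * f⁻¹) * (f * (b : G) * f⁻¹) = (a : G)⁻¹ * b by group]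
        exact mul_mem (inv_mem a.2) b.2
      exact Subtype.ext (inv_mul_eq_one.mp (hdisj f hf hfE _ (mul_mem (inv_mem a.2) b.2) hm))
    have hb : Function.Bijective φ :=
      (Nat.bijective_iff_injective_and_card φ).mpr ⟨hφ, hVV'⟩
    intro x hx
    obtain ⟨w, hw⟩ := hb.2 ⟨x, hx⟩
    exact ⟨w, w.2, (congrArg Subtype.val hw).symm⟩
  -- the orbit has two members
  have horbit : ∀ g ∈ F, c g = E ∨ c g = c f := by
    intro g hg
    by_contra hne
    push Not at hne
    have h1 : ⁅c g, E⁆ = ⊥ := (hE1 g hg).resolve_left hne.1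
    have h2 : ⁅c g, c f⁆ = ⊥ := (hconj g hg f hf).resolve_left hne.2
    have hallc : ∀ y ∈ c g, ∀ x ∈ V', y * x = x * y := by
      intro y hy x hx
      obtain ⟨w, hw, rfl⟩ := hsurj x hx
      have e1 : Commute y w := hcent _ _ h1 y hy w (hVE hw)
      have e2 : Commute y (f * w⁻¹ * f⁻¹) := hcent _ _ h2 y hy _ (hcmem f _ (inv_mem hw))
      have e3 := e1.mul_right e2
      rwa [show w * (f * w⁻¹ * f⁻¹) = ⁅w, f⁆ by simp only [commutatorElement_def]; group] at e3
    obtain ⟨w, hw, hw1⟩ : ∃ w ∈ V, w ≠ (1 : G) := (bot_or_exists_ne_one V).resolve_left fun h => by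
      rw [h, card_bot] at hVne
      omega
    refine hw1 ?_
    have hwE : w ∈ centralizer (E : Set G) := mem_centralizer_iff.mpr fun e he => by
      have hy : g * e * g⁻¹ ∈ c g := ⟨e, he, rfl⟩
      have e1 : Commute (g * e * g⁻¹) w := hcent _ _ h1 _ hy w (hVE hw)
      have e2 : Commute (g * e * g⁻¹) ⁅w, g⁆ := hallc _ hy _ (hxmem g hg w hw)
      have e3 := e2.symm.inv_left.mul_left e1.symm
      rw [show ⁅w, g⁆⁻¹ * w = g * w * g⁻¹ by simp only [commutatorElement_def]; group] at e3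
      have e4 : g * (w * e) * g⁻¹ = g * (e * w) * g⁻¹ := by
        calc g * (w * e) * g⁻¹ = (g * w * g⁻¹) * (g * e * g⁻¹) := by group
          _ = (g * e * g⁻¹) * (g * w * g⁻¹) := e3.eq
          _ = g * (e * w) * g⁻¹ := by group
      exact (mul_left_cancel (mul_right_cancel e4)).symm
    exact mem_bot.mp (hVC ▸ ⟨hw, hwE⟩)
  have hmul : ∀ g ∈ F, ∀ h ∈ F, g * h ∈ normalizer (E : Set G) ↔
      (g ∈ normalizer (E : Set G) ↔ h ∈ normalizer (E : Set G)) := by
    intro g hg h hh
    by_cases hgN : g ∈ normalizer (E : Set G)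
    · simp only [hgN, true_iff]
      exact (normalizer (E : Set G)).mul_mem_cancel_left hgN
    by_cases hhN : h ∈ normalizer (E : Set G)
    · simp only [hhN, iff_true]
      exact (normalizer (E : Set G)).mul_mem_cancel_right hhN
    simp only [hgN, hhN, iff_self, iff_true]
    have hh' : c h = c f := (horbit h hh).resolve_left fun e => hhN ((hfix h).mp e)
    have hg' : c g = c f := (horbit g hg).resolve_left fun e => hgN ((hfix g).mp e)
    rcases horbit (g * h) (mul_mem hg hh) with e | e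
    · exact (hfix _).mp e
    · exfalso
      have e2 : c h = E := by
        have e3 : (c h).map (MulAut.conj g).toMonoidHom = E.map (MulAut.conj g).toMonoidHom := by
          rw [← hcomp, e]; exact hg'.symm
        exact map_injective (MulAut.conj g).injective e3
      exact hhN ((hfix h).mp e2)
  rcases hFs with ⟨rfl, hF2⟩ | ⟨rfl, hF3⟩
  · haveI := pCore_normal 2 G
    have h3 : f ^ 3 ∈ normalizer (E : Set G) := hE.core_normal (hF.core_le (hF2.cube f hf))
    have h2 : f * f ∈ normalizer (E : Set G) := (hmul f hf f hf).mpr Iff.rfl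
    rw [pow_succ, pow_two] at h3
    exact hfE (((normalizer (E : Set G)).mul_mem_cancel_left h2).mp h3)
  · have hVF : ∀ w ∈ V, w ∈ V' → w = 1 := by
      intro w hw hw'
      obtain ⟨a, ha, hwa⟩ := hsurj w hw'
      have hm : f * a⁻¹ * f⁻¹ ∈ V := by
        have : f * a⁻¹ * f⁻¹ = a⁻¹ * w := by rw [hwa, commutatorElement_def]; group
        rw [this]
        exact mul_mem (inv_mem ha) hw
      have := hdisj f hf hfE _ (inv_mem ha) hm
      rw [inv_eq_one] at this
      rw [hwa, this, commutatorElement_one_left]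
    have hinvN : ∀ g ∈ F, g⁻¹ ∈ normalizer (E : Set G) ↔ g ∈ normalizer (E : Set G) := fun g _ =>
      inv_mem_iff
    have hder : ∀ y ∈ ⁅F, F⁆, ∀ w ∈ V, y * w * y⁻¹ = w := by
      have hN : ⁅F, F⁆ ≤ normalizer (E : Set G) := by
        rw [commutator_le]
        intro a ha b hb
        rw [commutatorElement_def, hmul _ (mul_mem (mul_mem ha hb) (inv_mem ha)) _ (inv_mem hb),
          hmul _ (mul_mem ha hb) _ (inv_mem ha), hmul a ha b hb, hinvN a ha, hinvN b hb]
        by_cases haN : a ∈ normalizer (E : Set G) <;> by_cases hbN : b ∈ normalizer (E : Set G) <;>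
          simp [haN, hbN]
      intro y hy w hw
      have h1 : ⁅w, y⁆ ∈ V := by
        rw [commutatorElement_def, mul_assoc w y, mul_assoc w]
        exact mul_mem hw ((mem_normalizer_iff.mp (normalizer_le_normalizer_module E (hN hy)) _).mp
          (inv_mem hw))
      exact mul_inv_eq_iff_eq_mul.mpr (commutatorElement_eq_one_iff_mul_comm.mp
        (hVF _ h1 (hxmem y (commutator_le_self F hy) w hw))).symm
    obtain ⟨z, hz, hzc, -, -⟩ := exists_blockInvolution hF3 hF
    obtain ⟨x, hx, hx1⟩ : ∃ x ∈ V', x ≠ (1 : G) := (bot_or_exists_ne_one V').resolve_left fun h => by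
      rw [hVV', h, card_bot] at hVne
      omega
    obtain ⟨w, hw, rfl⟩ := hsurj x hx
    have hzw : z * ⁅w, f⁆ * z⁻¹ = ⁅w, f⁆ := by
      have hz' : f⁻¹ * z * f ∈ ⁅F, F⁆ := by
        have hn : f ∈ normalizer ((⁅F, F⁆ : Subgroup G) : Set G) := normalizer_commutator_ge_right F F hf
        exact (mem_normalizer_iff''.mp hn z).mp hzc
      have e1 := hder z hzc w hw
      have e2 := hder _ hz' _ (inv_mem hw)
      have e3 : z * (f * w⁻¹ * f⁻¹) * z⁻¹ = f * w⁻¹ * f⁻¹ := by
        calc z * (f * w⁻¹ * f⁻¹) * z⁻¹ = f * ((f⁻¹ * z * f) * w⁻¹ * (f⁻¹ * z * f)⁻¹) * f⁻¹ := by group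
          _ = f * w⁻¹ * f⁻¹ := by rw [e2]
      calc z * ⁅w, f⁆ * z⁻¹ = (z * w * z⁻¹) * (z * (f * w⁻¹ * f⁻¹) * z⁻¹) := by
            simp only [commutatorElement_def]; group
        _ = ⁅w, f⁆ := by rw [e1, e3]; simp only [commutatorElement_def]; group
    rw [hz.inverts _ hx] at hzw
    refine hx1 (mem_bot.mp (mem_of_sq_mem (pCore_isPGroup 3 G) ?_ ?_))
    · exact (H34.omegaOne_le _).trans inf_le_left (hF.module_le hG hx)
    · rw [mem_bot]
      calc ⁅w, f⁆ * ⁅w, f⁆ = ⁅w, f⁆⁻¹ * ⁅w, f⁆ := by rw [hzw]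
        _ = 1 := inv_mul_cancel _

/-- Two subnormal blocks are equal or commute. -/
theorem subnormalBlock_eq_or_commute (hG : centralizer (pCore p G : Set G) ≤ pCore p G)
    {E F : Subgroup G} (hE : IsSubnormalBlock p E) (hF : IsSubnormalBlock p F) :
    E = F ∨ ⁅E, F⁆ = ⊥ := by
  induction hn : Nat.card ↥(E ⊔ F) using Nat.strong_induction_on generalizing E F with
  | _ n ih =>
  subst hn
  obtain ⟨T, hT⟩ := hE.block
  obtain ⟨T', hT'⟩ := hF.block
  rcases block_trichotomy hT with ⟨-, hq⟩ | hEs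
  · exact eq_or_commute_of_perfect_quotient hG hE hF hq
  rcases block_trichotomy hT' with ⟨-, hq⟩ | hFs
  · rcases eq_or_commute_of_perfect_quotient hG hF hE hq with h | h
    · exact Or.inl h.symm
    · exact Or.inr (by rw [commutator_comm]; exact h)
  -- the conjugates inside a proper normal subgroup of the join
  have key : ∀ A B : Subgroup G, IsSubnormalBlock p A → Nat.card ↥(A ⊔ B) = Nat.card ↥(E ⊔ F) →
      ∀ f ∈ B, ∀ g ∈ B, A.map (MulAut.conj f).toMonoidHom = A.map (MulAut.conj g).toMonoidHom ∨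
        ⁅A.map (MulAut.conj f).toMonoidHom, A.map (MulAut.conj g).toMonoidHom⁆ = ⊥ := by
    intro A B hA hcard f hf g hg
    rcases eq_or_ne (A.subgroupOf (A ⊔ B)) ⊤ with htop | htop
    · left
      have hBA : B ≤ normalizer (A : Set G) :=
        (le_sup_right.trans (subgroupOf_eq_top.mp htop)).trans le_normalizer
      rw [mem_normalizer_iff_map_conj_eq.mp (hBA hf), mem_normalizer_iff_map_conj_eq.mp (hBA hg)]
    obtain ⟨K, hK, hAK, hlt⟩ := hA.subnormal.subgroupOf.exists_normal_and_le_and_lt_top_of_ne htop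
    have hle : ∀ x ∈ B, A.map (MulAut.conj x).toMonoidHom ≤ K.map (A ⊔ B).subtype := by
      rintro x hx _ ⟨a, ha, rfl⟩
      exact ⟨_, hK.conj_mem ⟨a, mem_sup_left ha⟩ (hAK ha) ⟨x, mem_sup_right hx⟩, rfl⟩
    refine ih _ ?_ (hA.conj f) (hA.conj g) rfl
    rw [← hcard]
    refine lt_of_le_of_lt (card_le_of_le (sup_le (hle f hf) (hle g hg))) ?_
    rw [card_map_of_injective (A ⊔ B).subtype_injective]
    exact lt_of_le_of_ne (card_le_card_group _) fun h => hlt.ne (card_eq_iff_eq_top K |>.mp h)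
  have h1 := le_normalizer_of_conjugates hG T T' hE hF hEs hFs (key E F hE rfl)
  have h2 := le_normalizer_of_conjugates hG T' T hF hE hFs hEs (key F E hF (by rw [sup_comm]))
  rcases hEs with ⟨rfl, hE2⟩ | ⟨rfl, hE3⟩
  · rcases hFs with ⟨-, hF2⟩ | ⟨h, -⟩
    · exact eq_or_commute_of_normalize_two hG hE hF hE2 hF2 h1 h2
    · omega
  · rcases hFs with ⟨h, -⟩ | ⟨-, hF3⟩
    · omega
    · exact eq_or_commute_of_normalize_three hG T T' hT hT' hE hF hE3 hF3 h1 h2

end Cfsg.Agent.H51
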