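import Cfsg.Agent.H51.SubnormalBlockLocal

/-!
Two subnormal solvable blocks normalizing each other are equal or commute.
-/

set_option autoImplicit false
set_option linter.style.haveILetI false
set_option linter.unusedSectionVars false

namespace Cfsg.Agent.H51

open Subgroup Cfsg
open scoped commutatorElement

variable {G : Type*} [Group G] [Finite G]

/-- A `p`-element stabilizes quadratically a section of order at most `p²`. -/
theorem quadratic_of_index_le {p : ℕ} [Fact p.Prime] {A B : Subgroup G} (hAB : A ≤ B)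
    {P : Subgroup G} (hP : IsPGroup p P) (hB : IsPGroup p B)
    (hPA : P ≤ normalizer (A : Set G)) (hBA : B ≤ normalizer (A : Set G))
    (hPB : P ≤ normalizer (B : Set G)) (hidx : A.relIndex B ≤ p ^ 2) : ⁅⁅B, P⁆, P⁆ ≤ A := by
  set N := normalizer (A : Set G) with hN
  haveI : (A.subgroupOf N).Normal :=
    (normal_subgroupOf_iff_le_normalizer (hAB.trans hBA)).mpr le_rfl
  set π := QuotientGroup.mk' (A.subgroupOf N) with hπ
  set Bb := (B.subgroupOf N).map π with hBb
  set Pb := (P.subgroupOf N).map π with hPb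
  have hBc : Nat.card Bb ≤ p ^ 2 := by
    refine le_of_eq_of_le ?_ hidx
    rw [hBb, ← relIndex_bot_left, ← relIndex_comap, MonoidHom.comap_bot, hπ, QuotientGroup.ker_mk',
      relIndex_subgroupOf hBA]
  have hBp : IsPGroup p Bb := (hB.comap_subtype (K := N)).map π
  have hPp : IsPGroup p Pb := (hP.comap_subtype (K := N)).map π
  have hPN : Pb ≤ normalizer (Bb : Set (↥N ⧸ A.subgroupOf N)) := by
    refine (map_mono ?_).trans (le_normalizer_map π)
    intro x hx
    rw [mem_normalizer_iff]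
    intro y
    exact mem_normalizer_iff.mp (hPB (mem_subgroupOf.mp hx)) (y : G)
  haveI : Group.IsNilpotent ↥(Bb ⊔ Pb) := (hBp.to_sup_of_normal_left' hPp hPN).isNilpotent
  have step : ∀ U : Subgroup (↥N ⧸ A.subgroupOf N), U ≤ Bb ⊔ Pb →
      Pb ≤ normalizer (U : Set (↥N ⧸ A.subgroupOf N)) → ⁅U, Pb⁆ = U → U = ⊥ := by
    intro U hUH hPU hU
    obtain ⟨n, hn⟩ := (Subgroup.isNilpotent_iff_lowerCentralSeries (Bb ⊔ Pb)).mp inferInstance
    have : ∀ k, U ≤ (Bb ⊔ Pb).lowerCentralSeries k := by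
      intro k
      induction k with
      | zero => exact hUH
      | succ k ih =>
        rw [Subgroup.lowerCentralSeries_succ]
        exact hU.ge.trans (commutator_mono ih le_sup_right)
    exact le_bot_iff.mp ((this n).trans hn.le)
  set U₁ := ⁅Bb, Pb⁆ with hU₁
  set U₂ := ⁅U₁, Pb⁆ with hU₂
  have hU1B : U₁ ≤ Bb := commutator_le_of_le_normalizer hPN
  have hPU1 : Pb ≤ normalizer (U₁ : Set (↥N ⧸ A.subgroupOf N)) := normalizer_commutator_ge_right Bb Pb
  have hU2U1 : U₂ ≤ U₁ := commutator_le_of_le_normalizer hPU1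
  have hU2 : U₂ = ⊥ := by
    by_contra hne
    have hU1ne : U₁ ≠ ⊥ := fun h => hne (le_bot_iff.mp (h ▸ hU2U1))
    obtain ⟨k, hk⟩ := hBp.exists_card_eq
    obtain ⟨i, hi⟩ := (hBp.to_le hU1B).exists_card_eq
    obtain ⟨j, hj⟩ := (hBp.to_le (hU2U1.trans hU1B)).exists_card_eq
    have hp2 := (Fact.out : p.Prime).two_le
    have hlt1 : Nat.card U₁ < Nat.card Bb := lt_of_le_of_ne (card_le_of_le hU1B) fun h => by
      have := eq_of_le_of_card_ge hU1B h.ge
      exact hU1ne (this.trans (step Bb le_sup_left hPN this))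
    have hlt2 : Nat.card U₂ < Nat.card U₁ := lt_of_le_of_ne (card_le_of_le hU2U1) fun h => by
      have := eq_of_le_of_card_ge hU2U1 h.ge
      exact hU1ne (step U₁ (hU1B.trans le_sup_left) hPU1 this)
    have hk2 : k ≤ 2 := (Nat.pow_le_pow_iff_right hp2).mp (hk ▸ hBc)
    have hj1 : 1 ≤ j := by
      by_contra h0
      push Not at h0
      obtain rfl : j = 0 := by omega
      rw [pow_zero] at hj
      exact hne (card_eq_one.mp hj)
    rw [hk, hi] at hlt1
    rw [hi, hj] at hlt2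
    have := (Nat.pow_lt_pow_iff_right hp2).mp hlt1
    have := (Nat.pow_lt_pow_iff_right hp2).mp hlt2
    omega
  rw [hU₂, hU₁, hBb, hPb, ← Subgroup.map_commutator, ← Subgroup.map_commutator,
    Subgroup.map_eq_bot_iff, hπ, QuotientGroup.ker_mk'] at hU2
  have h := map_mono (f := N.subtype) hU2
  rw [Subgroup.map_commutator, Subgroup.map_commutator, subgroupOf_map_subtype,
    subgroupOf_map_subtype, subgroupOf_map_subtype, inf_eq_left.mpr hBA, inf_eq_left.mpr hPA,
    inf_eq_left.mpr (hAB.trans hBA)] at h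
  exact h

section Two

variable [Fact (Nat.Prime 2)]

/-- The case of quotients of order three. -/
theorem eq_or_commute_of_normalize_two (hG : centralizer (pCore 2 G : Set G) ≤ pCore 2 G)
    {E F : Subgroup G} (hE : IsSubnormalBlock 2 E) (hF : IsSubnormalBlock 2 F) (hE2 : IsTwoBlock E)
    (hF2 : IsTwoBlock F) (h1 : F ≤ normalizer (E : Set G)) (h2 : E ≤ normalizer (F : Set G)) :
    E = F ∨ ⁅E, F⁆ = ⊥ := by
  by_cases hR : E ⊓ F ≤ pCore 2 G
  · exact eq_or_commute_of_comm_mod hG hE hF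
      ((le_inf (commutator_le_of_le_normalizer h1)
        (commutator_comm E F ▸ commutator_le_of_le_normalizer h2)).trans hR)
  obtain ⟨d, hd, hdR⟩ := SetLike.not_le_iff_exists.mp hR
  have key : ∀ A B : Subgroup G, IsSubnormalBlock 2 A → IsSubnormalBlock 2 B → IsTwoBlock A →
      d ∈ A → d ∈ B → A ≤ B ⊔ pCore 2 G := by
    intro A B hA _ hA2 hdA hdB e he
    have hdQ : d ∉ pCoreOf 2 A := fun h => hdR (hA.core_le h)
    obtain ⟨i, hi⟩ := two_align hA2 hdA hdQ (normalizer_le_normalizer_module A (le_normalizer he))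
      (fun v hv => by
        have hq : ⁅d, e⁆ ∈ pCoreOf 2 A := hA2.comm (commutator_mem_commutator hdA he)
        have hw : e * (d * v * d⁻¹) * e⁻¹ ∈ omegaOneCenter 2 (pCoreOf 2 A) := by
          have hn : A ≤ normalizer (omegaOneCenter 2 (pCoreOf 2 A) : Set G) :=
            le_normalizer.trans (normalizer_le_normalizer_omegaCore A)
          exact (mem_normalizer_iff.mp (hn he) _).mp ((mem_normalizer_iff.mp (hn hdA) v).mp
            (commutator_le_of_le_normalizer hn hv))
        have hc := mem_centralizer_iff.mp (core_le_centralizer_omega A hq) _ hw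
        calc e * (d * v * d⁻¹) * e⁻¹ = e * (d * v * d⁻¹) * e⁻¹ * ⁅d, e⁆ * ⁅d, e⁆⁻¹ := by
              rw [mul_inv_cancel_right]
          _ = ⁅d, e⁆ * (e * (d * v * d⁻¹) * e⁻¹) * ⁅d, e⁆⁻¹ := by rw [hc]
          _ = d * (e * v * e⁻¹) * d⁻¹ := by simp only [commutatorElement_def]; group)
    have hx : (d ^ i)⁻¹ * e ∈ pCoreOf 2 A := by
      by_contra hxQ
      obtain ⟨v, hv, hv1⟩ := (bot_or_exists_ne_one ⁅omegaOneCenter 2 (pCoreOf 2 A), A⁆).resolve_left
        fun h => by
          have := hA2.card_module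
          rw [h, card_bot] at this
          norm_num at this
      refine hv1 (hA2.fixed _ (mul_mem (inv_mem (pow_mem hdA i)) he) hxQ v hv ?_)
      calc (d ^ i)⁻¹ * e * v * ((d ^ i)⁻¹ * e)⁻¹ = (d ^ i)⁻¹ * (e * v * e⁻¹) * d ^ i := by group
        _ = (d ^ i)⁻¹ * (d ^ i * v * (d ^ i)⁻¹) * d ^ i := by rw [hi v hv]
        _ = v := by group
    have := mul_mem (mem_sup_left (T := pCore 2 G) (pow_mem hdB i))
      (mem_sup_right (S := B) (hA.core_le hx))
    rwa [mul_inv_cancel_left] at this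
  exact Or.inl (hE.eq_of_le_sup hF (key E F hE hF hE2 hd.1 hd.2) (key F E hF hE hF2 hd.2 hd.1))

end Two

section Three

variable [Fact (Nat.Prime 3)]

theorem mem_of_sq_mem {U : Subgroup G} {x : G} {Q : Subgroup G} (hQ : IsPGroup 3 Q) (hx : x ∈ Q)
    (h : x * x ∈ U) : x ∈ U := by
  obtain ⟨k, hk⟩ := hQ ⟨x, hx⟩
  have hk' : x ^ 3 ^ k = 1 := by simpa using congrArg Subtype.val hk
  obtain ⟨r, hr⟩ : Odd (3 ^ k) := Odd.pow (by decide)
  have e : x = (x * x) ^ (r + 1) := by
    rw [← pow_two, ← pow_mul, show 2 * (r + 1) = 3 ^ k + 1 by omega, pow_succ, hk', one_mul]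
  rw [e]
  exact pow_mem h _

/-- Modules of blocks sharing the involution. -/
theorem module_le_of_involution (hG : centralizer (pCore 3 G : Set G) ≤ pCore 3 G) {E F : Subgroup G}
    (hE : IsSubnormalBlock 3 E) (hF : IsSubnormalBlock 3 F) {z : G} (hz : IsBlockInvolution E z)
    (hzF : z ∈ F) :
    ⁅omegaOneCenter 3 (pCoreOf 3 E), E⁆ ≤ ⁅omegaOneCenter 3 (pCoreOf 3 F), F⁆ := by
  intro v hv
  have h := hF.omega_comm hG (hE.module_le hG hv) hzF
  have e : ⁅v, z⁆ = v * v := by
    have h' := hz.inverts _ (inv_mem hv)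
    rw [inv_inv] at h'
    calc ⁅v, z⁆ = v * (z * v⁻¹ * z⁻¹) := by simp only [commutatorElement_def]; group
      _ = v * v := by rw [h']
  rw [e] at h
  exact mem_of_sq_mem (pCore_isPGroup 3 G)
    ((H34.omegaOne_le _).trans inf_le_left (hE.module_le hG hv)) h

/-- Cores of blocks sharing the involution and the module. -/
theorem core_le_of_involution {T E F : Subgroup G} (hE3 : IsThreeBlock T E)
    (hT : IsBaumannBlock 3 T E) (hE : IsSubnormalBlock 3 E) (hF : IsSubnormalBlock 3 F) {z : G}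
    (hz : IsBlockInvolution E z) (hzF : z ∈ F)
    (hV : ⁅omegaOneCenter 3 (pCoreOf 3 E), E⁆ ≤ pCoreOf 3 F) : pCoreOf 3 E ≤ pCoreOf 3 F := by
  set Q := pCoreOf 3 E with hQdef
  set W := omegaOneCenter 3 Q with hW
  rcases hE3.layers with h | ⟨hQQ, -⟩
  · exact h.le.trans hV
  set D := Q ⊓ pCoreOf 3 F with hD
  have hWc : W ≤ centralizer (Q : Set G) := le_centralizer_iff.mp (core_le_centralizer_omega E)
  have hS : Q ≤ D ⊔ W := by
    intro q hq
    refine mem_of_sq_mem (H74.pCoreOf_isPGroup E) hq ?_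
    set w := z * q * z⁻¹ * q with hwdef
    have hw : w ∈ W := hz.inverts_top q hq
    have h1 : ⁅q, z⁆ ∈ D := by
      refine ⟨?_, hF.comm_core ?_⟩
      · rw [commutatorElement_def, mul_assoc q z, mul_assoc q]
        exact mul_mem hq ((mem_normalizer_iff.mp
          (normalizer_le_normalizer_core E (le_normalizer hz.mem)) _).mp (inv_mem hq))
      · rw [commutator_comm]
        exact commutator_mem_commutator (hE.core_le hq) hzF
    have e : q * q = ⁅q, z⁆ * w := by
      rw [commutatorElement_def, hwdef]; group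
    rw [e]
    exact mul_mem (mem_sup_left h1) (mem_sup_right hw)
  have hn : W ≤ normalizer (D : Set G) :=
    (hWc.trans (centralizer_le inf_le_left)).trans (centralizer_le_normalizer _)
  have hZ : ⁅Q, Q⁆ ≤ pCoreOf 3 F := by
    rw [commutator_le]
    intro a ha b hb
    have ha' := hS ha
    have hb' := hS hb
    rw [← SetLike.mem_coe, coe_mul_of_right_le_normalizer_left _ _ hn] at ha' hb'
    obtain ⟨s, hs, w, hw, rfl⟩ := ha'
    obtain ⟨t, ht, u, hu, rfl⟩ := hb'
    have e1 : w * (t * u) = (t * u) * w := (mem_centralizer_iff.mp (hWc hw) _ hb).symm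
    have e2 : u * s⁻¹ = s⁻¹ * u := (mem_centralizer_iff.mp (hWc hu) _ (inv_mem hs.1)).symm
    have e : ⁅s * w, t * u⁆ = ⁅s, t⁆ := by
      simp only [commutatorElement_def, mul_inv_rev]
      calc s * w * (t * u) * (w⁻¹ * s⁻¹) * (u⁻¹ * t⁻¹)
          = s * (w * (t * u)) * w⁻¹ * s⁻¹ * u⁻¹ * t⁻¹ := by group
        _ = s * ((t * u) * w) * w⁻¹ * s⁻¹ * u⁻¹ * t⁻¹ := by rw [e1]
        _ = s * t * (u * s⁻¹) * u⁻¹ * t⁻¹ := by group
        _ = s * t * (s⁻¹ * u) * u⁻¹ * t⁻¹ := by rw [e2]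
        _ = s * t * s⁻¹ * t⁻¹ := by group
    rw [e, commutatorElement_def]
    exact mul_mem (mul_mem (mul_mem hs.2 ht.2) (inv_mem hs.2)) (inv_mem ht.2)
  refine hS.trans (sup_le inf_le_right ?_)
  rw [hW, ← block_module_decomp hT]
  exact sup_le hV (hQQ.ge.trans hZ)

/-- No element of `2`-power order modulo `O_3(G)` inverts the top layer and fixes the module. -/
theorem no_top_inversion (hG : centralizer (pCore 3 G : Set G) ≤ pCore 3 G) (T : Sylow 3 G)
    {E : Subgroup G} (hT : IsBaumannBlock 3 (T : Subgroup G) E) (hE : IsSubnormalBlock 3 E)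
    (hQQ : ⁅pCoreOf 3 E, pCoreOf 3 E⁆ = omegaOneCenter 3 (pCoreOf 3 E) ⊓ centralizer (E : Set G))
    (hidx : (omegaOneCenter 3 (pCoreOf 3 E)).relIndex (pCoreOf 3 E) = 9)
    (hquad : ∀ b ∈ baumannSubgroupOf 3 (T : Subgroup G),
      b ∉ centralizer (omegaOneCenter 3 (pCoreOf 3 E) : Set G) →
        ¬ ⁅⁅pCoreOf 3 E, zpowers b⁆, zpowers b⁆ ≤
          omegaOneCenter 3 (pCoreOf 3 E) ⊓ centralizer (E : Set G))
    (hcard : Nat.card ↥⁅omegaOneCenter 3 (pCoreOf 3 E), E⁆ = 9)
    (hVC : ⁅omegaOneCenter 3 (pCoreOf 3 E), E⁆ ⊓ centralizer (E : Set G) = ⊥)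
    {y : G} (hyE : y ∈ normalizer (E : Set G)) (hy2 : y ∈ coreRadical 3 2 G)
    (hyc : (orderOf y).Coprime 3)
    (hyR : ∀ t ∈ pCore 3 G, y * t * y⁻¹ * t⁻¹ ∈ pCoreOf 3 E)
    (hyW : ∀ w ∈ omegaOneCenter 3 (pCoreOf 3 E), y * w * y⁻¹ = w)
    (hyQ : ∀ q ∈ pCoreOf 3 E, y * q * y⁻¹ * q ∈ omegaOneCenter 3 (pCoreOf 3 E)) : False := by
  set Q := pCoreOf 3 E with hQdef
  set W := omegaOneCenter 3 Q with hW
  set Z := W ⊓ centralizer (E : Set G) with hZ
  set R := pCore 3 G with hR
  haveI := pCore_normal 3 G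
  have hWQ : W ≤ Q := omega_le_core E
  have hQp : IsPGroup 3 Q := H74.pCoreOf_isPGroup E
  have hWp : IsPGroup 3 W := hQp.to_le hWQ
  have hWc : ∀ w ∈ W, ∀ q ∈ Q, q * w = w * q := fun w hw q hq =>
    (mem_centralizer_iff.mp (core_le_centralizer_omega E hq) w hw).symm
  have hNQ := normalizer_le_normalizer_core (p := 3) E
  have hNW := normalizer_le_normalizer_omegaCore (p := 3) E
  have hNZ := normalizer_le_normalizer_omegaCore_fixed (p := 3) E
  haveI := coreRadical_normal (G := G) (p := 3) 2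
  haveI : Fact (Nat.Prime 2) := ⟨Nat.prime_two⟩
  -- conjugates of `y` by normalizing elements agree with `y` modulo `Q`
  have hconj : ∀ b ∈ normalizer (E : Set G), b * y * b⁻¹ * y⁻¹ ∈ Q := by
    intro b hb
    set c := b * y * b⁻¹ with hc
    set r := c * y⁻¹ with hr
    have hb' : b⁻¹ ∈ normalizer (E : Set G) := inv_mem hb
    have hcW : ∀ w ∈ W, c * w * c⁻¹ = w := fun w hw => by
      have h1 := hyW _ ((mem_normalizer_iff''.mp (hNW hb) w).mp hw)
      calc c * w * c⁻¹ = b * (y * (b⁻¹ * w * b) * y⁻¹) * b⁻¹ := by rw [hc]; group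
        _ = w := by rw [h1]; group
    have hrW : ∀ w ∈ W, r * w * r⁻¹ = w := fun w hw => by
      have h1 : y⁻¹ * w * y = w := by
        nth_rewrite 1 [← hyW w hw]
        group
      calc r * w * r⁻¹ = c * (y⁻¹ * w * y) * c⁻¹ := by rw [hr]; group
        _ = w := by rw [h1, hcW w hw]
    have hcQ : ∀ q ∈ Q, c * q * c⁻¹ * q ∈ W := fun q hq => by
      have h1 := hyQ _ ((mem_normalizer_iff''.mp (hNQ hb) q).mp hq)
      have h2 := (mem_normalizer_iff.mp (hNW hb) _).mp h1
      convert h2 using 1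
      rw [hc]; group
    have hcR : ∀ t ∈ R, c * t * c⁻¹ * t⁻¹ ∈ Q := fun t ht => by
      have h1 := hyR _ (Normal.conj_mem ‹R.Normal› t ht b⁻¹)
      have h2 := (mem_normalizer_iff.mp (hNQ hb) _).mp h1
      convert h2 using 1
      rw [hc]; group
    have hyQ' : ∀ q ∈ Q, y⁻¹ * q * y ∈ Q := fun q hq => (mem_normalizer_iff''.mp (hNQ hyE) q).mp hq
    have hrQ : ∀ q ∈ Q, r * q * r⁻¹ * q⁻¹ ∈ W := fun q hq => by
      have h1 := hcQ _ (hyQ' q hq)
      have h2 := hyQ _ (hyQ' q hq)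
      have h3 := mul_mem h1 (inv_mem h2)
      convert h3 using 1
      rw [hr]; group
    have hrR : ∀ t ∈ R, r * t * r⁻¹ * t⁻¹ ∈ Q := fun t ht => by
      have ht' : y⁻¹ * t * y ∈ R := by simpa using Normal.conj_mem ‹R.Normal› t ht y⁻¹
      have h1 := hcR _ ht'
      have h2 := hyR _ ht'
      have h3 := mul_mem h1 (inv_mem h2)
      convert h3 using 1
      rw [hr]; group
    have hrR' : r ∈ R := by
      refine mem_core_of_fixes hG hQp (r := 2) (by norm_num)
        (coreRadical_pow (mul_mem (Normal.conj_mem ‹_› y hy2 b) (inv_mem hy2))) hrR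
        (fun q hq x hx hxc => ?_)
      obtain ⟨i, rfl⟩ := mem_zpowers_iff.mp hx
      have hfixW : ∀ w ∈ W, r ^ i * w * (r ^ i)⁻¹ = w := fun w hw => by
        have : r ∈ centralizer (W : Set G) := mem_centralizer_iff.mpr fun v hv =>
          (mul_inv_eq_iff_eq_mul.mp (hrW v hv)).symm
        rw [← mem_centralizer_iff.mp (zpow_mem this i) w hw, mul_inv_cancel_right]
      refine fixed_of_two_step hxc hWp ?_ hfixW
      let K : Subgroup G :=
        { carrier := {g | g ∈ normalizer (W : Set G) ∧ g ∈ normalizer (Q : Set G) ∧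
            ∀ s ∈ Q, g * s * g⁻¹ * s⁻¹ ∈ W}
          one_mem' := ⟨one_mem _, one_mem _, fun s _ => by simp⟩
          mul_mem' := by
            rintro g h ⟨hg1, hg2, hg3⟩ ⟨hh1, hh2, hh3⟩
            refine ⟨mul_mem hg1 hh1, mul_mem hg2 hh2, fun s hs => ?_⟩
            have := mul_mem (hg3 _ ((mem_normalizer_iff.mp hh2 s).mp hs)) (hh3 s hs)
            convert this using 1
            group
          inv_mem' := by
            rintro g ⟨hg1, hg2, hg3⟩
            refine ⟨inv_mem hg1, inv_mem hg2, fun s hs => ?_⟩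
            have := inv_mem (hg3 _ ((mem_normalizer_iff''.mp hg2 s).mp hs))
            convert this using 1
            group }
      have hcN : c ∈ normalizer (E : Set G) := mul_mem (mul_mem hb hyE) hb'
      have hrK : r ∈ K := ⟨hNW (mul_mem hcN (inv_mem hyE)), hNQ (mul_mem hcN (inv_mem hyE)), hrQ⟩
      exact (zpow_mem hrK i).2.2 q hq
    -- `c = r y` has the order of `y`
    have hRQ : R ≤ normalizer (Q : Set G) := hE.core_normal.trans hNQ
    have key : ∀ k : ℕ, (r * y) ^ k * (r ^ k * y ^ k)⁻¹ ∈ Q := by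
      intro k
      induction k with
      | zero => simp
      | succ k ih =>
        have h1 : r * (y * ((r * y) ^ k * (r ^ k * y ^ k)⁻¹) * y⁻¹) * r⁻¹ ∈ Q :=
          (mem_normalizer_iff.mp (hRQ hrR') _).mp ((mem_normalizer_iff.mp (hNQ hyE) _).mp ih)
        have h2 : r * (y * r ^ k * y⁻¹ * (r ^ k)⁻¹) * r⁻¹ ∈ Q :=
          (mem_normalizer_iff.mp (hRQ hrR') _).mp (hyR _ (pow_mem hrR' k))
        convert mul_mem h1 h2 using 1
        rw [pow_succ' (r * y) k, pow_succ' y k, pow_succ' r k]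
        group
    have hn : (r * y) ^ orderOf y = 1 := by
      rw [hr, inv_mul_cancel_right, hc, ← MulAut.conj_apply, ← map_pow, pow_orderOf_eq_one, map_one]
    have h3 := key (orderOf y)
    rw [hn, pow_orderOf_eq_one, mul_one, one_mul] at h3
    obtain ⟨k, hk⟩ := pCore_isPGroup 3 G ⟨r, hrR'⟩
    have hk' : r ^ 3 ^ k = 1 := by simpa using congrArg Subtype.val hk
    have hcop : (orderOf r).Coprime (orderOf y) :=
      Nat.Coprime.coprime_dvd_left (orderOf_dvd_of_pow_eq_one hk') (hyc.symm.pow_left k)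
    show r ∈ Q
    obtain ⟨m, hm⟩ := exists_pow_eq_self_of_coprime hcop.symm
    rw [← hm]
    exact pow_mem (inv_mem_iff.mp h3) m
  -- the inverted part of `Q`
  let U : Subgroup G :=
    { carrier := {q | q ∈ Q ∧ y * q * y⁻¹ * q ∈ Z}
      one_mem' := ⟨one_mem _, by simp⟩
      mul_mem' := by
        rintro a b ⟨ha, ha'⟩ ⟨hb, hb'⟩
        refine ⟨mul_mem ha hb, ?_⟩
        have hA : y * a * y⁻¹ ∈ Q := (mem_normalizer_iff.mp (hNQ hyE) a).mp ha
        have hB : y * b * y⁻¹ ∈ Q := (mem_normalizer_iff.mp (hNQ hyE) b).mp hb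
        have hcm : ⁅a⁻¹, y * b * y⁻¹⁆ ∈ Z := hQQ.le (commutator_mem_commutator (inv_mem ha) hB)
        have := mul_mem (mul_mem ha' hcm) hb'
        convert this using 1
        simp only [commutatorElement_def]
        group
      inv_mem' := by
        rintro a ⟨ha, ha'⟩
        refine ⟨inv_mem ha, ?_⟩
        have hA : y * a * y⁻¹ ∈ Q := (mem_normalizer_iff.mp (hNQ hyE) a).mp ha
        have hcm : ⁅(y * a * y⁻¹)⁻¹, a⁻¹⁆ ∈ Z :=
          hQQ.le (commutator_mem_commutator (inv_mem hA) (inv_mem ha))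
        have := mul_mem hcm (inv_mem ha')
        convert this using 1
        simp only [commutatorElement_def]
        group }
  have hUb : ∀ b ∈ normalizer (E : Set G), ∀ u ∈ U, b * u * b⁻¹ ∈ U := by
    rintro b hb u ⟨hu, hu'⟩
    refine ⟨(mem_normalizer_iff.mp (hNQ hb) u).mp hu, ?_⟩
    have h1 := hconj b⁻¹ (inv_mem hb)
    rw [inv_inv] at h1
    set r := b⁻¹ * y * b * y⁻¹ with hr
    have hyu : y * u * y⁻¹ ∈ Q := (mem_normalizer_iff.mp (hNQ hyE) u).mp hu
    have hcm : ⁅r, y * u * y⁻¹⁆ ∈ Z := hQQ.le (commutator_mem_commutator h1 hyu)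
    have h2 := (mem_normalizer_iff.mp (hNZ hb) _).mp (mul_mem hcm hu')
    convert h2 using 1
    simp only [commutatorElement_def, hr]
    group
  have hy2fix : ∀ q ∈ Q, (y * y) * q * (y * y)⁻¹ = q := by
    intro q hq
    refine fixed_of_two_step (D := W) ?_ hWp ?_ fun w hw => ?_
    · rw [← pow_two]; exact hyc.coprime_dvd_left (orderOf_pow_dvd 2)
    · have hyq : y * q * y⁻¹ ∈ Q := (mem_normalizer_iff.mp (hNQ hyE) q).mp hq
      have h1 := hyQ _ hyq
      have h2 := hyQ q hq
      set s := y * q * y⁻¹ * q with hs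
      have hqs : q⁻¹ * s = s * q⁻¹ := hWc s h2 _ (inv_mem hq)
      convert mul_mem h1 (inv_mem h2) using 1
      calc (y * y) * q * (y * y)⁻¹ * q⁻¹ = y * (y * q * y⁻¹) * y⁻¹ * (y * q * y⁻¹) * ((y * q * y⁻¹)⁻¹ * q⁻¹) := by
            group
        _ = y * (y * q * y⁻¹) * y⁻¹ * (y * q * y⁻¹) * s⁻¹ := by
            congr 1
            rw [hs]
            have hc2 : q * (y * q * y⁻¹) = (y * q * y⁻¹) * q := by
              have : y * q * y⁻¹ = s * q⁻¹ := by rw [hs]; group
              rw [this, ← mul_assoc, hWc s h2 q hq]; group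
            rw [← mul_inv_rev, hc2]
    · calc (y * y) * w * (y * y)⁻¹ = y * (y * w * y⁻¹) * y⁻¹ := by group
        _ = w := by rw [hyW w hw, hyW w hw]
  have hWQn : W ≤ normalizer (U : Set G) := by
    refine fun w hw => H74.mem_normalizer_of_conj_mem fun u hu => ?_
    rw [← hWc w hw u hu.1, mul_inv_cancel_right]
    exact hu
  have hQUW : Q ≤ U ⊔ W := by
    intro q hq
    refine mem_of_sq_mem hQp hq ?_
    have h2 := hyQ q hq
    set s := y * q * y⁻¹ * q with hs
    have hyq : y * q * y⁻¹ = s * q⁻¹ := by rw [hs]; group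
    have hu : q * (y * q * y⁻¹)⁻¹ ∈ U := by
      have hyq' : y * q * y⁻¹ ∈ Q := (mem_normalizer_iff.mp (hNQ hyE) q).mp hq
      refine ⟨mul_mem hq (inv_mem hyq'), ?_⟩
      have e : y * (q * (y * q * y⁻¹)⁻¹) * y⁻¹ * (q * (y * q * y⁻¹)⁻¹) =
          (y * q * y⁻¹) * ((y * y) * q * (y * y)⁻¹)⁻¹ * q * (y * q * y⁻¹)⁻¹ := by group
      rw [e, hy2fix q hq, inv_mul_cancel_right, mul_inv_cancel]
      exact one_mem _
    have e : q * q = q * (y * q * y⁻¹)⁻¹ * s := by
      rw [hyq, mul_inv_rev, inv_inv]; group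
    rw [e]
    exact mul_mem (mem_sup_left hu) (mem_sup_right h2)
  have hZU : Z ≤ U := fun x hx => ⟨hWQ hx.1, by rw [hyW x hx.1]; exact mul_mem hx hx⟩
  have hUW : W ⊓ U = Z := by
    refine le_antisymm ?_ (le_inf inf_le_left hZU)
    rintro x ⟨hx, -, hx'⟩
    rw [hyW x hx] at hx'
    exact mem_of_sq_mem hWp hx hx'
  have hUQ : U ≤ Q := fun x hx => hx.1
  have hsupQ : U ⊔ W = Q := le_antisymm (sup_le hUQ hWQ) hQUW
  haveI : (W.subgroupOf (U ⊔ W)).Normal :=
    normal_subgroupOf_of_le_normalizer (sup_le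
      ((hUQ.trans (core_le_centralizer_omega E)).trans (centralizer_le_normalizer _)) le_normalizer)
  have hUidx : Z.relIndex U = 9 := by
    have e1 := relIndex_sup_right (H := U.subgroupOf (U ⊔ W)) (K := W.subgroupOf (U ⊔ W))
    rw [← subgroupOf_sup le_sup_left le_sup_right, relIndex_subgroupOf le_rfl,
      relIndex_subgroupOf le_sup_left] at e1
    rw [← hUW, inf_relIndex_right, ← e1, hsupQ, hidx]
  have hWidx : Z.relIndex W = 9 := by
    have hEW : E ≤ normalizer (W : Set G) := le_normalizer.trans hNW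
    have hVW : ⁅W, E⁆ ≤ W := commutator_le_of_le_normalizer hEW
    haveI : IsMulCommutative W := (omegaOneCenter_isElementaryAbelian Q).1
    have hsup : ⁅W, E⁆ ⊔ Z = W := block_module_decomp hT
    have e1 := relIndex_sup_right (K := Z.subgroupOf W) (H := (⁅W, E⁆).subgroupOf W)
    rw [← subgroupOf_sup hVW inf_le_left, hsup, relIndex_subgroupOf le_rfl,
      relIndex_subgroupOf hVW] at e1
    rw [e1, ← inf_relIndex_right Z, show Z ⊓ ⁅W, E⁆ = ⊥ from le_bot_iff.mp
        ((le_inf inf_le_right (inf_le_left.trans inf_le_right)).trans hVC.le), relIndex_bot_left, hcard]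
  obtain ⟨b, hb, hbW⟩ : ∃ b ∈ baumannSubgroupOf 3 (T : Subgroup G), b ∉ centralizer (W : Set G) := by
    by_contra hno
    push Not at hno
    refine (block_irreducible hT).1 (le_centralizer_iff.mp ?_)
    refine hT.2.1.ge.trans ?_
    rw [commutator_le]
    intro e he x hx
    rw [commutatorElement_def]
    refine mul_mem (mem_centralizer_iff.mpr fun w hw => ?_) (inv_mem (hno x hx))
    have hw' : e⁻¹ * w * e ∈ W := (mem_normalizer_iff''.mp (hNW (le_normalizer he)) w).mp hw
    have h1 := mem_centralizer_iff.mp (hno x hx) _ hw'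
    calc w * (e * x * e⁻¹) = e * ((e⁻¹ * w * e) * x) * e⁻¹ := by group
      _ = e * (x * (e⁻¹ * w * e)) * e⁻¹ := by rw [h1]
      _ = e * x * e⁻¹ * w := by group
  set P := zpowers b with hP
  have hbN : P ≤ normalizer (E : Set G) :=
    zpowers_le.mpr (baumann_le_normalizer_of_commutator_eq hT.2.1 hb)
  have hPp : IsPGroup 3 P := (baumann_isPGroup T).to_le (zpowers_le.mpr hb)
  have hPU : P ≤ normalizer (U : Set G) := fun x hx =>
    H74.mem_normalizer_of_conj_mem fun u hu => hUb x (hbN hx) u hu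
  have hQZ : Q ≤ normalizer (Z : Set G) := by
    refine le_trans ?_ (centralizer_le_normalizer _)
    exact (core_le_centralizer_omega E).trans (centralizer_le inf_le_left)
  have qU := quadratic_of_index_le hZU hPp (hQp.to_le hUQ) (hbN.trans hNZ) (hUQ.trans hQZ) hPU
    (by rw [hUidx]; norm_num)
  have qW := quadratic_of_index_le (A := Z) (B := W) inf_le_left hPp hWp (hbN.trans hNZ)
    (hWQ.trans hQZ) (hbN.trans hNW) (by rw [hWidx]; norm_num)
  refine hquad b hb hbW ?_
  rw [← hP, ← hsupQ]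
  set S := U ⊔ W with hS
  have h1 : ⁅S, P⁆ ≤ ⁅U, P⁆ ⊔ ⁅W, P⁆ := by
    rw [commutator_le]
    intro s hs x hx
    rw [hS, ← SetLike.mem_coe, coe_mul_of_right_le_normalizer_left _ _ hWQn] at hs
    obtain ⟨u, hu, w, hw, rfl⟩ := hs
    have hwx : ⁅w, x⁆ ∈ W := by
      exact commutator_le_of_le_normalizer (hbN.trans hNW) (commutator_mem_commutator hw hx)
    have e : ⁅u * w, x⁆ = ⁅u, x⁆ * ⁅w, x⁆ := by
      have hx' : x * u⁻¹ * x⁻¹ ∈ Q :=
        (mem_normalizer_iff.mp (hNQ (hbN hx)) _).mp (inv_mem (hUQ hu))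
      have c1 := hWc _ hwx u (hUQ hu)
      have c2 := hWc _ hwx _ hx'
      calc ⁅u * w, x⁆ = u * ⁅w, x⁆ * (x * u⁻¹ * x⁻¹) := by simp only [commutatorElement_def]; group
        _ = u * (x * u⁻¹ * x⁻¹) * ⁅w, x⁆ := by rw [mul_assoc u, ← c2, ← mul_assoc]
        _ = ⁅u, x⁆ * ⁅w, x⁆ := by simp only [commutatorElement_def]; group
    rw [e]
    exact mul_mem (mem_sup_left (commutator_mem_commutator hu hx))
      (mem_sup_right (commutator_mem_commutator hw hx))
  refine (commutator_mono h1 le_rfl).trans ?_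
  rw [commutator_le]
  intro s hs x hx
  have hUP : ⁅U, P⁆ ≤ Q := (commutator_le_of_le_normalizer hPU).trans hUQ
  have hWP : ⁅W, P⁆ ≤ W := commutator_le_of_le_normalizer (hbN.trans hNW)
  have hn : ⁅W, P⁆ ≤ normalizer ((⁅U, P⁆ : Subgroup G) : Set G) := fun w hw =>
    H74.mem_normalizer_of_conj_mem fun u hu => by
      rw [← hWc w (hWP hw) u (hUP hu), mul_inv_cancel_right]; exact hu
  rw [← SetLike.mem_coe, coe_mul_of_right_le_normalizer_left _ _ hn] at hs
  obtain ⟨u, hu, w, hw, rfl⟩ := hs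
  have e : ⁅u * w, x⁆ = u * ⁅w, x⁆ * u⁻¹ * ⁅u, x⁆ := by simp only [commutatorElement_def]; group
  rw [e]
  refine mul_mem ?_ (qU (commutator_mem_commutator hu hx))
  exact (mem_normalizer_iff.mp (hQZ (hUP hu)) _).mp (qW (commutator_mem_commutator hw hx))

end Three

end Cfsg.Agent.H51
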