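import Cfsg.Agent.H51.SubnormalBlockNormalized

/-!
Two subnormal blocks with quaternion quotients normalizing each other are equal or commute.
-/

set_option autoImplicit false
set_option linter.style.haveILetI false
set_option linter.unusedSectionVars false

namespace Cfsg.Agent.H51

open Subgroup Cfsg
open scoped commutatorElement

variable {G : Type*} [Group G] [Finite G] [Fact (Nat.Prime 3)]

/-- An element of `2`-power order modulo `O_3(G)` fixing the module fixes the core. -/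
theorem three_fixes_core (hG : centralizer (pCore 3 G : Set G) ≤ pCore 3 G) (T : Sylow 3 G)
    {E : Subgroup G} (hT : IsBaumannBlock 3 (T : Subgroup G) E) (hE : IsSubnormalBlock 3 E)
    (hE3 : IsThreeBlock (T : Subgroup G) E) {x : G} (hxE : x ∈ normalizer (E : Set G))
    (hx2 : x ∈ coreRadical 3 2 G)
    (hxR : ∀ t ∈ pCore 3 G, x * t * x⁻¹ * t⁻¹ ∈ pCoreOf 3 E)
    (hxV : ∀ v ∈ ⁅omegaOneCenter 3 (pCoreOf 3 E), E⁆, x * v * x⁻¹ = v)
    (hxc : (orderOf x).Coprime 3) : ∀ q ∈ pCoreOf 3 E, x * q * x⁻¹ = q := by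
  set Q := pCoreOf 3 E with hQdef
  set W := omegaOneCenter 3 Q with hW
  rcases hE3.layers with h | ⟨hQQ, hidx, hquad⟩
  · exact fun q hq => hxV q (h.le hq)
  induction hn : orderOf x using Nat.strong_induction_on generalizing x with
  | _ n ih =>
  subst hn
  rcases eq_or_ne x 1 with rfl | hx1
  · simp
  haveI := pCore_normal 3 G
  haveI : Fact (Nat.Prime 2) := ⟨Nat.prime_two⟩
  have heven : 2 ∣ orderOf x := by
    obtain ⟨k, hk⟩ := coreRadical_pow hx2
    obtain ⟨j, hj⟩ := pCore_isPGroup 3 G ⟨_, hk⟩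
    have h1 : orderOf x ∣ 2 ^ k * 3 ^ j := orderOf_dvd_of_pow_eq_one (by
      rw [pow_mul]; simpa using congrArg Subtype.val hj)
    have h2 : orderOf x ∣ 2 ^ k := (hxc.pow_right j).dvd_of_dvd_mul_right h1
    obtain ⟨i, -, hi⟩ := (Nat.dvd_prime_pow Nat.prime_two).mp h2
    cases i with
    | zero => exact absurd (orderOf_eq_one_iff.mp (by simpa using hi)) hx1
    | succ i => rw [hi]; exact dvd_pow_self 2 (Nat.succ_ne_zero i)
  have hQn : x ∈ normalizer (Q : Set G) := normalizer_le_normalizer_core E hxE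
  have hWn : x ∈ normalizer (W : Set G) := normalizer_le_normalizer_omegaCore E hxE
  have hlt : orderOf (x ^ 2) < orderOf x := by
    rw [orderOf_pow' x two_ne_zero, Nat.gcd_eq_right heven]
    exact Nat.div_lt_self (orderOf_pos x) one_lt_two
  have hsq := ih _ hlt (pow_mem hxE 2) (pow_mem hx2 2) (hxc.coprime_dvd_left (orderOf_pow_dvd 2)) (fun t ht => by
      have h1 := hxR _ (Normal.conj_mem ‹_› t ht x)
      have h2 := mul_mem h1 (hxR t ht)
      convert h2 using 1
      rw [pow_two]; group) (fun v hv => by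
      calc x ^ 2 * v * (x ^ 2)⁻¹ = x * (x * v * x⁻¹) * x⁻¹ := by rw [pow_two]; group
        _ = v := by rw [hxV v hv, hxV v hv]) rfl
  have hWc : ∀ w ∈ W, ∀ q ∈ Q, q * w = w * q := fun w hw q hq =>
    (mem_centralizer_iff.mp (core_le_centralizer_omega E hq) w hw).symm
  have hQW : ∀ a ∈ Q, ∀ b ∈ Q, ⁅a, b⁆ ∈ W := fun a ha b hb =>
    (hQQ.le (commutator_mem_commutator ha hb)).1
  have hEx : ∀ a ∈ E, x * a * x⁻¹ * a⁻¹ ∈ Q := by
    intro a ha
    refine hE3.faithful _ (mul_mem ((mem_normalizer_iff.mp hxE a).mp ha) (inv_mem ha)) fun v hv => ?_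
    have hVn : a ∈ normalizer ((⁅W, E⁆ : Subgroup G) : Set G) :=
      normalizer_le_normalizer_module E (le_normalizer ha)
    have hv1 : a⁻¹ * v * a ∈ ⁅W, E⁆ := (mem_normalizer_iff''.mp hVn v).mp hv
    have h1 : x⁻¹ * (a⁻¹ * v * a) * x = a⁻¹ * v * a := by
      nth_rewrite 1 [← hxV _ hv1]
      group
    calc x * a * x⁻¹ * a⁻¹ * v * (x * a * x⁻¹ * a⁻¹)⁻¹
        = x * a * (x⁻¹ * (a⁻¹ * v * a) * x) * a⁻¹ * x⁻¹ := by group
      _ = x * v * x⁻¹ := by rw [h1]; group
      _ = v := hxV v hv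
  let U : Subgroup G :=
    { carrier := {q | q ∈ Q ∧ x * q * x⁻¹ * q⁻¹ ∈ W}
      one_mem' := ⟨one_mem _, by simp⟩
      mul_mem' := by
        rintro a b ⟨ha, ha'⟩ ⟨hb, hb'⟩
        refine ⟨mul_mem ha hb, ?_⟩
        have e : x * (a * b) * x⁻¹ * (a * b)⁻¹ =
            (x * a * x⁻¹ * a⁻¹) * (a * (x * b * x⁻¹ * b⁻¹) * a⁻¹) := by group
        rw [e, hWc _ hb' a ha, mul_inv_cancel_right]
        exact mul_mem ha' hb'
      inv_mem' := by
        rintro a ⟨ha, ha'⟩
        refine ⟨inv_mem ha, ?_⟩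
        have e : x * a⁻¹ * x⁻¹ * (a⁻¹)⁻¹ = a⁻¹ * (x * a * x⁻¹ * a⁻¹)⁻¹ * a := by group
        rw [e, hWc _ (inv_mem ha') a⁻¹ (inv_mem ha), inv_mul_cancel_right]
        exact inv_mem ha' }
  have hWU : W ≤ U := fun w hw => ⟨omega_le_core E hw,
    mul_mem ((mem_normalizer_iff.mp hWn w).mp hw) (inv_mem hw)⟩
  have hEU : E ≤ normalizer (U : Set G) := by
    refine fun a ha => H74.mem_normalizer_of_conj_mem ?_
    rintro u ⟨hu, hu'⟩
    have haQ : a ∈ normalizer (Q : Set G) := normalizer_le_normalizer_core E (le_normalizer ha)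
    have haW : a ∈ normalizer (W : Set G) := normalizer_le_normalizer_omegaCore E (le_normalizer ha)
    have hm : a * u * a⁻¹ ∈ Q := (mem_normalizer_iff.mp haQ u).mp hu
    refine ⟨hm, ?_⟩
    have hw := (mem_normalizer_iff.mp haW _).mp hu'
    have hq := hEx a ha
    set q := x * a * x⁻¹ * a⁻¹ with hqdef
    set w := a * (x * u * x⁻¹ * u⁻¹) * a⁻¹ with hwdef
    have e : x * (a * u * a⁻¹) * x⁻¹ * (a * u * a⁻¹)⁻¹ =
        (q * w) * (a * u * a⁻¹) * q⁻¹ * (a * u * a⁻¹)⁻¹ := by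
      rw [hqdef, hwdef]; group
    rw [e, hWc w hw q hq, mul_assoc w q, mul_assoc w, mul_assoc w, ← commutatorElement_def]
    exact mul_mem hw (hQW q hq _ hm)
  rcases block_top_irreducible hT U hWU (fun q hq => hq.1) hEU with hU | hU
  swap
  · exact fixes_core hT hxc hxV (fun q hq => (hU.ge hq).2)
  exfalso
  have hinv : ∀ q ∈ Q, x * q * x⁻¹ * q ∈ W := by
    intro q hq
    have hxq : x * q * x⁻¹ ∈ Q := (mem_normalizer_iff.mp hQn q).mp hq
    have hc := hQW _ hxq q hq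
    have ht : q * (x * q * x⁻¹) ∈ U := by
      refine ⟨mul_mem hq hxq, ?_⟩
      have h2 := hsq q hq
      have e : x * (q * (x * q * x⁻¹)) * x⁻¹ * (q * (x * q * x⁻¹))⁻¹ =
          ⁅x * q * x⁻¹, q⁆ := by
        calc x * (q * (x * q * x⁻¹)) * x⁻¹ * (q * (x * q * x⁻¹))⁻¹
            = (x * q * x⁻¹) * (x ^ 2 * q * (x ^ 2)⁻¹) * (x * q * x⁻¹)⁻¹ * q⁻¹ := by
              rw [pow_two]; group
          _ = ⁅x * q * x⁻¹, q⁆ := by rw [h2, commutatorElement_def]
      rw [e]; exact hc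
    rw [hU] at ht
    have := mul_mem hc ht
    convert this using 1
    rw [commutatorElement_def]
    group
  have hWfix : ∀ w ∈ W, x * w * x⁻¹ = w := by
    let C : Subgroup G :=
      { carrier := {g | x * g * x⁻¹ = g}
        one_mem' := by simp
        mul_mem' := fun {a b} ha hb => by
          show x * (a * b) * x⁻¹ = a * b
          calc x * (a * b) * x⁻¹ = (x * a * x⁻¹) * (x * b * x⁻¹) := by group
            _ = a * b := by rw [show x * a * x⁻¹ = a from ha, show x * b * x⁻¹ = b from hb]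
        inv_mem' := fun {a} ha => by
          show x * a⁻¹ * x⁻¹ = a⁻¹
          rw [← conj_inv, show x * a * x⁻¹ = a from ha] }
    have hZ : ⁅Q, Q⁆ ≤ C := by
      rw [commutator_le]
      intro a ha b hb
      show x * ⁅a, b⁆ * x⁻¹ = ⁅a, b⁆
      have hc := hinv a ha
      have hd := hinv b hb
      set c := x * a * x⁻¹ * a with hcdef
      set d := x * b * x⁻¹ * b with hddef
      have h1 : x * ⁅a, b⁆ * x⁻¹ = ⁅c * a⁻¹, d * b⁻¹⁆ := by
        rw [hcdef, hddef]
        simp only [commutatorElement_def]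
        group
      have ha' := inv_mem ha
      have hb' := inv_mem hb
      have hz : ⁅a, b⁆ ∈ W := hQW a ha b hb
      have e1 : d * b⁻¹ * c⁻¹ = c⁻¹ * (d * b⁻¹) :=
        hWc _ (inv_mem hc) _ (mul_mem (omega_le_core E hd) hb')
      have e2 : a⁻¹ * d = d * a⁻¹ := hWc d hd _ ha'
      have e3 : a * c⁻¹ = c⁻¹ * a := hWc _ (inv_mem hc) a ha
      have h2 : ⁅c * a⁻¹, d * b⁻¹⁆ = ⁅a⁻¹, b⁻¹⁆ := by
        have h3 : ⁅c * a⁻¹, d * b⁻¹⁆ = c * ⁅a⁻¹, d * b⁻¹⁆ * c⁻¹ * ⁅c, d * b⁻¹⁆ := by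
          simp only [commutatorElement_def]; group
        have h4 : ⁅c, d * b⁻¹⁆ = 1 :=
          commutatorElement_eq_one_iff_mul_comm.mpr
            (hWc c hc _ (mul_mem (omega_le_core E hd) hb')).symm
        have h5 : ⁅a⁻¹, d * b⁻¹⁆ = ⁅a⁻¹, b⁻¹⁆ := by
          have h6 : ⁅a⁻¹, d * b⁻¹⁆ = ⁅a⁻¹, d⁆ * (d * ⁅a⁻¹, b⁻¹⁆ * d⁻¹) := by
            simp only [commutatorElement_def]; group
          rw [h6, commutatorElement_eq_one_iff_mul_comm.mpr (hWc d hd _ ha'), one_mul,
            ← hWc d hd _ (omega_le_core E (hQW _ ha' _ hb')), mul_inv_cancel_right]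
        rw [h3, h4, mul_one, h5, ← hWc c hc _ (omega_le_core E (hQW _ ha' _ hb')),
          mul_inv_cancel_right]
      have h7 : ⁅a⁻¹, b⁻¹⁆ = ⁅a, b⁆ := by
        have hba : b * a * ⁅a⁻¹, b⁻¹⁆ * (b * a)⁻¹ = ⁅a, b⁆ := by
          simp only [commutatorElement_def]; group
        rw [← hba, hWc _ (hQW _ ha' _ hb') _ (mul_mem hb ha), mul_inv_cancel_right]
      rw [h1, h2, h7]
    have hle : W ≤ C := by
      rw [hW, ← block_module_decomp hT]
      exact sup_le (fun v hv => hxV v hv) (hQQ.ge.trans hZ)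
    exact fun w hw => hle hw
  exact no_top_inversion hG T hT hE hQQ hidx hquad hE3.card_module hE3.inf_centralizer hxE hx2 hxc
    hxR hWfix hinv

/-- The case of quaternion quotients. -/
theorem eq_or_commute_of_normalize_three (hG : centralizer (pCore 3 G : Set G) ≤ pCore 3 G)
    (T T' : Sylow 3 G) {E F : Subgroup G} (hT : IsBaumannBlock 3 (T : Subgroup G) E)
    (hT' : IsBaumannBlock 3 (T' : Subgroup G) F) (hE : IsSubnormalBlock 3 E)
    (hF : IsSubnormalBlock 3 F) (hE3 : IsThreeBlock (T : Subgroup G) E)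
    (hF3 : IsThreeBlock (T' : Subgroup G) F) (h1 : F ≤ normalizer (E : Set G))
    (h2 : E ≤ normalizer (F : Set G)) : E = F ∨ ⁅E, F⁆ = ⊥ := by
  by_cases hR : E ⊓ F ≤ pCore 3 G
  · exact eq_or_commute_of_comm_mod hG hE hF
      ((le_inf (commutator_le_of_le_normalizer h1)
        (commutator_comm E F ▸ commutator_le_of_le_normalizer h2)).trans hR)
  obtain ⟨d, hd, hdR⟩ := SetLike.not_le_iff_exists.mp hR
  haveI := pCore_normal 3 G
  obtain ⟨zE, hzE, -, hzEc, -⟩ := exists_blockInvolution hE3 hE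
  obtain ⟨zF, hzF, -, hzFc, -⟩ := exists_blockInvolution hF3 hF
  obtain ⟨z, hzEF, hz⟩ : ∃ z ∈ E ⊓ F, IsBlockInvolution E z := by
    rcases hzE.covers d hd.1 with h | h | h
    · exact absurd (hE.core_le h) hdR
    · exact ⟨d, hd, hzE.coset hT hE hd.1 h⟩
    · exact ⟨d ^ 2, pow_mem hd 2, hzE.coset hT hE (pow_mem hd.1 2) h⟩
  have hz2 : z ^ 2 ∈ pCore 3 G := by
    have h4 : z ^ 4 ∈ pCore 3 G := hzE.pow_four hE hzEc hz.mem
    rcases hz.covers _ (pow_mem hz.mem 2) with h | h | h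
    · exact hE.core_le h
    · rw [pow_two, inv_mul_cancel_left] at h
      exact absurd (hE.core_le h) hz.notMem
    · refine absurd ?_ hz.notMem
      have := mul_mem h4 (inv_mem (hE.core_le h))
      rwa [← pow_mul, mul_inv_rev, inv_inv, mul_inv_cancel_left] at this
  have hzF' : IsBlockInvolution F z := by
    rcases hzF.covers z hzEF.2 with h | h | h
    · exact absurd (hF.core_le h) hz.notMem
    · exact hzF.coset hT' hF hzEF.2 h
    · refine absurd ?_ hzF.notMem
      have := mul_mem hz2 (inv_mem (hF.core_le h))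
      rwa [mul_inv_rev, inv_inv, mul_inv_cancel_left] at this
  have hV : ⁅omegaOneCenter 3 (pCoreOf 3 E), E⁆ = ⁅omegaOneCenter 3 (pCoreOf 3 F), F⁆ :=
    le_antisymm (module_le_of_involution hG hE hF hz hzEF.2)
      (module_le_of_involution hG hF hE hzF' hzEF.1)
  have hmem : ∀ A : Subgroup G, ⁅omegaOneCenter 3 (pCoreOf 3 A), A⁆ ≤ pCoreOf 3 A := fun A =>
    (commutator_le_of_le_normalizer (le_normalizer.trans (normalizer_le_normalizer_omegaCore A))).trans
      (omega_le_core A)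
  have hQ : pCoreOf 3 E = pCoreOf 3 F :=
    le_antisymm (core_le_of_involution hE3 hT hE hF hz hzEF.2 (hV.le.trans (hmem F)))
      (core_le_of_involution hF3 hT' hF hE hzF' hzEF.1 (hV.ge.trans (hmem E)))
  have key : ∀ (S S' : Sylow 3 G) (A B : Subgroup G), IsBaumannBlock 3 (S : Subgroup G) A →
      IsSubnormalBlock 3 A → IsSubnormalBlock 3 B → IsThreeBlock (S : Subgroup G) A →
      IsThreeBlock (S' : Subgroup G) B → IsBlockInvolution B z → z ∈ A →
      B ≤ normalizer (A : Set G) →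
      ⁅omegaOneCenter 3 (pCoreOf 3 A), A⁆ = ⁅omegaOneCenter 3 (pCoreOf 3 B), B⁆ →
      pCoreOf 3 A = pCoreOf 3 B → B ≤ A ⊔ pCore 3 G := by
    intro S S' A B hS hA hB hA3 hB3 hzB hzA hBA hVV hQQ f hf
    set V := ⁅omegaOneCenter 3 (pCoreOf 3 A), A⁆ with hVdef
    rcases hzB.covers f hf with h | h | h
    · exact mem_sup_right (hB.core_le h)
    · have := mul_mem (mem_sup_left (T := pCore 3 G) hzA) (mem_sup_right (S := A) (hB.core_le h))
      rwa [mul_inv_cancel_left] at this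
    have hfV : f ∈ normalizer (V : Set G) := normalizer_le_normalizer_module A (hBA hf)
    obtain ⟨e, he, hev⟩ := hA3.realize f hfV (fun v hv => by
      have hvB : v ∈ ⁅omegaOneCenter 3 (pCoreOf 3 B), B⁆ := hVV.le hv
      have hvW : v ∈ omegaOneCenter 3 (pCoreOf 3 B) :=
        commutator_le_of_le_normalizer (le_normalizer.trans (normalizer_le_normalizer_omegaCore B)) hvB
      have hc := mem_centralizer_iff.mp (core_le_centralizer_omega B h) v hvW
      calc f * f * v * (f * f)⁻¹ = z * ((z⁻¹ * f ^ 2) * v) * (z⁻¹ * f ^ 2)⁻¹ * z⁻¹ := by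
            rw [pow_two]; group
        _ = z * (v * (z⁻¹ * f ^ 2)) * (z⁻¹ * f ^ 2)⁻¹ * z⁻¹ := by rw [hc]
        _ = z * v * z⁻¹ := by group
        _ = v⁻¹ := hzB.inverts v hvB)
    haveI := coreRadical_normal (G := G) (p := 3) 2
    haveI : Fact (Nat.Prime 2) := ⟨Nat.prime_two⟩
    have hxA : f * e⁻¹ ∈ normalizer (A : Set G) := mul_mem (hBA hf) (inv_mem (le_normalizer he))
    have hx2 : f * e⁻¹ ∈ coreRadical 3 2 G :=
      mul_mem (le_coreRadical_two hB3 hB hf) (inv_mem (le_coreRadical_two hA3 hA he))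
    have hxV : ∀ v ∈ V, f * e⁻¹ * v * (f * e⁻¹)⁻¹ = v := fun v hv => by
      have hv' : e⁻¹ * v * e ∈ V :=
        (mem_normalizer_iff''.mp (normalizer_le_normalizer_module A (le_normalizer he)) v).mp hv
      calc f * e⁻¹ * v * (f * e⁻¹)⁻¹ = f * (e⁻¹ * v * e) * f⁻¹ := by group
        _ = e * (e⁻¹ * v * e) * e⁻¹ := hev _ hv'
        _ = v := by group
    have hxR : ∀ t ∈ pCore 3 G, f * e⁻¹ * t * (f * e⁻¹)⁻¹ * t⁻¹ ∈ pCoreOf 3 A := fun t ht => by
      have h1 : ⁅f, e⁻¹ * t * e⁆ ∈ pCoreOf 3 A := hQQ.ge (hB.comm_core (commutator_mem_commutator hf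
        (by simpa using Normal.conj_mem ‹(pCore 3 G).Normal› t ht e⁻¹)))
      have h2 : ⁅e⁻¹, t⁆ ∈ pCoreOf 3 A := hA.comm_core (commutator_mem_commutator (inv_mem he) ht)
      convert mul_mem h1 h2 using 1
      simp only [commutatorElement_def]
      group
    let K : Subgroup G :=
      { carrier := {g | g ∈ normalizer (A : Set G) ∧ g ∈ coreRadical 3 2 G ∧
          (∀ t ∈ pCore 3 G, g * t * g⁻¹ * t⁻¹ ∈ pCoreOf 3 A) ∧ ∀ v ∈ V, g * v * g⁻¹ = v}
        one_mem' := ⟨one_mem _, one_mem _, fun t _ => by simp, fun v _ => by simp⟩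
        mul_mem' := by
          rintro g k ⟨g1, g2, g3, g4⟩ ⟨k1, k2, k3, k4⟩
          refine ⟨mul_mem g1 k1, mul_mem g2 k2, fun t ht => ?_, fun v hv => ?_⟩
          · have := mul_mem (g3 _ (Normal.conj_mem ‹(pCore 3 G).Normal› t ht k)) (k3 t ht)
            convert this using 1
            group
          · calc g * k * v * (g * k)⁻¹ = g * (k * v * k⁻¹) * g⁻¹ := by group
              _ = v := by rw [k4 v hv, g4 v hv]
        inv_mem' := by
          rintro g ⟨g1, g2, g3, g4⟩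
          refine ⟨inv_mem g1, inv_mem g2, fun t ht => ?_, fun v hv => ?_⟩
          · have := inv_mem (g3 _ (Normal.conj_mem ‹(pCore 3 G).Normal› t ht g⁻¹))
            convert this using 1
            group
          · nth_rewrite 1 [← g4 v hv]
            group }
    have hx : f * e⁻¹ ∈ pCore 3 G := by
      refine mem_core_of_fixes hG (H74.pCoreOf_isPGroup A) (r := 2) (by norm_num)
        (coreRadical_pow hx2) hxR (fun q hq y hy hyc => ?_)
      have hyK : y ∈ K := zpowers_le.mpr (show f * e⁻¹ ∈ K from ⟨hxA, hx2, hxR, hxV⟩) hy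
      exact three_fixes_core hG S hS hA hA3 hyK.1 hyK.2.1 hyK.2.2.1 hyK.2.2.2 hyc q hq
    have hfe : f = (f * e⁻¹) * e := by group
    rw [hfe]
    exact mul_mem (mem_sup_right hx) (mem_sup_left he)
  exact Or.inl (hE.eq_of_le_sup hF (key T' T F E hT' hF hE hF3 hE3 hz hzEF.2 h2 hV.symm hQ.symm)
    (key T T' E F hT hE hF hE3 hF3 hzF' hzEF.1 h1 hV hQ))

end Cfsg.Agent.H51
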